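import Cfsg.Agent.H1.FP0

/-! S4181 / S3580: chunks KA, KB. -/

set_option autoImplicit false

namespace H18.FP
open MulAction H1.FP Equiv
universe u

/-- the `r`-part of an element whose image has order `r` -/
theorem part {K M : Type*} [Group K] [Finite K] [Group M] (f : K →* M) (h : K) {r : ℕ} (hr : r.Prime)
    (ho : orderOf (f h) = r) : ∃ m j : ℕ, (h ^ m) ^ r ^ j = 1 ∧ f (h ^ m) ≠ 1 := by
  obtain ⟨j, m, hm, e⟩ := Nat.exists_eq_pow_mul_and_not_dvd (orderOf_pos h).ne' r hr.ne_one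
  refine ⟨m, j, by rw [← pow_mul, mul_comm, ← e, pow_orderOf_eq_one], fun k => hm ?_⟩
  rw [map_pow] at k
  exact ho ▸ orderOf_dvd_of_pow_eq_one k

theorem ka (l1 : L1.{u}) (al : AL.{u}) (kr' : KR.{u}) (ce : CE.{u}) : KA.{u} := by
  intro p K _ _ x A _ _ Θ _ _ s p5 ha ht hl hf
  classical
  have := Fintype.ofFinite A
  have := Fact.mk s.hp
  have r := al p K x A s (by omega) ha
  obtain ⟨tA, lA, fA⟩ := ha
  have f3 : 3 ≤ fx x A := by omega
  have k := kr' p K x A Θ s (l1 p K x A s tA lA).1 (by omega) ht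
    (by rw [card_eq (Δ := Θ) s.hp s.ord, hl]; omega)
  obtain ⟨a, b, c, a1, b1, c1, ab, ac, bc⟩ := (Set.two_lt_ncard_iff (s := fixedBy A x)).1 (by rw [← fx_eq]; omega)
  have t3 := Perm.isThreeCycle_swap_mul_swap_same ab ac bc
  obtain ⟨g, hg⟩ : swap a b * swap a c ∈ (toPermHom K A).range := r ▸ t3.mem_alternatingGroup
  set φ := toPermHom K A with hφ
  have sw : ∀ d e : A, x • d = d → x • e = e → Commute (φ x) (swap d e) := fun d e hd he => by
    have := mul_swap_eq_swap_mul (φ x) d e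
    rw [show φ x d = d from hd, show φ x e = e from he] at this
    exact this
  have cm : Commute (φ x) (φ g) := hg ▸ (sw a b a1 b1).mul_right (sw a c a1 c1)
  have e1 : φ (g * x * g⁻¹) = φ x := by
    rw [map_mul, map_mul, map_inv, ← cm.eq, mul_inv_cancel_right]
  have oy : orderOf (g * x * g⁻¹) = p := s.ord ▸ (MulAut.conj g).orderOf_eq x
  have xM : x ∈ φ.ker ⊔ Subgroup.zpowers x := Subgroup.mem_sup_right (Subgroup.mem_zpowers x)
  have yM : g * x * g⁻¹ ∈ φ.ker ⊔ Subgroup.zpowers x := by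
    have : g * x * g⁻¹ * x⁻¹ ∈ φ.ker := by rw [MonoidHom.mem_ker, map_mul, e1, map_inv, mul_inv_cancel]
    simpa using mul_mem (Subgroup.mem_sup_left this) xM
  obtain ⟨m, hm⟩ := (s.sub (mem_Op xM s.ord)).conj (y := ⟨_, mem_Op yM oy⟩)
    (by rw [← Subgroup.orderOf_coe]; exact oy)
  obtain ⟨i, hi⟩ : (⟨_, mem_Op yM oy⟩ : Op p (φ.ker ⊔ Subgroup.zpowers x)) ∈ _ := hm ▸ Subgroup.mem_zpowers _
  have hi' : (m : K) * x ^ i * (m : K)⁻¹ = g * x * g⁻¹ := by
    have := congrArg Subtype.val hi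
    simpa [conj_zpow] using this
  have mM : (m : K) ∈ ((φ.ker ⊔ Subgroup.zpowers x : Subgroup K) : Set K) := Op_le _ m.2
  rw [Subgroup.normal_mul] at mM
  obtain ⟨n, hn, _, ⟨j, rfl⟩, e⟩ := mM
  have n1 : φ n = 1 := hn
  have e2 : n * x ^ i * n⁻¹ = g * x * g⁻¹ := by rw [← hi', ← e]; dsimp only; group
  have oX : orderOf (φ x) = p := by
    refine orderOf_eq_prime (by rw [← map_pow, ← s.ord, pow_orderOf_eq_one, map_one]) fun h => ?_
    obtain ⟨w, hw⟩ := s.moves tA (by have := fx_le (x := x) (Δ := A); omega)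
    exact hw (congrArg (fun σ : Perm A => σ w) h)
  have e3 : x ^ i = x := by
    have h1 : φ x ^ (i - 1) = 1 := by
      have := congrArg φ e2
      rw [e1, map_mul, map_mul, map_inv, n1, map_zpow, one_mul, inv_one, mul_one] at this
      rw [zpow_sub, zpow_one, this, mul_inv_cancel]
    have h2 := orderOf_dvd_iff_zpow_eq_one.2 h1
    rw [oX, ← s.ord, orderOf_dvd_iff_zpow_eq_one, zpow_sub, zpow_one, mul_inv_eq_one] at h2
    exact h2
  have c2 : Commute x (n⁻¹ * g) := by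
    rw [e3] at e2
    calc x * (n⁻¹ * g) = n⁻¹ * (n * x * n⁻¹) * g := by group
      _ = n⁻¹ * g * x := by rw [e2]; group
  obtain ⟨m', j', h1, h2⟩ := part φ (n⁻¹ * g) Nat.prime_three
    (by rw [map_mul, map_inv, n1, hg, inv_one, one_mul]; exact t3.orderOf)
  obtain ⟨u1, u2⟩ := ce K Θ x _ p 3 j' s.hp Nat.prime_three (by omega) s.ord h1 (c2.pow_right m')
  refine h2 (k (Perm.ext fun w => ?_))
  by_cases h : x • w = w
  · exact u2 (by omega) w h
  · exact u1 (by omega) w h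

theorem kb (l1 : L1.{u}) (al : AL.{u}) (kr' : KR.{u}) (ps : PS.{u}) : KB.{u} := by
  intro K _ _ x A _ _ Θ _ _ s ha f2 ht hc
  classical
  have := Fintype.ofFinite A
  have := Fintype.ofFinite Θ
  have := Fact.mk Nat.prime_five
  have r := al 3 K x A s le_rfl ha
  obtain ⟨tA, lA, -⟩ := ha
  have tK : IsPretransitive K Θ := ⟨fun a b => by
    obtain ⟨g, hg⟩ := ht.exists_smul_eq a b; exact ⟨g, hg⟩⟩
  have k := kr' 3 K x A Θ s (l1 3 K x A s tA lA).1 (by omega) tK (by omega)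
  have c5 : Nat.card A = 5 := by rw [card_eq (Δ := A) s.hp s.ord, lA, f2]
  have : Nontrivial A := Finite.one_lt_card_iff_nontrivial.1 (by omega)
  have c60 : Nat.card (toPermHom K A).range = 60 := by rw [r, nat_card_alternatingGroup, c5]; rfl
  obtain ⟨⟨_, g, rfl⟩, hg⟩ := exists_prime_orderOf_dvd_card' (G := (toPermHom K A).range) 5 (by rw [c60]; decide)
  obtain ⟨m, j, h1, h2⟩ := part (toPermHom K A) g Nat.prime_five (by rw [← hg, ← Subgroup.orderOf_coe])
  set y := g ^ m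
  have cP : ¬ 25 ∣ Nat.card (Perm Θ) := by
    rw [Nat.card_perm]; rcases hc with h | h <;> rw [h] <;> decide
  have n1 : toPermHom K Θ y ≠ 1 := fun h => h2 (k h)
  have o5 : orderOf (toPermHom K Θ y) = 5 := by
    obtain ⟨i, -, hi⟩ := (Nat.dvd_prime_pow Nat.prime_five).1
      (orderOf_dvd_of_pow_eq_one (show toPermHom K Θ y ^ 5 ^ j = 1 by rw [← map_pow, h1, map_one]))
    rcases i with _ | _ | i
    · exact absurd (orderOf_eq_one_iff.1 hi) n1
    · simpa using hi
    · refine absurd (Dvd.dvd.trans ⟨5 ^ i, ?_⟩ (orderOf_dvd_natCard (toPermHom K Θ y))) cP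
      rw [hi]; ring
  have nd : ¬ 5 ∣ Nat.card ((kr K A).map (toPermHom K Θ)) := fun h => cP (by
    have e := Subgroup.relIndex_mul_index k
    rw [Subgroup.relIndex_ker, Subgroup.index_ker, Subgroup.index_ker, c60] at e
    refine Dvd.dvd.trans ?_ (Subgroup.card_subgroup_dvd_card (toPermHom K Θ).range)
    rw [← e]
    exact Nat.mul_dvd_mul h (by decide : 5 ∣ 60))
  have b := ps K Θ (kr K A) y 5 Nat.prime_five (by rw [Subgroup.normalizer_eq_top]; trivial) nd
    (fun w => by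
      have : toPermHom K Θ (y ^ 5) = 1 := by rw [map_pow, ← o5, pow_orderOf_eq_one]
      exact congrArg (fun σ : Perm Θ => σ w) this)
    (by by_contra h; push Not at h; exact n1 (Perm.ext h)) ht
  have e := card_eq (Δ := Θ) Nat.prime_five o5
  have e' : fx (toPermHom K Θ y) Θ = fx y Θ := rfl
  omega

end H18.FP
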