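import Cfsg.Agent.H17.FV0

/-! S5720: the chunk `SL` (lower bound for the rank of `Y`). -/

set_option autoImplicit false
set_option linter.unusedVariables false
set_option linter.unusedSectionVars false

open Module H17.FV

namespace H18.FY

universe v w

theorem rk_add {K M : Type*} [Field K] [AddCommGroup M] [Module K M] [FiniteDimensional K M]
    (f g : End K M) : finrank K (LinearMap.range (f + g)) ≤
      finrank K (LinearMap.range f) + finrank K (LinearMap.range g) :=
  (Submodule.finrank_mono (LinearMap.range_add_le f g)).trans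
    (Submodule.finrank_add_le_finrank_add_finrank _ _)

theorem sl : SL.{v, w} := by
  intro K A M _ _ _ _ _ _ _ _ p _ _ D ν hp hν ef hz
  obtain ⟨y1, a1, b1⟩ := ef.Ue (-1)
  obtain ⟨y2, a2, b2⟩ := ef.Ue ((ν : ZMod p) ^ 2)
  obtain ⟨y3, a3, b3⟩ := ef.Ue (-(ν : ZMod p))
  obtain ⟨y4, a4, b4⟩ := ef.Ue ((ν⁻¹ : (ZMod p)ˣ) : ZMod p)
  have cm : ∀ y ∈ Algebra.adjoin K {D.e}, Commute D.e y := fun y hy =>
    Algebra.commute_of_mem_adjoin_singleton_of_commute hy (Commute.refl _)
  have c1 := cm _ (sub_mem a1 a2)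
  have c2 := cm _ (sub_mem a3 a4)
  set x : K := D.φ ν with hx
  set x' : K := D.φ ((ν⁻¹ : (ZMod p)ˣ) : ZMod p) with hx'
  have xx : x * x' = 1 := by rw [hx, hx', ← map_mul, Units.mul_inv, map_one]
  let d : A := (1 + x ^ 2) • D.H ν⁻¹ - (x + x') • 1 + D.π 1
  let ε : A := D.H ν⁻¹ * (D.e * (y1 - y2)) - D.e * (y3 - y4)
  have hH : ∀ l i, ∃ y, D.H l * D.e ^ i = D.e ^ i * y := fun l i => by
    induction i with
    | zero => exact ⟨D.H l, by simp⟩
    | succ i ih =>
      obtain ⟨y, e⟩ := ih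
      exact ⟨D.φ ((l : ZMod p) ^ 2) • y, by
        rw [pow_succ', ← mul_assoc, ef.He, smul_mul_assoc, mul_assoc, e, mul_smul_comm, mul_assoc]⟩
  have mem : ∀ (i : ℕ) (y : A) (m : M), (D.e ^ i * y) • m ∈ LinearMap.range (act K M D.e ^ i) :=
    fun i y m => ⟨y • m, by rw [← map_pow, mul_smul]; rfl⟩
  have pH : ∀ l i, ∀ m ∈ LinearMap.range (act K M D.e ^ i),
      D.H l • m ∈ LinearMap.range (act K M D.e ^ i) := by
    rintro l i _ ⟨m, rfl⟩
    obtain ⟨y, e⟩ := hH l i
    rw [← map_pow]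
    change D.H l • D.e ^ i • m ∈ _
    rw [← mul_smul, e, map_pow]
    exact mem i y m
  have pe : ∀ y, Commute D.e y → ∀ i, ∀ m ∈ LinearMap.range (act K M D.e ^ i),
      (D.e * y) • m ∈ LinearMap.range (act K M D.e ^ (i + 1)) := by
    rintro y hy i _ ⟨m, rfl⟩
    rw [← map_pow (Algebra.lsmul K K M) D.e i]
    change (D.e * y) • D.e ^ i • m ∈ _
    rw [← mul_smul, mul_assoc, ← (hy.pow_left i).eq, ← mul_assoc, ← pow_succ']
    exact mem _ y m
  have x2 : 1 + x ^ 2 ≠ 0 := fun e => by
    have e1 : ν ^ 4 = 1 := Units.ext (D.φ.injective (by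
      rw [Units.val_pow_eq_pow_val, map_pow, Units.val_one, map_one, ← hx]
      linear_combination (x ^ 2 - 1) * e))
    have := Nat.le_of_dvd (by norm_num) (orderOf_dvd_of_pow_eq_one e1)
    omega
  have inj : Function.Injective (act K M d) := (injective_iff_map_eq_zero _).2 fun m hm => by
    have k : ∀ j, D.π j • m = 0 := fun j => by
      have e : (D.π j * d) • m = 0 := by rw [mul_smul, show d • m = 0 from hm, smul_zero]
      simp only [d, mul_add, mul_sub, mul_smul_comm, mul_one, ef.πH, smul_smul, map_pow, ← hx'] at e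
      by_cases hj : j ≡ 1 [MOD p - 1]
      · have e1 : x' ^ j = x' := by
          have : ν⁻¹ ^ j = ν⁻¹ ^ 1 := pow_eq_pow_iff_modEq.2 (by rwa [orderOf_inv, hν])
          rw [hx', ← map_pow, ← Units.val_pow_eq_pow_val, this, pow_one]
        rwa [e1, show (1 + x ^ 2) * x' = x + x' by linear_combination x * xx, sub_self, zero_add,
          ← ef.per j 1 hj, ef.ππ] at e
      · rw [ef.orth j 1 hj, add_zero, ← sub_smul, smul_assoc, smul_eq_zero,
          show (1 + x ^ 2) * x' ^ j - (x + x') = (1 + x ^ 2) * (x' ^ j - x') by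
            linear_combination x * xx] at e
        refine e.resolve_left (mul_ne_zero x2 (sub_ne_zero.2 fun e1 => hj ?_))
        have : ν⁻¹ ^ j = ν⁻¹ ^ 1 := Units.ext (D.φ.injective (by
          rw [Units.val_pow_eq_pow_val, map_pow, pow_one, ← hx', e1]))
        have := pow_eq_pow_iff_modEq.1 this
        rwa [orderOf_inv, hν] at this
    rw [← one_smul A m, ← ef.sum, Finset.sum_smul]
    exact Finset.sum_eq_zero fun j _ => k j
  have nil : IsNilpotent (act K M D.e) := ⟨p, by rw [← map_pow, ef.ep, map_zero]⟩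
  have key := tr nil inj (E := act K M ε) (fun i m hm => by
      change d • m ∈ _
      simp only [d, Dat.π, add_smul, sub_smul, smul_assoc, one_smul, neg_smul, Finset.sum_smul]
      exact add_mem (sub_mem (add_mem (pH _ i m hm) (Submodule.smul_mem _ _ (pH _ i m hm)))
        (add_mem (Submodule.smul_mem _ _ hm) (Submodule.smul_mem _ _ hm)))
        (neg_mem (Submodule.sum_mem _ fun l _ => Submodule.smul_mem _ _ (pH _ i m hm))))
    fun i m hm => by
      change ε • m ∈ _
      rw [sub_smul, mul_smul]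
      exact sub_mem (pH _ _ _ (pe _ c1 i m hm)) (pe _ c2 i m hm)
  have pi : D.e * D.π (p - 2) = D.π 1 * D.e := by
    rw [ef.eπ, ef.per (p - 2 + 2) 1]
    rw [show p - 2 + 2 = 1 + (p - 1) by omega]
    exact Nat.add_modEq_right
  have id1 : (d + ε) * D.e = D.H ν⁻¹ * (D.U (-1) - D.U ((ν : ZMod p) ^ 2)) -
      (D.U (-(ν : ZMod p)) - D.U ((ν⁻¹ : (ZMod p)ˣ) : ZMod p)) + D.π 1 * D.e := by
    have e1 : D.U (-1) - D.U ((ν : ZMod p) ^ 2) = (1 + x ^ 2) • D.e + D.e * (y1 - y2) * D.e := by
      rw [b1, b2, mul_assoc D.e (y1 - y2), ← c1.eq, map_neg, map_one, map_pow, ← hx]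
      simp only [mul_sub, mul_assoc]
      module
    have e2 : D.U (-(ν : ZMod p)) - D.U ((ν⁻¹ : (ZMod p)ˣ) : ZMod p) =
        (x + x') • D.e + D.e * (y3 - y4) * D.e := by
      rw [b3, b4, mul_assoc D.e (y3 - y4), ← c2.eq, map_neg, ← hx]
      simp only [mul_sub, mul_assoc]
      module
    rw [e1, e2]
    simp only [d, ε, add_mul, sub_mul, mul_add, smul_mul_assoc, mul_smul_comm, one_mul, mul_assoc]
    abel
  have id2 : (act K M d + act K M ε) ∘ₗ act K M D.e = act K M (D.Y ν) + act K M (D.e * D.π (p - 2)) :=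
    LinearMap.ext fun m => by
      change d • D.e • m + ε • D.e • m = D.Y ν • m + (D.e * D.π (p - 2)) • m
      rw [← add_smul, ← mul_smul, id1, pi, Dat.Y]
      simp only [add_smul, sub_smul, mul_smul, hz, smul_add, smul_sub, smul_neg]
      abel
  have := rk_add (act K M (D.Y ν)) (act K M (D.e * D.π (p - 2)))
  rw [← id2, LinearMap.range_comp, ← (Submodule.equivMapOfInjective _ key _).finrank_eq] at this
  exact this

end H18.FY
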