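import Cfsg.Agent.H18.E7b
import Cfsg.Agent.H16.Slp

/-! Weights of abelian subgroups of `E₇(2)` of odd order. -/

set_option autoImplicit false

namespace H18.E7

open Module H16 H23.Sec H23.Wag

section wt
variable {ι : Type} [Fintype ι] [DecidableEq ι] {l : ℕ} [NeZero l] {ζ : K}

/-- multiplicities of weights -/
noncomputable def cw (W : Submodule K V) (Y : ι → G) (ζ : K) (w : ι → ZMod l) : ℕ :=
  finrank K ↥(W ⊓ J Y fun i => ζ ^ (w i).val)

variable (hζ : IsPrimitiveRoot ζ l) {W : Submodule K V} {Y : ι → G}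
  (hW : ∀ i, ∀ v ∈ W, ρ (Y i) v ∈ W)
  (hc : ∀ i j, ∀ v ∈ W, ρ (Y i) (ρ (Y j) v) = ρ (Y j) (ρ (Y i) v)) (h1 : ∀ i, Y i ^ l = 1)
include hζ hW hc h1

theorem wt {I : Type} [Fintype I] (y : I → G) (φ : I → (ι → ZMod l) → ZMod l)
    (hy : ∀ k w, ∀ v ∈ W, (∀ i, ρ (Y i) v = ζ ^ (w i).val • v) →
      ρ (y k) v = ζ ^ (φ k w).val • v) (χ : I → ZMod l) :
    finrank K ↥(W ⊓ J y fun k => ζ ^ (χ k).val) =
      ∑ w with (fun k => φ k w) = χ, cw W Y ζ w := by
  let f : ι → End K W := fun i => (ρ (Y i)).restrict (hW i)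
  have h2 : ∀ i, f i ^ l = 1 := fun i => by
    rw [End.pow_restrict _ (hW i)]; ext v; simp [← map_pow, h1]
  have h3 : ∀ i, (f i).IsSemisimple := fun i => End.isSemisimple_of_squarefree_aeval_eq_zero
    (Polynomial.separable_X_pow_sub_C (1 : K) (hζ.neZero' (R := K)).ne one_ne_zero).squarefree
    (by simp [h2])
  have h4 := End.iSup_iInf_maxGenEigenspace_eq_top_of_iSup_maxGenEigenspace_eq_top_of_commute
    f (fun i j _ => LinearMap.ext fun v => Subtype.ext (hc i j v v.2))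
    fun i => End.iSup_maxGenEigenspace_eq_top _
  simp only [(h3 _).isFinitelySemisimple.maxGenEigenspace_eq_eigenspace] at h4
  rw [Submodule.iSup_eq_span] at h4
  obtain ⟨s, a1, a2, a3⟩ := exists_linearIndependent K (⋃ χ : ι → K,
    ((⨅ i, (f i).eigenspace (χ i) : Submodule K W) : Set W))
  let b := Basis.mk a3 (by rw [Subtype.range_coe_subtype, Set.ofPred_mem_eq, a2, h4])
  have : Fintype s := a3.setFinite.fintype
  have h5 : ∀ x : s, ∃ w : ι → ZMod l, ∀ i, ρ (Y i) (b x) = ζ ^ (w i).val • (b x).1 := fun x => by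
    obtain ⟨χ, hχ⟩ := Set.mem_iUnion.1 (a1 x.2)
    have hχ' : ∀ i, f i (b x) = χ i • b x := fun i => by
      rw [Basis.mk_apply]; exact End.mem_eigenspace_iff.1 ((Submodule.mem_iInf _).1 hχ i)
    choose w hw using fun i => root_val hζ (eig_root (b.ne_zero x) (hχ' i) (h2 i))
    exact ⟨w, fun i => hw i ▸ congrArg Subtype.val (hχ' i)⟩
  choose w hw using h5
  have h6 : ∀ {I : Type} [Fintype I] (y : I → G) (φ : s → I → ZMod l), (∀ x j, ρ (y j) (b x) =
      ζ ^ (φ x j).val • (b x).1) → ∀ χ : I → ZMod l, finrank K ↥(W ⊓ J y fun k => ζ ^ (χ k).val) =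
        (Finset.univ.filter fun x => φ x = χ).card := fun {I} _ y φ h χ => by
    let g : I → End K W := fun j => b.constr K fun x => ζ ^ (φ x j).val • b x
    have hg : ∀ j (v : W), (g j v).1 = ρ (y j) v := fun j v => DFunLike.congr_fun
      (b.ext (f₁ := W.subtype.comp (g j)) (f₂ := (ρ (y j)).comp W.subtype) fun x => by
        simp only [g, LinearMap.comp_apply, Basis.constr_basis, Submodule.subtype_apply, h,
          Submodule.coe_smul]) v
    have := diag_dim b g (fun x j => ζ ^ (φ x j).val) (fun x j => Basis.constr_basis ..)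
      fun k => ζ ^ (χ k).val
    rw [← Submodule.finrank_map_subtype_eq, show (⨅ j, (g j).eigenspace (ζ ^ (χ j).val)) =
      (J y fun k => ζ ^ (χ k).val).comap W.subtype by
        ext v; simp [mem_J, Subtype.ext_iff, hg], Submodule.map_comap_subtype] at this
    rw [this, ← Set.ncard_coe_finset]
    congr 1; ext x
    simp only [Set.mem_ofPred_eq, Finset.coe_filter, Finset.mem_univ, true_and, funext_iff]
    exact forall_congr' fun i => ⟨val_inj' hζ, fun e => by rw [e]⟩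
  rw [h6 _ (fun x k => φ k (w x)) fun x k => hy k _ _ (b x).2 (hw x)]
  simp only [cw, h6 Y w hw]
  rw [Finset.sum_card_fiberwise_eq_card_filter]
  simp

theorem wt1 (y : G) (φ : (ι → ZMod l) → ZMod l)
    (hy : ∀ w, ∀ v ∈ W, (∀ i, ρ (Y i) v = ζ ^ (w i).val • v) → ρ y v = ζ ^ (φ w).val • v)
    (j : ZMod l) : finrank K ↥(W ⊓ (ρ y).eigenspace (ζ ^ j.val)) =
      ∑ w, if φ w = j then cw W Y ζ w else 0 := by
  have := wt hζ hW hc h1 (fun _ : Unit => y) (fun _ => φ) (fun _ => hy) fun _ => j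
  rw [J, iInf_unique] at this
  simpa only [funext_iff, forall_const, Finset.sum_filter] using this

theorem wt0 : finrank K W = ∑ w : ι → ZMod l, cw W Y ζ w := by
  have := wt hζ hW hc h1 (I := Fin 0) ![] ![] (fun k => k.elim0) ![]
  rwa [J, iInf_of_empty, inf_top_eq, Finset.filter_true_of_mem fun _ _ => Subsingleton.elim _ _]
    at this

theorem four {α : Type} (D : List α) (y : α → G) (e : α → List ι)
    (hy : ∀ d ∈ D, ∀ w : ι → ZMod l, ∀ v ∈ W, (∀ i, ρ (Y i) v = ζ ^ (w i).val • v) →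
      ρ (y d) v = ζ ^ ((e d).map w).sum.val • v) {A C : ℕ}
    (h3 : ∀ w : ι → ZMod l, D.countP (fun d => ((e d).map w).sum = 0) = if w = 0 then A + C else C)
    (u : ι → ZMod l) : (D.map fun d => finrank K ↥(W ⊓ (ρ (y d)).eigenspace
      (ζ ^ ((e d).map u).sum.val))).sum = A * cw W Y ζ u + C * finrank K W := by
  have k : (D.map fun d => finrank K ↥(W ⊓ (ρ (y d)).eigenspace (ζ ^ ((e d).map u).sum.val))).sum =
      ∑ w, D.countP (fun d => ((e d).map (w - u)).sum = 0) * cw W Y ζ w := by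
    clear h3
    induction D with
    | nil => simp
    | cons d D ih =>
      rw [List.map_cons, List.sum_cons, ih fun d hd => hy d (List.mem_cons_of_mem _ hd),
        wt1 hζ hW hc h1 _ _ (hy d (List.mem_cons_self ..)), ← Finset.sum_add_distrib]
      refine Finset.sum_congr rfl fun w _ => ?_
      have : ((e d).map (w - u)).sum = ((e d).map w).sum - ((e d).map u).sum := by
        induction e d with
        | nil => simp
        | cons a L ih => simp [ih]; abel
      rw [List.countP_cons, this, add_mul, add_comm]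
      simp [sub_eq_zero]
  rw [k, wt0 hζ hW hc h1, Finset.mul_sum]
  simp only [h3, sub_eq_zero, ite_mul, add_mul]
  rw [← Finset.add_sum_erase _ _ (Finset.mem_univ u), ← Finset.add_sum_erase _ _ (Finset.mem_univ u),
    if_pos rfl, add_assoc, Finset.sum_congr rfl fun w hw => if_neg (Finset.ne_of_mem_erase hw)]

omit hW hc h1 [Fintype ι] [DecidableEq ι] in
theorem eig_ev {h : ℕ → G} {f : ι → ℕ} {w : ι → ZMod l} {v : V}
    (hv : ∀ i, ρ (h (f i)) v = ζ ^ (w i).val • v) (L : List ι) :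
    ρ (evA h (L.map f)) v = ζ ^ (L.map w).sum.val • v := by
  induction L with
  | nil => simp [evA_nil]
  | cons i L ih =>
    rw [List.map_cons, evA_cons, map_mul, End.mul_apply, hv, map_smul, ih, smul_smul, ← pow_add,
      List.map_cons, List.sum_cons, ZMod.val_add, ← pow_eq_pow_mod _ hζ.pow_eq_one]

end wt

theorem comm_app {x y : G} (h : Commute x y) (v : V) : ρ x (ρ y v) = ρ y (ρ x v) := by
  rw [← End.mul_apply, ← map_mul, h.eq, map_mul, End.mul_apply]

theorem J_conj {I : Type*} {y y' : I → G} {μ μ' : I → K} (g : G)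
    (h : ∀ v ∈ J y μ, ρ g v ∈ J y' μ') : finrank K (J y μ) ≤ finrank K (J y' μ') :=
  LinearMap.finrank_le_finrank_of_injective (f := (ρ g).restrict h) fun _ _ e =>
    Subtype.ext (ρ_inj (ρ := ρ) g (congrArg Subtype.val e :))

theorem t3 {ω : K} (hω : IsPrimitiveRoot ω 3) {s : G} (hs : s ^ 3 = 1) (h1 : s ≠ 1) :
    (dm s 1 = 2 ∧ dm s ω = 27 ∨ dm s 1 = 14 ∧ dm s ω = 21 ∨ dm s 1 = 20 ∧ dm s ω = 18 ∨
      dm s 1 = 32 ∧ dm s ω = 12) ∧ dm s (ω ^ 2) = dm s ω := by
  have := tab (by decide) tb3 hω hs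
  have h2 := dm_lt h1
  simp only [List.mem_cons, Prod.mk.injEq, List.not_mem_nil, ZMod.val_zero, ZMod.val_one, pow_zero,
    pow_one, or_false] at this
  exact ⟨by omega, (dm_Φ _ _).symm⟩

theorem t5 {ζ : K} (hζ : IsPrimitiveRoot ζ 5) {s : G} (hs : s ^ 5 = 1) (h1 : s ≠ 1) (j : ZMod 5) :
    dm s (ζ ^ j.val) = if j = 0 then 16 else 10 :=
  (tab (by decide) tb5 hζ hs).resolve_left (by simpa using dm_lt h1) j

theorem t5' {s : G} (hs : s ^ 5 = 1) (h1 : s ≠ 1) : dm s 1 = 16 := by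
  obtain ⟨ζ, hζ⟩ := ex_prim (l := 5) (by decide)
  simpa using t5 hζ hs h1 0

theorem t13 {s : G} (hs : s ^ 13 = 1) (h1 : s ≠ 1) : dm s 1 = 8 := by
  obtain ⟨ζ, hζ⟩ := ex_prim (l := 13) (by decide)
  simpa [dm_lt h1] using tab (by decide) tb13 hζ hs

/-- the norm operator -/
noncomputable def Nm (g : G) (n : ℕ) : End K V := ∑ i ∈ Finset.range n, ρ g ^ i

theorem Nm_left {g : G} {n : ℕ} (h : g ^ n = 1) (v : V) : ρ g (Nm g n v) = Nm g n v := by
  rw [← sub_eq_zero]
  exact (DFunLike.congr_fun (mul_geom_sum (ρ g) n) v).trans (by simp [← map_pow, h])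

theorem Nm_right {g : G} {n : ℕ} (h : g ^ n = 1) (i : ℕ) (v : V) :
    Nm g n (ρ (g ^ i) v) = Nm g n v := by
  induction i with
  | zero => simp
  | succ i ih =>
    rw [← ih, pow_succ', map_mul, End.mul_apply, ← sub_eq_zero, ← map_sub]
    exact (DFunLike.congr_fun (geom_sum_mul (ρ g) n) _).trans (by simp [← map_pow, h])

theorem pow_fix {g : G} {v : V} (h : ρ g v = v) (i : ℕ) : ρ (g ^ i) v = v :=
  (fixS v).pow_mem h i

theorem Nm_fix {g : G} {n : ℕ} (hn : Odd n) {v : V} (h : ρ g v = v) : Nm g n v = v := by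
  obtain ⟨k, rfl⟩ := hn
  simp only [Nm, LinearMap.sum_apply, ← map_pow, pow_fix h, Finset.sum_const, Finset.card_range]
  rw [← Nat.cast_smul_eq_nsmul K]
  simp [CharTwo.two_eq_zero]

theorem add_self (v : V) : v + v = 0 := funext fun _ => CharTwo.add_self_eq_zero _

theorem fix1 {g : G} {v : V} : v ∈ (ρ g).eigenspace 1 ↔ ρ g v = v := by
  rw [End.mem_eigenspace_iff, one_smul]

theorem inj_le {U U' : Submodule K V} (e π : End K V) (h1 : ∀ v ∈ U, e v ∈ U')
    (h2 : ∀ v ∈ U, π (e v) = v) : finrank K U ≤ finrank K U' :=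
  LinearMap.finrank_le_finrank_of_injective (f := e.restrict h1) fun a b h =>
    Subtype.ext ((h2 a a.2).symm.trans ((congrArg (fun x : U' => π x) h).trans (h2 b b.2)))

theorem trick3 {a z : G} (ha : a ^ 5 = 1) (hz : z ^ 3 = 1) {i j : ℕ} (h : z ^ 2 = a ^ i * z * a ^ j)
    {W : Submodule K V} (hW : ∀ v ∈ W, ρ z v ∈ W) :
    finrank K ↥(W ⊓ (ρ a).eigenspace 1) ≤ finrank K ↥(W ⊓ (ρ z).eigenspace 1) := by
  have e : ∀ v, Nm z 3 v = v + ρ z v + ρ (z ^ 2) v := fun v => by
    simp [Nm, Finset.sum_range_succ]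
  refine inj_le (Nm z 3) (Nm a 5) (fun v hv => ⟨?_, fix1.2 (Nm_left hz v)⟩) fun v hv => ?_
  · rw [e, sq, map_mul, End.mul_apply]
    exact W.add_mem (W.add_mem hv.1 (hW _ hv.1)) (hW _ (hW _ hv.1))
  · have b : ρ a v = v := fix1.1 hv.2
    rw [e, h]
    simp only [map_mul, End.mul_apply, map_add, pow_fix b, Nm_right ha]
    rw [add_assoc, add_self, add_zero, Nm_fix (by decide) b]

theorem trick3' {a z : G} (ha : a ^ 5 = 1) (h1 : a ≠ 1) (hz : z ^ 3 = 1) {i j : ℕ}
    (h : z ^ 2 = a ^ i * z * a ^ j) : 16 ≤ dm z 1 := by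
  have := trick3 ha hz h (W := ⊤) fun _ _ => trivial
  rwa [top_inf_eq, top_inf_eq, ← dm, t5' ha h1] at this

theorem trick5 {p q a : G} (hp : p ^ 3 = 1) (hq : q ^ 3 = 1) (hc : Commute p q) (ha : a ^ 5 = 1)
    {i j k m i' j' k' m' : ℕ} (h : a ^ 4 = p ^ i * q ^ j * a * p ^ k * q ^ m)
    (h' : a ^ 3 = p ^ i' * q ^ j' * a ^ 2 * p ^ k' * q ^ m') :
    finrank K (J ![p, q] 1) ≤ dm a 1 := by
  have e : ∀ v, Nm a 5 v = v + (ρ a v + ρ (a ^ 4) v) + (ρ (a ^ 2) v + ρ (a ^ 3) v) := fun v => by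
    simp [Nm, Finset.sum_range_succ]; abel
  have c : ∀ i v, Nm q 3 (ρ (p ^ i) v) = ρ (p ^ i) (Nm q 3 v) := fun i v => by
    simp only [Nm, LinearMap.sum_apply, map_sum, ← map_pow, comm_app (hc.pow_pow _ _)]
  refine inj_le (Nm a 5) (Nm p 3 * Nm q 3) (fun v hv => fix1.2 (Nm_left ha v)) fun v hv => ?_
  have b1 : ρ p v = v := by simpa using mem_J.1 hv 0
  have b2 : ρ q v = v := by simpa using mem_J.1 hv 1
  rw [e, h, h']
  simp only [map_mul, End.mul_apply, map_add, pow_fix b1, pow_fix b2, c, Nm_right hp, Nm_right hq,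
    add_self, add_zero, Nm_fix (by decide : Odd 3) b1, Nm_fix (by decide : Odd 3) b2]

theorem trickω {ω : K} (hω : IsPrimitiveRoot ω 3) {a z : G} (ha : a ^ 5 = 1) (hz : z ^ 3 = 1)
    {i j : ℕ} (h : z ^ 2 = a ^ i * z * a ^ j) {W : Submodule K V} (hW : ∀ v ∈ W, ρ z v ∈ W) :
    finrank K ↥(W ⊓ (ρ a).eigenspace 1) ≤ finrank K ↥(W ⊓ (ρ z).eigenspace ω) +
      finrank K ↥(W ⊓ (ρ a).eigenspace 1 ⊓ (ρ z).eigenspace 1) := by
  have w3 := hω.pow_eq_one
  have w1 : ω ^ 2 + ω + 1 = 0 := by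
    have := hω.geom_sum_eq_zero (by decide)
    simp only [Finset.sum_range_succ, Finset.sum_range_zero] at this
    linear_combination this
  have z3 : ∀ v, ρ z (ρ z (ρ z v)) = v := fun v => by
    simpa [pow_succ] using congrArg (ρ · v) hz
  let E : End K V := 1 + ω ^ 2 • ρ z + ω • ρ z * ρ z
  have hE : ∀ v ∈ W ⊓ (ρ a).eigenspace 1, E v ∈ W ⊓ (ρ z).eigenspace ω := fun v hv =>
    ⟨add_mem (add_mem hv.1 (W.smul_mem _ (hW _ hv.1))) (W.smul_mem _ (hW _ (hW _ hv.1))), by
      simp only [E, SetLike.mem_coe, End.mem_eigenspace_iff, LinearMap.add_apply, End.one_apply,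
        LinearMap.smul_apply, End.mul_apply, map_add, map_smul, z3]
      funext k
      simp only [Pi.add_apply, Pi.smul_apply, smul_eq_mul]
      linear_combination (-ρ z v k) * w3⟩
  rw [← (E.restrict hE).finrank_range_add_finrank_ker]
  refine add_le_add (Submodule.finrank_le _) ?_
  rw [← Submodule.finrank_map_subtype_eq]
  refine Submodule.finrank_mono ?_
  rintro _ ⟨v, hv, rfl⟩
  refine ⟨v.2, ?_⟩
  have b : ρ a v = v := fix1.1 v.2.2
  have c : v.1 + ω ^ 2 • ρ z v + ω • ρ (z ^ 2) v = 0 := by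
    rw [sq z, map_mul]; exact congrArg Subtype.val hv
  rw [h, map_mul, map_mul, End.mul_apply, End.mul_apply, pow_fix b] at c
  have d : ρ (a ^ i) (ρ z v - v) = ω • (ρ z v - v) := by
    have two : (2 : K) = 0 := CharTwo.two_eq_zero
    rw [map_sub, pow_fix b]
    funext k
    have := congrFun c k
    simp only [Pi.add_apply, Pi.smul_apply, smul_eq_mul, Pi.zero_apply, Pi.sub_apply] at this ⊢
    linear_combination ω ^ 2 * this - ρ (a ^ i) (ρ z v) k * w3 - v.1 k * w1 -
      (ω * w3 + ω * two) * ρ z v k + (ω * two) * v.1 k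
  by_contra e
  have := eig_root (sub_ne_zero.2 fun e' => e (fix1.2 e')) d (n := 5)
    (by rw [← map_pow, ← pow_mul, mul_comm, pow_mul, ha]; simp)
  exact absurd ((hω.pow_eq_one_iff_dvd 5).1 this) (by decide)

/-- a family of elements satisfying the relations of a permutation model -/
structure Md (h : ℕ → G) (P : ℕ → ℕ → ℕ) (n K : ℕ) (B : List ℕ) : Prop where
  eq : ∀ W W', eqL P K B W W' = 0 → evA h W = evA h W'
  ne : ∀ W i, ltAll K W = 0 ∧ i < n ∧ apW P W i ≠ i → evA h W ≠ 1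

theorem Md.ex {n K : ℕ} [NeZero n] {g : ℕ → Equiv.Perm (Fin n)} {P : ℕ → ℕ → ℕ} {B : List ℕ}
    (act : Act g (ptF n) P n K) (hB : ltAll n B = 0) (hb : IsBase (gen g K) (ptF n) B)
    {f : gen g K →* G} (hf : Function.Injective f) {Ws : List (List ℕ)}
    (hW : allL (ltAll K) Ws = true) {K' : ℕ} (hK : K ≤ K') :
    ∃ h, Md h (extP P K Ws) n K' B ∧ f.range = gen h K := by
  let g' : ℕ → gen g K := fun k => ⟨ext g K Ws k, ext_mem hW k⟩
  have e : ∀ W, (evA g' W).1 = evA (ext g K Ws) W := fun W => map_evA g' (gen g K).subtype W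
  refine ⟨fun k => f (g' k), ⟨fun W W' h => ?_, fun W i ⟨a, b, c⟩ h => c ?_⟩, ?_⟩
  · rw [← map_evA, ← map_evA, Subtype.ext ((e W).trans ((eqL_sound (act.ext hW K') hB
      (by rw [gen_ext hW hK]; exact hb) h).trans (e W').symm))]
  · rw [← map_evA, map_eq_one_iff _ hf] at h
    have := (act.ext hW K').apW (ltAll_zero a) b
    rw [← e, h] at this
    exact (ptF_inj n _ b _ this.1 (by simpa using this.2)).symm
  · rw [← map_gen, MonoidHom.range_eq_map]
    congr 1
    refine (Subgroup.map_injective (gen g K).subtype_injective ?_)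
    rw [map_gen, ← MonoidHom.range_eq_map, Subgroup.range_subtype]
    exact (gen_ext hW le_rfl).symm

theorem eng3 {h : ℕ → G} {P : ℕ → ℕ → ℕ} {n K : ℕ} {B : List ℕ} (M : Md h P n K B) {k m : ℕ}
    (o : ℕ) (R : Fin m → List ℕ) (D : List (List (Fin k) × Fin m × List ℕ)) {A C : ℕ}
    (h1 : ∀ i j : Fin k, eqL P K B [o + i, o + j] [o + j, o + i] = 0 ∧
      eqL P K B [o + i, o + i, o + i] [] = 0)
    (h2 : allL (fun d => eqL P K B (R d.2.1 ++ d.2.2) (d.2.2 ++ d.1.map fun i : Fin k => o + i.1)) D = true)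
    (h3 : ∀ w : Fin k → ZMod 3, D.countP (fun d => (d.1.map w).sum = 0) =
      if w = 0 then A + C else C) {ω : E7.K} (hω : IsPrimitiveRoot ω 3) (u : Fin k → ZMod 3)
    (a b : Fin m → ℕ) (h4 : ∀ t, D.countP (fun d => d.2.1 = t ∧ (d.1.map u).sum = 0) = a t ∧
      D.countP (fun d => d.2.1 = t ∧ (d.1.map u).sum ≠ 0) = b t) :
    ∑ t, (a t * dm (evA h (R t)) 1 + b t * dm (evA h (R t)) ω) =
      A * cw ⊤ (fun i : Fin k => h (o + i)) ω u + C * 56 := by
  have := four hω (W := ⊤) (Y := fun i : Fin k => h (o + i)) (fun _ _ _ => trivial)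
    (fun i j v _ => comm_app (show _ = _ by simpa using M.eq _ _ (h1 j i).1) v)
    (fun i => by simpa [evA_cons, evA_nil, pow_succ] using M.eq _ _ (h1 i i).2) D
    (fun d => evA h (d.1.map fun i : Fin k => o + i.1)) (·.1) 
    (fun d _ w v _ hv => eig_ev hω (h := h) (w := w) (v := v) (f := fun i : Fin k => o + i) hv d.1) h3 u
  rw [finrank_top, finrank_fintype_fun_eq_card, Fintype.card_fin] at this
  rw [← this]
  simp only [← (h4 _).1, ← (h4 _).2]
  have h5 := allL_sound h2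
  clear h2 h3 h4 this
  induction D with
  | nil => simp
  | cons d D ih =>
    have e := M.eq _ _ (h5 d (List.mem_cons_self ..))
    rw [evA_append, evA_append, ← mul_inv_eq_iff_eq_mul] at e
    rw [List.map_cons, List.sum_cons, ← ih fun d hd => h5 d (List.mem_cons_of_mem _ hd), top_inf_eq,
      ← e, ← dm, dm_conj]
    simp only [List.countP_cons, add_mul, Finset.sum_add_distrib]
    obtain e | e | e := (by decide : ∀ j : ZMod 3, j = 0 ∨ j = 1 ∨ j = 2) (d.1.map u).sum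
    all_goals rw [e]
    · simp; ring
    · simp [ZMod.val_one]; ring
    · rw [show (2 : ZMod 3).val = 2 from rfl, ← dm_Φ]
      simp [show (2 : ZMod 3) ≠ 0 by decide]; ring

end H18.E7
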