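import Cfsg.Agent.H18.E7c
import Cfsg.Agent.H16.L.G23
import Cfsg.Agent.H16.L.O73
import Cfsg.Agent.H16.L.U43

/-! `G₂(3)`, `Ω₇(3)` and `U₄(3)` are not subgroups of `E₇(2)`. -/

set_option autoImplicit false

namespace H18.E7

open Module H16

theorem Md.t3 {h : ℕ → G} {P : ℕ → ℕ → ℕ} {n K : ℕ} {B : List ℕ} (M : Md h P n K B) {ω : E7.K}
    (hω : IsPrimitiveRoot ω 3) (W : List ℕ) (i : ℕ) (h1 : eqL P K B (W ++ (W ++ W)) [] = 0 ∧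
      ltAll K W = 0 ∧ i < n ∧ apW P W i ≠ i) :
    dm (evA h W) 1 = 2 ∧ dm (evA h W) ω = 27 ∨ dm (evA h W) 1 = 14 ∧ dm (evA h W) ω = 21 ∨
      dm (evA h W) 1 = 20 ∧ dm (evA h W) ω = 18 ∨ dm (evA h W) 1 = 32 ∧ dm (evA h W) ω = 12 :=
  (E7.t3 hω (by simpa [evA_append, pow_succ] using M.eq _ _ h1.1) (M.ne _ i h1.2)).1

/-- dimensions of the fixed spaces of elements of order three -/
def X4 : Fin 4 → ℕ := ![2, 14, 20, 32]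
/-- dimensions of the other eigenspaces -/
def Y4 : Fin 4 → ℕ := ![27, 21, 18, 12]

theorem Md.t4 {h : ℕ → G} {P : ℕ → ℕ → ℕ} {n K : ℕ} {B : List ℕ} (M : Md h P n K B) {ω : E7.K}
    (hω : IsPrimitiveRoot ω 3) {m : ℕ} (R : Fin m → List ℕ) (i : Fin m → ℕ)
    (h1 : ∀ t, eqL P K B (R t ++ (R t ++ R t)) [] = 0 ∧
      ltAll K (R t) = 0 ∧ i t < n ∧ apW P (R t) (i t) ≠ i t) : ∃ c : Fin m → Fin 4,
      (∀ t, dm (evA h (R t)) 1 = X4 (c t)) ∧ ∀ t, dm (evA h (R t)) ω = Y4 (c t) := by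
  have : ∀ t, ∃ c, dm (evA h (R t)) 1 = X4 c ∧ dm (evA h (R t)) ω = Y4 c := fun t => by
    obtain a | a | a | a := M.t3 hω _ _ (h1 t)
    exacts [⟨0, a⟩, ⟨1, a⟩, ⟨2, a⟩, ⟨3, a⟩]
  choose c h1 h2 using this
  exact ⟨c, h1, h2⟩

theorem ck_of {s A c C : ℕ} (h : s = A * c + C) : s % A = C % A ∧ C ≤ s := by
  simp [h]

theorem cw_zero {ι : Type} {l : ℕ} (W : Submodule K V) (Y : ι → G) (ζ : K) :
    cw (l := l) W Y ζ 0 = finrank K ↥(W ⊓ J Y 1) := by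
  rw [cw, show (fun i => ζ ^ ((0 : ι → ZMod l) i).val) = 1 from funext fun i => by simp]

namespace G23

/-- extra letters -/
def Ws : List (List ℕ) := [[3, 0, 4, 2], [1, 3, 1, 3, 0, 3, 4], [2, 1, 3, 4, 3, 1, 4], [0, 2, 4, 1, 3, 1]]
/-- class representatives -/
def R : Fin 5 → List ℕ := ![[9], [8, 9], [7], [6, 7], [6, 9]]
/-- the lines -/
def D : List (List (Fin 4) × Fin 5 × List ℕ) := [([3], 0, []),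
    ([2], 0, [0, 2, 1, 4, 0, 5, 1, 1, 4, 3, 5]),
    ([2, 3], 1, []),
    ([2, 3, 3], 2, [4, 0, 2, 2]),
    ([1], 2, []),
    ([1, 3], 0, [5, 4, 3, 4, 3, 3, 4, 1, 5, 1, 4, 1]),
    ([1, 3, 3], 1, [1, 1, 3, 4, 1, 2]),
    ([1, 2], 1, [0, 0, 4, 1, 1]),
    ([1, 2, 3], 3, [3, 0, 3, 1]),
    ([1, 2, 3, 3], 2, [4, 3, 1, 4, 2]),
    ([1, 2, 2], 0, [5, 1, 4, 3, 5, 1, 4]),
    ([1, 2, 2, 3], 4, [5, 4, 0, 2, 5, 4, 0, 0]),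
    ([1, 2, 2, 3, 3], 0, [1, 1]),
    ([0], 0, [0, 2, 2, 4]),
    ([0, 3], 4, []),
    ([0, 3, 3], 0, [0, 3, 4, 3, 5, 4, 0, 3, 4, 5, 0]),
    ([0, 2], 1, [5, 1, 4, 3, 5, 1, 1, 1]),
    ([0, 2, 3], 2, [5, 1, 4, 3, 3, 5, 4, 1, 3, 1]),
    ([0, 2, 3, 3], 0, [3, 3, 4, 3, 1, 5, 1, 1, 5, 4, 3]),
    ([0, 2, 2], 2, [3, 4, 3, 1, 5, 4, 0, 5]),
    ([0, 2, 2, 3], 1, [1, 2, 2]),
    ([0, 2, 2, 3, 3], 3, [5, 1, 4, 5]),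
    ([0, 1], 3, []),
    ([0, 1, 3], 1, [1, 1, 1, 4, 3, 4, 3, 5, 4, 0, 5]),
    ([0, 1, 3, 3], 2, [1, 4, 5, 1, 2, 1, 5, 4, 0]),
    ([0, 1, 2], 0, [1, 2, 4, 1, 2, 5, 4, 0, 2, 5]),
    ([0, 1, 2, 3], 2, [3, 4, 3, 0, 5, 4, 0, 5]),
    ([0, 1, 2, 3, 3], 1, [0, 2, 4, 1, 2]),
    ([0, 1, 2, 2], 0, [1, 4, 3, 5, 1, 1, 5, 4, 1, 4]),
    ([0, 1, 2, 2, 3], 0, [2, 0, 3, 4, 2]),
    ([0, 1, 2, 2, 3, 3], 4, [2, 1, 5, 4, 2, 4]),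
    ([0, 1, 1], 1, [1, 2, 4, 0, 2]),
    ([0, 1, 1, 3], 0, [4, 0, 3, 4, 5, 1, 4, 5, 3]),
    ([0, 1, 1, 3, 3], 2, [5, 1, 4, 2, 2, 5, 3]),
    ([0, 1, 1, 2], 4, [4, 2, 1, 4, 1, 1, 5, 1, 3, 1]),
    ([0, 1, 1, 2, 3], 3, [1, 2, 4, 3, 0, 4]),
    ([0, 1, 1, 2, 3, 3], 0, [1, 2, 4, 1, 2, 4]),
    ([0, 1, 1, 2, 2], 2, [5, 1, 4, 3, 5, 1, 1, 1]),
    ([0, 1, 1, 2, 2, 3], 0, [3, 3, 4, 5, 1, 4, 3, 0, 5, 0, 4]),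
    ([0, 1, 1, 2, 2, 3, 3], 1, [5, 1, 4, 3, 5, 1])]

theorem no (f : gen G23.g 6 →* G) (hf : Function.Injective f) : False := by
  obtain ⟨h, M, -⟩ := Md.ex G23.act G23.Blt G23.isBase hf (Ws := Ws) (by decide +kernel)
    (K' := 10) (by decide)
  obtain ⟨ω, hω⟩ := ex_prim (l := 3) (by decide)
  have E := eng3 M 6 R D (A := 27) (C := 13) (by decide +kernel) (by decide +kernel)
    (by decide +kernel) hω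
  obtain ⟨c, hx, hy⟩ := M.t4 hω R ![1, 1, 1, 1, 1] (by decide +kernel)
  simp only [hx, hy] at E
  have e0 := ck_of (E ![0, 0, 1, 2] ![2, 3, 3, 4, 1] ![12, 6, 6, 0, 3] (by decide +kernel))
  have e1 := ck_of (E ![1, 0, 2, 2] ![2, 3, 3, 1, 4] ![12, 6, 6, 3, 0] (by decide +kernel))
  have e2 := ck_of (E ![0, 0, 0, 0] ![14, 9, 9, 4, 4] ![0, 0, 0, 0, 0] (by decide +kernel))
  clear E hx hy
  revert e0 e1 e2 c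
  decide +kernel

end G23

namespace O73

/-- extra letters -/
def Ws : List (List ℕ) := [[3, 2, 0, 4, 3, 1, 0, 4, 3, 5, 3, 0, 1, 4, 5, 6, 4, 3, 0, 2, 3, 5, 3, 5, 2], [1, 4, 3, 0, 2, 3, 2, 5, 3, 5, 3, 2, 6, 4, 3, 0, 1, 6, 5, 3, 4, 6, 0, 4], [0, 2, 2, 2, 4, 3, 0, 1, 3, 5, 3, 0, 1, 6, 4, 3, 1, 0, 5, 3, 4, 6, 2, 4], [4, 1, 3, 0, 4, 3, 2, 3, 0, 4, 5, 3, 0, 4, 5, 3, 1, 6, 4, 3, 2]]
/-- class representatives -/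
def R : Fin 3 → List ℕ := ![[8, 9, 10], [10], [9]]
/-- the lines -/
def D : List (List (Fin 4) × Fin 3 × List ℕ) := [([3], 1, []),
    ([2], 2, []),
    ([2, 3], 2, [2, 2, 0, 3, 4, 3, 1, 1, 3, 5, 3, 1, 0, 5]),
    ([2, 3, 3], 2, [1, 3, 1, 1, 4, 5, 3, 2, 5, 6, 4, 3, 0, 6, 4, 3]),
    ([1], 2, [5, 2, 0, 4, 3, 1, 4, 5, 3, 1, 1, 3, 4, 3]),
    ([1, 3], 2, [3, 2, 4, 3, 1, 4, 3, 4]),
    ([1, 3, 3], 2, [6, 0, 2, 0, 1, 3, 2, 3, 0, 4, 3, 1, 1, 5, 3, 2, 6, 4, 3]),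
    ([1, 2], 1, [0, 2, 2, 3, 0, 2, 3, 4, 5, 3, 2, 2, 5]),
    ([1, 2, 3], 0, []),
    ([1, 2, 3, 3], 1, [0, 3, 2, 3, 4, 5, 3, 1, 1, 3, 5, 4]),
    ([1, 2, 2], 2, [2, 2, 3, 0, 2, 4, 3, 1, 4, 3, 5, 3, 1, 0, 4, 6, 4, 6]),
    ([1, 2, 2, 3], 2, [3, 2, 4, 5, 3, 2, 4, 5, 3, 0]),
    ([1, 2, 2, 3, 3], 2, [5, 0, 2, 0, 3, 2, 2, 3, 4, 3, 2, 3, 5, 3, 5]),
    ([0], 2, [1, 3, 2, 2, 2, 3, 4, 3, 0, 4, 5, 3, 6, 4, 3, 1, 1, 6, 5]),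
    ([0, 3], 2, [3, 0, 4, 3, 0, 2, 4, 5, 3, 0, 2]),
    ([0, 3, 3], 2, [0, 2, 3, 1, 1, 3, 4, 3, 2, 4, 3, 5, 3, 1, 4]),
    ([0, 2], 1, [1, 0, 4, 3, 0, 1, 1, 3, 5, 3, 6, 4, 3, 1]),
    ([0, 2, 3], 1, [0, 3, 2, 3, 0, 4, 3, 4, 3, 5, 3, 0, 2, 3]),
    ([0, 2, 3, 3], 0, [3, 1, 1, 4, 3, 0, 1, 4, 5, 6, 5, 3, 1, 0, 5, 3, 1]),
    ([0, 2, 2], 2, [1, 0, 3, 0, 4, 3, 1, 3, 5, 0, 1]),
    ([0, 2, 2, 3], 2, [5, 2, 4, 3, 0, 1, 1, 3, 6, 4, 6, 0]),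
    ([0, 2, 2, 3, 3], 2, [3, 2, 3, 4, 3, 2, 4, 3, 4, 5, 3]),
    ([0, 1], 2, [3, 0, 1, 3, 4, 3, 0, 2, 5, 3, 1, 0, 3]),
    ([0, 1, 3], 2, [1, 0, 3, 4, 5, 3, 1, 3, 0]),
    ([0, 1, 3, 3], 2, [0, 3, 2, 3, 0, 4, 6, 4, 3, 1, 3, 6]),
    ([0, 1, 2], 2, [0, 4, 3, 1, 4, 3, 5, 3, 1, 4, 5, 3]),
    ([0, 1, 2, 3], 2, [2, 0, 3, 2, 2, 4, 3, 1, 1, 5, 3, 6, 4, 3, 1, 3, 0, 6]),
    ([0, 1, 2, 3, 3], 2, [0, 2, 2, 0, 3, 2, 3, 0, 4, 3, 1, 0, 4, 3, 5, 3, 5, 3]),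
    ([0, 1, 2, 2], 0, [6, 1, 0, 1, 0, 4, 3, 2, 5, 3, 2, 2, 2, 5, 6, 5, 3, 2, 3, 4]),
    ([0, 1, 2, 2, 3], 1, [0, 2, 2, 3, 2, 2, 4, 3, 2, 2, 4, 5, 3, 2, 5, 6, 4, 6]),
    ([0, 1, 2, 2, 3, 3], 1, [0, 2, 2, 3, 1, 0, 3, 4, 5, 3, 2, 2, 4, 5]),
    ([0, 1, 1], 1, [4, 1, 1, 1, 3, 4, 3, 2, 2, 5, 3, 1, 0]),
    ([0, 1, 1, 3], 0, [6, 3, 2, 4, 3, 2, 4, 5, 3, 1, 0, 5, 6, 4, 3, 1, 0]),
    ([0, 1, 1, 3, 3], 1, [2, 4, 3, 2, 3, 5, 3, 4, 6, 4, 3, 0, 1, 5, 3, 0, 4, 3, 6]),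
    ([0, 1, 1, 2], 2, [2, 3, 1, 3, 0, 4, 5, 6, 4, 6]),
    ([0, 1, 1, 2, 3], 2, [5, 3, 0, 3, 2, 2, 3, 4, 3, 1, 3, 4, 5, 3, 1, 0, 5]),
    ([0, 1, 1, 2, 3, 3], 2, [5, 0, 1, 1, 0, 3, 4, 3, 2, 2, 5, 3, 0, 1, 1, 1]),
    ([0, 1, 1, 2, 2], 2, [2, 0, 3, 1, 0, 4, 3, 5, 3, 0, 6, 4, 3, 0, 6, 4, 3]),
    ([0, 1, 1, 2, 2, 3], 2, [5, 3, 0, 2, 3, 0, 4, 3, 5, 3, 1, 0, 5]),
    ([0, 1, 1, 2, 2, 3, 3], 2, [0, 3, 0, 4, 3, 1, 5, 6, 4, 3, 0, 1, 3, 6, 5])]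

theorem no (f : gen O73.g 7 →* G) (hf : Function.Injective f) : False := by
  obtain ⟨h, M, -⟩ := Md.ex O73.act O73.Blt O73.isBase hf (Ws := Ws) (by decide +kernel)
    (K' := 11) (by decide)
  obtain ⟨ω, hω⟩ := ex_prim (l := 3) (by decide)
  have E := eng3 M 7 R D (A := 27) (C := 13) (by decide +kernel) (by decide +kernel)
    (by decide +kernel) hω
  obtain ⟨c, hx, hy⟩ := M.t4 hω R ![1, 0, 0] (by decide +kernel)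
  simp only [hx, hy] at E
  have e0 := ck_of (E ![0, 1, 1, 1] ![4, 0, 9] ![0, 9, 18] (by decide +kernel))
  have e1 := ck_of (E ![0, 0, 0, 0] ![4, 9, 27] ![0, 0, 0] (by decide +kernel))
  have e2 := ck_of (E ![1, 1, 2, 0] ![4, 9, 0] ![0, 0, 27] (by decide +kernel))
  clear E hx hy
  revert e0 e1 e2 c
  decide +kernel

end O73

namespace U43

/-- extra letters -/
def Ws : List (List ℕ) := [[0, 6, 1, 7, 1], [1, 3, 1, 3, 7, 1, 3, 5], [1, 3, 4, 3, 7, 0, 6, 5], [4, 3, 5, 2, 7, 1, 7, 0], [1, 3, 3, 5, 3, 7, 4], [1, 3, 3, 4, 3, 7], [4, 3, 3, 7, 1, 7, 4, 8, 7, 0, 8, 7]]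
/-- class representatives -/
def R : Fin 3 → List ℕ := ![[12], [10], [9]]
/-- the lines -/
def D : List (List (Fin 4) × Fin 3 × List ℕ) := [([3], 0, []),
    ([2], 0, [0, 2, 1]),
    ([2, 3], 1, [3, 1, 7, 8, 7, 1]),
    ([2, 3, 3], 1, [1, 3]),
    ([1], 1, []),
    ([1, 3], 2, [0, 7, 0, 8, 6, 0]),
    ([1, 3, 3], 2, [3, 0, 5, 3, 7, 0]),
    ([1, 2], 0, [0, 2, 0, 2]),
    ([1, 2, 3], 1, [1, 3, 3, 0]),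
    ([1, 2, 3, 3], 1, [0, 3, 7, 1, 8, 3, 7, 1, 4]),
    ([1, 2, 2], 1, [1, 2, 0, 7, 1, 4, 8, 7, 1]),
    ([1, 2, 2, 3], 2, [4, 8, 6, 1, 5, 8, 1]),
    ([1, 2, 2, 3, 3], 2, [5, 7, 3, 4, 7, 1, 3, 1]),
    ([0], 2, []),
    ([0, 3], 1, [2, 1, 7, 5, 3, 8, 6, 1]),
    ([0, 3, 3], 2, [2, 7, 5, 7, 7, 7, 0]),
    ([0, 2], 0, [1, 3, 1, 2]),
    ([0, 2, 3], 2, [7, 5, 6, 1, 3, 1, 3]),
    ([0, 2, 3, 3], 0, [0, 2, 7, 8, 3, 7, 0, 2]),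
    ([0, 2, 2], 0, [0, 2, 7, 8, 6, 1, 6]),
    ([0, 2, 2, 3], 2, [1, 3, 1, 2, 7]),
    ([0, 2, 2, 3, 3], 0, [1, 2]),
    ([0, 1], 1, [2, 0]),
    ([0, 1, 3], 0, [0, 3, 0, 2, 7]),
    ([0, 1, 3, 3], 1, [0, 4, 7, 1, 8, 7, 1, 4]),
    ([0, 1, 2], 0, [0, 5, 7, 1, 8, 2, 8, 7, 1]),
    ([0, 1, 2, 3], 2, [6, 0, 2, 0, 2, 7, 5, 7]),
    ([0, 1, 2, 3, 3], 0, [3, 0]),
    ([0, 1, 2, 2], 1, [0, 3, 1, 3, 0]),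
    ([0, 1, 2, 2, 3], 0, [6, 0, 2, 7, 8, 7, 1, 4]),
    ([0, 1, 2, 2, 3, 3], 1, [1, 4, 7, 0]),
    ([0, 1, 1], 1, [2, 1, 7, 1, 8, 6, 0, 4, 0]),
    ([0, 1, 1, 3], 0, [1, 2, 1, 2]),
    ([0, 1, 1, 3, 3], 1, [7, 1, 4, 3]),
    ([0, 1, 1, 2], 1, [3, 3]),
    ([0, 1, 1, 2, 3], 0, [6, 4, 0, 2, 7, 8, 7, 1]),
    ([0, 1, 1, 2, 3, 3], 1, [1, 3, 4]),
    ([0, 1, 1, 2, 2], 0, [1, 2, 1, 3]),
    ([0, 1, 1, 2, 2, 3], 2, [1, 4, 7, 5, 2, 4]),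
    ([0, 1, 1, 2, 2, 3, 3], 0, [6, 2, 1, 7, 1, 8, 6, 1])]
/-- the lines of the second group -/
def D2 : List (List (Fin 2) × Fin 3 × List ℕ) := [([1], 1, [3, 1, 3, 0, 2]),
    ([0], 0, [7, 4, 7]),
    ([0, 1], 0, [1, 3]),
    ([0, 1, 1], 1, [3, 7, 1, 6, 8, 7, 0, 3])]

theorem no (f : gen U43.g 9 →* G) (hf : Function.Injective f) : False := by
  obtain ⟨h, M, -⟩ := Md.ex U43.act U43.Blt U43.isBase hf (Ws := Ws) (by decide +kernel)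
    (K' := 16) (by decide)
  obtain ⟨ω, hω⟩ := ex_prim (l := 3) (by decide)
  have E := eng3 M 9 R D (A := 27) (C := 13) (by decide +kernel) (by decide +kernel)
    (by decide +kernel) hω
  obtain ⟨c, hx, hy⟩ := M.t4 hω R ![1, 1, 1] (by decide +kernel)
  simp only [hx, hy] at E
  have e0 := ck_of (E ![0, 0, 0, 0] ![15, 15, 10] ![0, 0, 0] (by decide +kernel))
  have e1 := ck_of (E ![0, 0, 1, 0] ![3, 6, 4] ![12, 9, 6] (by decide +kernel))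
  have e2 := ck_of (E ![0, 1, 0, 0] ![6, 3, 4] ![9, 12, 6] (by decide +kernel))
  have e := eng3 M 13 R D2 (A := 3) (C := 1) (by decide +kernel) (by decide +kernel)
    (by decide +kernel) hω 0 ![2, 2, 0] ![0, 0, 0] (by decide +kernel)
  have a5 : h 15 ^ 5 = 1 := by
    simpa [pow_succ] using M.eq [15, 15, 15, 15, 15] [] (by decide +kernel)
  have b := trick5 (p := h 13) (q := h 14) (i := 1) (j := 2) (k := 1) (m := 2) (i' := 1) (j' := 0)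
    (k' := 1) (m' := 0) (by simpa [pow_succ] using M.eq [13, 13, 13] [] (by decide +kernel))
    (by simpa [pow_succ] using M.eq [14, 14, 14] [] (by decide +kernel))
    (show _ = _ by simpa using M.eq [14, 13] [13, 14] (by decide +kernel)) a5
    (by simpa [pow_succ, mul_assoc] using
      M.eq [15, 15, 15, 15] [14, 14, 13, 15, 14, 14, 13] (by decide +kernel))
    (by simpa [pow_succ, mul_assoc] using M.eq [15, 15, 15] [13, 15, 15, 13] (by decide +kernel))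
  rw [t5' a5 (by simpa using M.ne [15] 0 (by decide +kernel))] at b
  rw [cw_zero, top_inf_eq, show (fun i : Fin 2 => h (13 + i)) = ![h 13, h 14] from
    funext fun i => by fin_cases i <;> rfl] at e
  simp only [hx, hy] at e
  replace e := e.le.trans (Nat.add_le_add_right (Nat.mul_le_mul_left 3 b) _)
  clear E hx hy
  revert e0 e1 e2 e c
  decide +kernel

end U43

theorem noG23 (f : Cfsg.Lie.chevG2.group (ZMod 3) →* G) (hf : Function.Injective f) : False :=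
  LG23.equiv.elim fun e => G23.no (f.comp e.toMonoidHom) (hf.comp e.injective)

theorem noO73 (f : Cfsg.Omega (ZMod 3) (Cfsg.quadFormOdd 3 (ZMod 3)) →* G)
    (hf : Function.Injective f) : False :=
  LO73.equiv.elim fun e =>
    let e' := e.trans (H11.quotCenterEquivOfBot (H11.center_omegaOdd (by decide) (by decide)))
    O73.no (f.comp e'.toMonoidHom) (hf.comp e'.injective)

theorem noU43 {F : Type*} [Field F] [Fintype F] (h9 : Fintype.card F = 9) (f : Cfsg.PSU 4 F 3 →* G)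
    (hf : Function.Injective f) : False :=
  LU43.equiv.elim fun e =>
    let e' := e.trans (H11.psuCongr 4 3 (FiniteField.ringEquivOfCardEq (card_F9c.trans h9.symm)))
    U43.no (f.comp e'.toMonoidHom) (hf.comp e'.injective)

end H18.E7
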