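import Cfsg.Agent.H18.E7c
import Cfsg.Agent.H16.FM
import Cfsg.Agent.H11.Gen2
import Cfsg.Agent.H11.LowDim
import Cfsg.Agent.S0813

/-! `L₄(3)` and `L₂(19)` fix a vector of the 56-dimensional module of `E₇(2)` or of its dual. -/

set_option autoImplicit false

namespace H18.E7

open Module H16 Subgroup Matrix.SpecialLinearGroup
open scoped MatrixGroups

theorem psl_fx {n p w s m : ℕ} [Fact p.Prime] (hn : 1 ≤ n) (ha : FP.Ar (n + 1) p w s m)
    (C U W : List ℕ) (r : ZMod p)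
    (h0 : ∀ k < 5, (toM (n + 1) (n + 1) p w (nth 0 C k)).det = 1 ∧
      (FP.std (n + 1) (n + 1) p w s m).red (nth 0 C k) = nth 0 C k)
    (h1 : (FP.std (n + 1) (n + 1) p w s m).prChk C 5
      [([0, 0, 0, 0, 0], []), ([1, 1, 1, 1, 1], []), ([1, 0, 1, 0], [4]), (U, [2]), (W, [3])] 0 5 = true)
    (h2 : (ltAll 2 U = 0 ∧ ltAll 2 W = 0) ∧
      toM (n + 1) (n + 1) p w (nth 0 C 2) = 1 + Matrix.single 0 1 1 ∧
      toM (n + 1) (n + 1) p w (nth 0 C 3) = Matrix.of (fun i j =>
        if j.val = i.val + 1 then 1 else if i.val = n ∧ j.val = 0 then (-1) ^ n else 0) ∧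
      (r ^ (n + 1) = 1 ∧ Matrix.scalar _ r = toM (n + 1) (n + 1) p w (nth 0 C 4)) ∧
      ∀ k < 2, toM (n + 1) (n + 1) p w (nth 0 C k) 0 1 ≠ 0)
    (f : PSL(n + 1, ZMod p) →* G) (hf : Function.Injective f) : Fx f.range := by
  classical
  obtain ⟨⟨a1, a2⟩, a3, a4, a5, a6⟩ := h2
  obtain ⟨g, hg⟩ : ∃ g : ℕ → SL(n + 1, ZMod p), ∀ k < 5,
      (g k).1 = toM (n + 1) (n + 1) p w (nth 0 C k) :=
    ⟨fun k => if h : _ = 1 then ⟨_, h⟩ else 1, fun k h => congrArg Subtype.val (dif_pos (h0 k h).1)⟩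
  have qok := FP.std_ok (r := n + 1) ha
  have rp : (FP.std (n + 1) (n + 1) p w s m).RpL (fun k => toGL (g k)) C 5 := fun k h =>
    ⟨qok.nm (h0 k h).2, (coe_GL_coe_matrix (g k)).trans (hg k h)⟩
  have pr := ((FP.Prs.zero _ _).step qok rp h1).all rfl
  simp only [← map_evA, toGL_injective.eq_iff, List.forall_mem_cons, evA_cons, evA_nil, one_mul,
    List.not_mem_nil, false_imp_iff, implies_true, and_true] at pr
  obtain ⟨b1, b2, b3, b4, b5⟩ := pr
  let F : SL(n + 1, ZMod p) →* G := f.comp (QuotientGroup.mk' _)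
  have c1 : ∀ x, F x = 1 ↔ x ∈ center _ := fun x =>
    (map_eq_one_iff f hf).trans (QuotientGroup.eq_one_iff x)
  have c2 : ∀ k < 2, g k * g k * g k * g k * g k = 1 → dm (F (g k)) 1 = 16 := fun k hk h =>
    t5' (by simpa [pow_succ] using congrArg F h) fun e => a6 k hk (by
      obtain ⟨t, -, e'⟩ := Matrix.SpecialLinearGroup.mem_center_iff.1 ((c1 _).1 e)
      rw [← hg k (by omega), ← e', Matrix.scalar_apply, Matrix.diagonal_apply_ne _ (H11.G2.ne01 hn)])
  have c3 := dm_two (t := F (g 0) * F (g 1)) (by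
    rw [← map_mul, ← map_pow, c1, sq, ← mul_assoc, b3]
    exact mem_center_iff.2 ⟨r, by simpa using a5.1, a5.2.trans (hg 4 (by decide)).symm⟩)
  refine (scott (x := F (g 0)) (y := F (g 1)) (by
    rw [c2 0 (by decide) b1, c2 1 (by decide) b2]; omega)).mono ?_
  have c4 : gen g 2 ≤ (closure {F (g 0), F (g 1)}).comap F := gen_le.2 fun k hk => subset_closure (by
    interval_cases k <;> simp)
  have c5 := H11.G2.top_of_cyc hn (H11.G2.w_smul ((hg 3 (by decide)).trans a4)) (H := gen g 2)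
    (b5 ▸ evA_mem_gen g (ltAll_zero a2)) (H11.G2.ne01 hn) fun t => by
      have e : transvection (H11.G2.ne01 hn) 1 = g 2 := Subtype.ext ((hg 2 (by decide)).trans a3).symm
      obtain ⟨k, rfl⟩ := ZMod.natCast_zmod_surjective t
      induction k with
      | zero => simp [transvection_coeff_zero]
      | succ k ih =>
        rw [Nat.cast_succ, transvection_add, e, ← b4]
        exact mul_mem ih (evA_mem_gen g (ltAll_zero a1))
  rintro _ ⟨x, rfl⟩
  obtain ⟨x, rfl⟩ := QuotientGroup.mk'_surjective _ x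
  exact c4 (c5.ge (mem_top x))

theorem center_bot {S : Type*} [Group S] [IsSimpleGroup S] (h : 4 ∣ Nat.card S) : center S = ⊥ :=
  (IsSimpleGroup.eq_bot_or_eq_top_of_normal _ inferInstance).resolve_right fun e => by
    let _ := Group.commGroupOfCenterEqTop e
    have := (IsSimpleGroup.prime_card (α := S)).eq_one_or_self_of_dvd
    have h2 := this 2 (dvd_trans (by decide) h)
    omega

instance p19 : Fact (Nat.Prime 19) := ⟨by decide⟩

theorem fxL43 (f : PSL(4, ZMod 3) →* G) (hf : Function.Injective f) : Fx f.range :=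
  psl_fx (n := 3) (w := 5) (s := 5) (m := 11) (by decide) (by decide +kernel)
    [40179351662847671141408, 77955976554698837657664, 37778932988857102106657,
      2341871807306399776, 37778932988857102106625]
    [0, 1, 0, 0, 0, 0, 1, 0, 0, 0, 1, 1, 1, 0, 1, 1, 1, 1, 0, 0, 1, 1, 1, 0, 1, 1, 1, 1, 0, 1,
      0, 0, 0, 0, 1, 1, 0, 0, 0, 0, 1, 0, 0, 0, 0, 1, 0, 1, 1, 1, 1]
    [1, 0, 0, 0, 1, 0, 0, 0, 0, 1, 1, 1, 1, 0, 1, 1, 1, 0, 1, 1, 1, 1, 0, 0, 0, 0, 1, 1, 1, 1,
      0, 0, 1, 1, 1, 1, 0, 1, 1, 0, 0, 1, 1, 0]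
    1 (by decide +kernel) (by decide +kernel) (by decide +kernel) f hf

theorem fxL219 (f : PSL(2, ZMod 19) →* G) (hf : Function.Injective f) : Fx f.range :=
  psl_fx (n := 1) (w := 10) (s := 14) (m := 863) (by decide) (by decide +kernel)
    [11821652995, 18257811472, 1073742849, 18875392, 19327352850]
    [1, 1, 0, 0, 0, 1, 1, 1, 0] [1, 1, 1, 0, 0, 0, 0, 1, 0, 0, 0, 0, 1, 1, 0, 0, 0, 0, 1]
    18 (by decide +kernel) (by decide +kernel) (by decide +kernel) f hf

variable {H : Subgroup G} (hH : IsCoatom H)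
include hH

theorem noL43 (e : Cfsg.generalizedFittingSubgroup H ≃* PSL(4, ZMod 3)) : False := by
  have := H11.psl_simple (ι := Fin 4) (F := ZMod 3) (by simp)
  have h1 := H11.card_units_mul_card_sl (ι := Fin 4) (F := (ZMod 3))
  have h2 := H11.card_psl (ι := Fin 4) (F := (ZMod 3))
  have h3 := Cfsg.Agent.S0813.result (F := ZMod 3) 3 1 le_rfl rfl 4 (by decide) (by decide)
  rw [H11.card_pgl_eq_card_sl, ← h2] at h3
  rw [Matrix.card_GL_field, Fin.prod_univ_four, ← h2] at h1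
  norm_num [-Nat.card_eq_fintype_card] at h1 h3
  refine nm1 e hH (center_bot (by omega)) (a := 2) (Dvd.intro 1 (by omega)) (by omega)
    (fxL43 _ (soc_inj e))

theorem noL219 {F : Type*} [Field F] [Fintype F] (h : Fintype.card F = 19)
    (e : Cfsg.generalizedFittingSubgroup H ≃* PSL(2, F)) : False := by
  replace e := e.trans (H11.pslCongr (Equiv.refl _)
    (FiniteField.ringEquivOfCardEq (K' := ZMod 19) (h.trans (ZMod.card 19).symm)))
  have := H11.psl2_simple (F := ZMod 19) (by simp)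
  have h2 := H11.card_psl (ι := Fin 2) (F := (ZMod 19))
  have h1 := H11.card_psl_two (F := (ZMod 19))
  have h3 := Cfsg.Agent.S0813.result (F := ZMod 19) 19 1 le_rfl (by simp) 2 le_rfl (by decide)
  rw [H11.card_pgl_eq_card_sl, ← h2] at h3
  norm_num [-Nat.card_eq_fintype_card] at h1 h3
  refine nm1 e hH (center_bot (by omega)) (a := 1) (Dvd.intro 1 (by omega)) (by omega)
    (fxL219 _ (soc_inj e))

end H18.E7
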