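import Cfsg.Agent.H18.E7d
import Cfsg.Agent.H18.E7e
import Cfsg.Agent.S2119

/-! `A₁₃` fixes a vector of the 56-dimensional module of `E₇(2)` or of its dual. -/

set_option autoImplicit false

namespace H18.E7.A13

open Module H16 Subgroup Equiv

theorem evA_rep {G : Type*} [Monoid G] (x : ℕ → G) (e k : ℕ) :
    evA x (List.replicate e k) = x k ^ e := by
  induction e with
  | zero => simp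
  | succ e ih => simp [List.replicate_succ, ih, pow_succ]

/-- the tables -/
noncomputable def P (k i : ℕ) : ℕ :=
  Nat.land (Nat.shiftRight (nth 0 [223928981472033, 478869883070988, 3282623728394508, 196234982040513] k)
    (Nat.mul 4 i)) 15
/-- the letters -/
noncomputable def g : ℕ → Perm (Fin 13) := permGen 13 P
theorem act : Act g (ptF 13) P 13 4 :=
  act_permGen (iv := fun k => (k + 2) % 4) (by decide +kernel)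
theorem isBase : IsBase (gen g 4) (ptF 13) (List.range 13) := fun a _ h =>
  perm_faithful a fun i hi => h i (List.mem_range.2 hi)
/-- extra letters -/
def Ws : List (List ℕ) := [[2, 2, 2, 3, 2, 2, 3, 0, 3, 0, 3, 2, 2, 1, 2, 1, 0, 3, 0, 0], [0, 0, 0, 1, 0, 0, 3, 0, 3, 2, 1,
    0, 0, 3, 0, 3, 3, 0, 0, 0, 0, 1, 2, 1, 2, 1, 2, 2, 3, 3, 2, 2, 2, 2], [0, 0, 0, 0, 0, 1, 2, 2,
    3, 0, 3, 0, 1, 2, 1, 2, 1, 2, 1, 2, 2], [0, 0, 1, 2, 2, 3, 0, 3, 0, 1, 2, 1, 2, 1, 2, 1, 0], [3,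
    3, 0, 3, 0, 3, 2, 1, 2, 1, 0, 0, 3, 2, 2, 3, 0, 3, 2, 2, 1, 1, 0, 3, 0, 0, 1, 2, 1, 0, 1, 2, 1,
    0, 0, 1, 2, 2, 2, 3, 0, 1, 2, 3, 0, 3, 0, 1, 0, 3, 2], [0, 3, 0, 3, 0, 3, 2, 2, 1, 2, 1, 0, 0,
    1, 0, 0, 0, 3, 2, 2, 3, 0, 3, 2, 2, 2, 2, 2, 3, 0, 0, 0, 0, 0, 1, 2, 2, 2, 1, 1, 0, 3, 2, 1, 0,
    0, 0, 0, 0, 0, 0, 1]]
/-- class representatives -/
def R : Fin 4 → List ℕ := ![[7], [1, 0], [5, 6, 7], [1]]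
/-- the lines -/
def D : List (List (Fin 4) × Fin 4 × List ℕ) :=
  [([3], 0, []),
   ([2], 0, [2, 1, 2, 1, 2, 2, 3, 0, 0, 3, 2, 2, 2, 2, 2, 2, 1, 0, 3, 2, 2, 3, 2, 3, 0, 3, 0, 0, 0,
    0, 3, 0, 0, 1, 2, 1, 2, 3, 2, 1, 2, 1, 0, 1, 2]),
   ([2, 3], 1, [1, 0, 0, 3, 0, 3, 0, 3, 2, 2, 2, 2, 3, 2, 2, 2, 1, 0, 3, 2, 2, 3, 0, 1, 0, 3, 2, 2,
    3, 2, 3, 0, 3, 0, 0, 0, 0, 0, 0, 3, 0, 0, 1]),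
   ([2, 3, 3], 1, [0, 0, 1, 2, 2, 3, 0, 3, 0, 1, 2, 1, 2, 1, 2, 1, 0, 1, 2, 2, 1, 0, 3, 2, 2, 3, 2,
    3, 0, 3, 0, 0, 0, 3, 2, 2, 2, 3, 0, 3, 0, 0, 0, 1, 2, 3, 0, 1]),
   ([1], 0, [2, 3, 0, 3, 0, 3, 0, 3, 2, 2, 2, 2, 3, 0, 3, 0, 0, 0, 0, 1, 2, 1, 2, 1, 2, 2, 3, 2, 3,
    0, 3, 0, 3, 2, 2, 1, 2, 1, 1, 0, 0, 1, 2]),
   ([1, 3], 1, [2, 2, 1, 1, 2, 2, 1, 0, 0, 1, 2, 3, 0, 0, 3, 2, 3, 0, 0, 0, 0, 0, 1, 2, 2, 2, 1, 2,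
    3, 0, 3, 0, 1, 0, 0, 0]),
   ([1, 3, 3], 1, [1, 2, 1, 0, 0, 1, 2, 3, 0, 0, 3, 3, 0, 0, 1, 2, 1, 0, 1, 1, 2, 1, 0, 3, 0, 0,
    0]),
   ([1, 2], 1, [2, 3, 2, 2, 3, 0, 1, 2, 1, 2, 1, 0, 0, 0, 0, 1, 0, 0, 0, 1, 2, 1, 0, 3, 2]),
   ([1, 2, 3], 2, []),
   ([1, 2, 3, 3], 2, [1, 0, 0, 0, 0, 0, 3, 2, 2, 3, 0, 3, 2, 2, 3, 0, 1, 0, 0, 0, 1, 2, 2, 3, 0, 3,
    2, 2, 2, 2, 1, 0, 0, 1, 2, 2]),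
   ([1, 2, 2], 1, [2, 3, 2, 2, 2, 3, 0, 3, 0, 3, 0, 3, 2, 2, 2, 3, 2, 2, 2, 1, 0, 0, 3, 2, 2, 3, 2,
    2, 2, 1, 2, 2, 2, 2, 2, 3, 0, 1, 0, 1, 2, 3]),
   ([1, 2, 2, 3], 2, [3, 0, 0, 0, 0, 0, 1, 2, 1, 0, 0, 1, 2, 2, 2, 2, 2, 2, 1, 0, 0, 0, 0, 1, 2, 1,
    2, 1, 2, 1]),
   ([1, 2, 2, 3, 3], 2, [0, 0, 1, 2, 2, 1, 0, 0, 0, 1, 2, 2, 3, 0, 1, 2, 2, 2, 2, 2, 2, 1, 0, 0, 1,
    2, 3, 0, 0, 3, 2, 2, 2, 1, 0, 3, 2, 2, 3, 0, 0, 0, 1, 0, 0]),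
   ([0], 0, [1, 0, 3, 0, 1, 0, 0, 0, 0, 1, 2, 2, 1, 0, 0, 0, 1, 2, 2, 3, 0, 1, 2, 2, 2, 2, 2, 2, 3,
    0, 3, 0, 3, 0, 3, 2, 2, 1, 2]),
   ([0, 3], 1, [1, 0, 3, 0, 3, 0, 0, 3, 2, 2, 3, 0, 3, 2, 1, 0, 1, 2, 1, 1, 0, 0, 0, 1, 0, 3, 2, 2,
    2]),
   ([0, 3, 3], 1, [2, 2, 3, 0, 1, 2, 1, 2, 2, 3, 0, 1, 2, 1, 2, 2, 2, 3, 0, 3, 0, 0, 0, 0, 3, 0, 0,
    1, 2, 1, 2, 3, 0, 1, 1, 0, 3, 2, 1, 2, 2]),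
   ([0, 2], 1, [2, 3, 0, 3, 2, 1, 0, 0, 3, 0, 3, 2, 1, 0, 0, 3, 2, 3, 0, 0, 0, 0, 0, 1, 2, 2, 2, 2,
    3, 0, 3, 2, 2, 1, 0, 0, 3, 2, 2, 2, 1, 0, 3, 0, 0]),
   ([0, 2, 3], 2, [2, 1, 2, 1, 0, 1, 2, 2, 3, 0, 1, 2, 2, 2, 2, 3, 0, 0, 0, 0, 0]),
   ([0, 2, 3, 3], 2, [0, 0, 0, 1, 2, 3, 0, 3, 0, 3, 2, 2, 1, 2, 3, 0, 0, 0, 1, 2, 2, 3, 2, 1, 0, 3,
    2, 1, 2, 2, 2, 2, 2, 2, 1]),
   ([0, 2, 2], 1, [0, 0, 0, 0, 0, 0, 1, 2, 3, 0, 3, 0, 3, 2, 2, 1, 2, 3, 3, 2, 1, 2, 2, 3, 0, 3, 0,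
    3, 0, 3, 2, 3, 3, 2, 1, 0, 3, 0, 1, 2, 3]),
   ([0, 2, 2, 3], 2, [0, 0, 0, 3, 0, 0, 0, 0, 1, 2, 1, 2, 1, 2, 2, 3, 0, 0, 3, 2, 2, 2, 2, 1, 2, 1,
    0, 3, 2, 3, 2, 1, 0, 3, 2, 1, 0, 0]),
   ([0, 2, 2, 3, 3], 2, [0, 3, 2, 1, 0, 0, 3, 0, 3, 2, 1, 1, 0, 0, 1, 2, 3, 0, 0, 3, 0, 1, 2, 3, 0,
    3, 0, 3, 2, 1, 2, 3, 0, 0, 0, 0, 1, 2, 3, 2, 1, 2]),
   ([0, 1], 1, [1, 0, 0, 0, 0, 1, 2, 2, 1, 0, 0, 3, 0, 3, 2, 1, 0, 0, 3, 0, 3, 0, 3, 2, 2, 2, 2, 2,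
    2, 2, 3, 0, 3, 0, 0, 0, 3, 3, 0, 0, 3, 2]),
   ([0, 1, 3], 2, [2, 1, 0, 0, 0, 1, 2, 3, 0, 3, 0, 3, 2, 2, 1, 2, 3, 0, 0, 3, 2, 2, 2, 2, 1, 2, 1,
    0, 1, 0, 3, 2, 1, 0, 0, 0, 1, 2, 3]),
   ([0, 1, 3, 3], 2, [0, 0, 0, 1, 0, 0, 0, 1, 2, 2, 3, 2, 3, 2, 2, 2, 1, 0, 0, 3, 2, 2, 3, 2, 1, 2,
    1, 0, 1, 2, 2]),
   ([0, 1, 2], 2, [0, 1, 0, 0, 0, 3, 2, 2, 3, 0, 3, 2, 2, 2, 2, 1, 0, 3, 2, 2, 3, 0, 0, 3, 2, 1, 2,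
    1, 0, 1, 0, 0, 1, 2, 2, 2, 2]),
   ([0, 1, 2, 3], 3, [3, 0, 3, 0, 3, 2, 2, 1, 2, 1, 1, 0, 1, 2, 2, 3, 0, 1, 2, 2, 2, 2, 3, 3, 0, 0,
    1, 2, 1, 1, 0, 0, 1, 0, 0, 0, 0]),
   ([0, 1, 2, 3, 3], 3, [0, 0, 1, 2, 2, 3, 0, 3, 0, 1, 2, 1, 2, 1, 2, 1, 0, 0, 0, 1, 2, 2, 3, 0, 3,
    2, 2, 3, 2, 2, 2, 3, 2, 2, 2, 1, 2, 1, 2]),
   ([0, 1, 2, 2], 2, [0, 1, 0, 0, 0, 1, 2, 3, 0, 3, 0, 3, 2, 2, 1, 2, 3, 3, 2, 1, 0, 0, 0, 0, 1, 2,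
    2, 1, 0, 0, 3, 0, 3, 2, 1, 0, 3, 0, 0, 1, 2, 1, 2, 3, 2, 3, 2]),
   ([0, 1, 2, 2, 3], 3, [1, 0, 0, 3, 0, 3, 0, 3, 2, 2, 2, 2, 3, 0, 0, 1, 2, 2, 3, 0, 3, 2, 2, 3, 2,
    2, 2, 1, 0, 0, 3, 2, 2, 2, 2, 2, 2, 1, 2]),
   ([0, 1, 2, 2, 3, 3], 3, [2, 1, 2, 2, 1, 0, 3, 2, 2, 3, 0, 0, 0, 0, 0, 0, 1, 2, 2, 2, 1, 1, 0, 3,
    0, 0, 1, 2, 1, 2, 3, 2, 2, 2, 3, 0, 3, 0, 3, 2, 2, 3, 0, 0, 1]),
   ([0, 1, 1], 1, [0, 3, 2, 3, 0, 3, 0, 3, 0, 3, 2, 1, 2, 1, 0, 0, 3, 2, 1, 0, 0, 3, 2, 2, 2, 3, 2,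
    3, 0, 0, 1, 2, 1, 0, 1, 2, 1, 0, 0, 1, 2]),
   ([0, 1, 1, 3], 2, [3, 2, 2, 3, 0, 3, 0, 3, 2, 2, 1, 2, 1, 0, 3, 2, 2, 1, 0, 0, 0, 0, 1, 2, 2, 3,
    2, 2, 2, 1, 2, 2, 2, 2]),
   ([0, 1, 1, 3, 3], 2, [0, 1, 2, 1, 2, 2, 3, 0, 0, 3, 2, 3, 2, 2, 3, 0, 3, 2, 2, 3, 2, 2, 1, 0, 3,
    2, 2, 3, 0, 1, 2, 1, 0, 1, 0, 0, 0, 0, 0, 1, 0, 0, 3, 2]),
   ([0, 1, 1, 2], 2, [2, 1, 2, 1, 0, 0, 1, 2, 1, 0, 0, 1, 2, 2, 2, 2, 2, 3, 0, 1, 2, 1, 2, 2, 3, 0,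
    1, 2, 2, 2, 2, 1, 2, 2, 2, 1, 2, 1, 2, 2]),
   ([0, 1, 1, 2, 3], 3, [1, 2, 2, 1, 0, 0, 1, 2, 1, 0, 0, 1, 2, 2, 2, 3, 2, 1, 2, 2, 1, 0, 3, 2, 2,
    3, 0, 0, 0, 0, 0, 0, 1, 2, 1, 2, 2, 2, 3, 2, 2, 2, 2]),
   ([0, 1, 1, 2, 3, 3], 3, [2, 3, 2, 2, 3, 0, 1, 2, 1, 2, 2, 3, 0, 1, 2, 2, 1, 0, 0, 0, 0, 1, 2, 2,
    2, 2, 2, 2, 1, 0, 0, 3, 2, 2, 3, 0, 1, 1, 0, 3, 0, 1, 2, 3]),
   ([0, 1, 1, 2, 2], 2, [2, 3, 0, 1, 2, 1, 0, 1, 2, 2, 3, 0, 1, 2, 2, 2, 2, 3, 3, 0, 3, 2, 2, 1, 0,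
    0, 3, 2, 2, 2, 1, 2, 3, 0, 1, 2, 2, 2, 2]),
   ([0, 1, 1, 2, 2, 3], 3, [1, 0, 3, 2, 2, 3, 0, 1, 0, 3, 2, 2, 3, 0, 0, 1, 2, 1, 0, 0, 1, 2, 2,
    2]),
   ([0, 1, 1, 2, 2, 3, 3], 3, [1, 0, 0, 0, 3, 2, 2, 3, 0, 3, 2, 2, 3, 3, 0, 3, 2, 2, 1, 0, 1, 2, 1,
    2, 1, 0, 3, 2, 2, 2, 2, 3, 0, 3, 0, 0, 3, 2, 2, 3, 2])]

theorem gen_eq : gen g 4 = alternatingGroup (Fin 13) := by
  refine le_antisymm (gen_le.2 fun k hk => ?_) ?_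
  · have := eqL_sound act (by decide +kernel) isBase (W := List.replicate 39 k) (W' := [])
      (by revert k; decide +kernel)
    rw [evA_rep, evA_nil] at this
    have h := congrArg Perm.sign this
    rw [map_pow, map_one] at h
    obtain e | e := Int.units_eq_one_or (Perm.sign (g k))
    · exact e
    · rw [e] at h; exact absurd h (by decide)
  have : MulAction.IsPretransitive (gen g 4) (Fin 13) := (MulAction.isPretransitive_iff_base 0).2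
    fun i => by
      have h : ∀ k ∈ List.replicate i.1 0, k < 4 := by simp
      refine ⟨⟨_, evA_mem_gen g h⟩, (act.apW h (i := 0) (by decide)).2.trans ?_⟩
      revert i; decide +kernel
  have h : ∀ k ∈ nth [] Ws 0, k < 4 := by decide +kernel
  refine Perm.alternatingGroup_le_of_isPreprimitive_of_isThreeCycle_mem
    (.of_prime_card (by simpa using by decide)) (Perm.isThreeCycle_swap_mul_swap_same (a := 0) (b := 2)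
      (c := 1) (by decide) (by decide) (by decide)) ?_
  have h' : ∀ i : Fin 13, (swap 0 2 * swap 0 1 : Perm (Fin 13)) i = ptF 13 (apW P (nth [] Ws 0) i) := by
    decide +kernel
  convert evA_mem_gen g h
  ext1 i
  have := (act.apW h i.2).2
  rw [ptF_coe] at this
  exact (h' i).trans this.symm

theorem fx (f : gen g 4 →* G) (hf : Function.Injective f) : Fx f.range := by
  obtain ⟨h, M, hr⟩ := Md.ex act (by decide +kernel) isBase hf (Ws := Ws) (by decide +kernel)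
    (K' := 10) (by decide)
  obtain ⟨ω, hω⟩ := ex_prim (l := 3) (by decide)
  have E := eng3 M 4 R D (A := 27) (C := 13) (by decide +kernel) (by decide +kernel)
    (by decide +kernel) hω
  obtain ⟨c, hx, hy⟩ := M.t4 hω R ![9, 2, 3, 0] (by decide +kernel)
  simp only [hx, hy] at E
  have e0 := ck_of (E ![0, 0, 0, 0] ![4, 12, 16, 8] ![0, 0, 0, 0] (by decide +kernel))
  have e1 := ck_of (E ![0, 0, 0, 1] ![3, 6, 4, 0] ![1, 6, 12, 8] (by decide +kernel))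
  have k : ∀ a i W, eqL (extP P 4 Ws) 10 (List.range 13) [a, a, a, a, a] [] = 0 ∧
      (ltAll 10 [a] = 0 ∧ i < 13 ∧ apW (extP P 4 Ws) [a] i ≠ i) ∧
      eqL (extP P 4 Ws) 10 (List.range 13) (W ++ (W ++ W)) [] = 0 ∧
      eqL (extP P 4 Ws) 10 (List.range 13) (W ++ W) (a :: (W ++ [a])) = 0 → 16 ≤ dm (evA h W) 1 :=
    fun a i W ⟨a1, a2, a3, a4⟩ => trick3' (a := h a) (i := 1) (j := 1)
      (by simpa [pow_succ] using M.eq _ _ a1) (by simpa using M.ne _ _ a2)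
      (by simpa [evA_append, pow_succ] using M.eq _ _ a3)
      (by simpa [evA_append, pow_succ] using M.eq _ _ a4)
  have a1 := k 8 2 (R 1) (by decide +kernel)
  have a2 := k 9 0 (R 3) (by decide +kernel)
  have a3 := t13 (s := h 0) ((evA_rep ..).symm.trans
    (M.eq (List.replicate 13 0) [] (by decide +kernel))) (by simpa using M.ne [0] 0 (by decide +kernel))
  have a4 : 49 ≤ dm (evA h (R 1)) 1 + dm (evA h (R 3)) 1 := by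
    rw [hx] at a1 a2
    rw [hx, hx]
    clear E hx hy
    revert e0 e1 a1 a2 c
    decide +kernel
  simp only [R, Matrix.cons_val, evA_cons, evA_nil, one_mul] at a4
  refine (scott (x := h 0) (y := h 1) (by omega)).mono (hr.trans_le (gen_le.2 fun k hk => ?_))
  have b0 : h 0 ∈ closure {h 0, h 1} := subset_closure (by simp)
  have b1 : h 1 ∈ closure {h 0, h 1} := subset_closure (by simp)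
  interval_cases k
  · exact b0
  · exact b1
  · exact (mul_mem_cancel_left b0).1 ((show h 0 * h 2 = 1 by
      simpa using M.eq [2, 0] [] (by decide +kernel)) ▸ one_mem _)
  · exact (mul_mem_cancel_left b1).1 ((show h 1 * h 3 = 1 by
      simpa using M.eq [3, 1] [] (by decide +kernel)) ▸ one_mem _)

theorem no {H : Subgroup G} (hH : IsCoatom H)
    (e : Cfsg.generalizedFittingSubgroup H ≃* alternatingGroup (Fin 13)) : False := by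
  have h1 := two_mul_nat_card_alternatingGroup (α := Fin 13)
  have h2 := Nat.card_eq_of_bijective _ (Cfsg.Agent.S2119.result 13 (by decide) (by decide))
  have h3 : Nat.card (Perm (Fin 13)) = 6227020800 := by rw [Nat.card_perm, Nat.card_fin]; rfl
  let i := MulEquiv.subgroupCongr gen_eq
  refine nm1 e hH (alternatingGroup.center_eq_bot (by simp)) (a := 1) (Dvd.intro 1 (by omega))
    (by omega) ((fx ((soc e).comp i.toMonoidHom) ((soc_inj e).comp i.injective)).mono ?_)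
  rintro _ ⟨x, rfl⟩
  exact ⟨i.symm x, by simp⟩

end H18.E7.A13
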