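import Cfsg.Agent.H18.E7d
import Cfsg.Agent.H18.E7e

/-! `L₂(27)` fixes a vector of the 56-dimensional module of `E₇(2)` or of its dual. -/

set_option autoImplicit false

namespace H18.E7

open Module Subgroup Matrix.SpecialLinearGroup
open scoped MatrixGroups

theorem wtc {l : ℕ} [NeZero l] {ζ : K} (hζ : IsPrimitiveRoot ζ l) {W : Submodule K V} {y : G}
    (hW : ∀ v ∈ W, ρ y v ∈ W) (h1 : y ^ l = 1) :
    finrank K W = ∑ j : ZMod l, finrank K ↥(W ⊓ (ρ y).eigenspace (ζ ^ j.val)) := by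
  rw [wt0 hζ (Y := fun _ : Unit => y) (fun _ => hW) (fun _ _ _ _ => rfl) fun _ => h1]
  exact Fintype.sum_equiv (Equiv.funUnique _ _) _ _ fun w => by rw [cw, J, iInf_unique]; rfl

theorem two_val {l : ℕ} [NeZero l] {ζ : K} (hζ : IsPrimitiveRoot ζ l) (j : ZMod l) :
    ζ ^ (2 * j).val = (ζ ^ j.val) ^ 2 := by
  rw [two_mul, ZMod.val_add, ← pow_eq_pow_mod _ hζ.pow_eq_one, pow_add, sq]

theorem eig_Φ {W : Submodule K V} (hW : ∀ v, Φ v ∈ W ↔ v ∈ W) (y : G) (μ : K) :
    finrank K ↥(W ⊓ (ρ y).eigenspace (μ ^ 2)) = finrank K ↥(W ⊓ (ρ y).eigenspace μ) :=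
  (dim_Φ fun v => by simp only [Submodule.mem_inf, hW, End.mem_eigenspace_iff, Φ_eig]).symm

theorem memJ1 {I : Type*} {y : I → G} {v : V} : v ∈ J y 1 ↔ ∀ i, ρ (y i) v = v := by
  simp only [mem_J, Pi.one_apply, one_smul]

theorem Φ_fix {g : G} {v : V} : ρ g (Φ v) = Φ v ↔ ρ g v = v := by
  simpa using Φ_eig (g := g) (μ := 1) (v := v)

theorem dm_inv (g : G) : dm g⁻¹ 1 = dm g 1 :=
  congrArg (fun W : Submodule K V => finrank K W) (Submodule.ext fun v => by
    rw [fix1, fix1]; exact (fixS v).inv_mem_iff)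

theorem dual_zero {y : G} {n : ℕ} (hn : Odd n) (hy : y ^ n = 1) {ψ : Dual K V} (h1 : y ∈ fixD ψ)
    (h2 : ∀ v, ρ y v = v → ψ v = 0) (v : V) : ψ v = 0 := by
  rw [← h2 _ (Nm_left hy v)]
  obtain ⟨k, rfl⟩ := hn
  simp only [Nm, LinearMap.sum_apply, ← map_pow, map_sum, show ∀ i, ψ (ρ (y ^ i) v) = ψ v from
    fun i => (fixD ψ).pow_mem h1 i v, Finset.sum_const, Finset.card_range]
  simp [CharTwo.two_eq_zero]

section
variable {F : Type*} [Field F] [Fintype F] (hF : Fintype.card F = 27) {u : F → G} {h : Fˣ →* G}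
  {n : G} (u0 : ∀ s t, u (s + t) = u s * u t) (u1 : u 1 ≠ 1)
  (r1 : ∀ a t, h a * u t = u (a ^ 2 * t) * h a)
include hF u0 u1 r1

theorem l27_dim : finrank K (J u 1) = 4 := by
  have : CharP F 3 := charP_of_card_eq_prime_pow (f := 3) hF
  let _ := ZMod.algebra F 3
  have hr : finrank (ZMod 3) F = 3 := Nat.pow_right_injective (a := 3) (by decide) (by
    simpa [hF] using (Module.card_eq_pow_finrank (K := ZMod 3) (V := F)).symm)
  let b := finBasisOfFinrankEq (ZMod 3) F hr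
  let u' : Multiplicative F →* G := MonoidHom.mk' (fun t => u t.toAdd) fun _ _ => u0 _ _
  have a0 : u 0 = 1 := u'.map_one
  have a1 : ∀ t, u t ^ 3 = 1 := fun t => by
    rw [pow_three', ← u0, ← u0, ← a0, ← two_mul, ← add_one_mul, two_add_one_eq_three,
      show (3 : F) = 0 from CharP.cast_eq_zero F 3, zero_mul]
  have a2 : ∀ t ≠ 0, dm (u t) 1 = dm (u 1) 1 := fun t ht => by
    have k : ∀ s ≠ 0, dm (u (s * s)) 1 = dm (u 1) 1 := fun s hs => by
      rw [← dm_conj (h (Units.mk0 s hs)) (u 1), r1, mul_inv_cancel_right, Units.val_mk0, mul_one, sq]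
    have h2 : ringChar F ≠ 2 := by rw [ringChar.eq F 3]; decide
    have k1 := FiniteField.isSquare_iff h2 ht
    have k2 := FiniteField.isSquare_iff h2 (neg_ne_zero.2 ht)
    rw [hF] at k1 k2
    obtain e | e := FiniteField.pow_dichotomy h2 ht <;> rw [hF] at e
    · obtain ⟨s, rfl⟩ := k1.2 e
      exact k s (by simpa using ht)
    · obtain ⟨s, e⟩ := k2.2 (by rw [Odd.neg_pow (by decide), e, neg_neg])
      rw [← k s (by rintro rfl; simp [ht] at e), ← e, ← dm_inv]
      exact congrArg (dm · 1) (map_inv u' (.ofAdd t)).symm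
  obtain ⟨ω, hω⟩ := ex_prim (l := 3) (by decide)
  have a3 := four hω (W := ⊤) (Y := fun i => u (b i)) (fun _ _ _ => trivial)
    (fun i j v _ => comm_app (show _ = _ by rw [← u0, ← u0, add_comm]) v) (fun i => a1 _)
    [[0], [1], [2], [0, 1], [0, 2], [1, 2], [0, 1, 1], [0, 2, 2], [1, 2, 2], [0, 1, 2], [0, 1, 2, 2],
      [0, 1, 1, 2], [0, 1, 1, 2, 2]] (fun d => u (d.map b).sum) id (fun d hd w v _ hv => by
      clear hd
      induction d with
      | nil => simp [a0]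
      | cons i L ih =>
        rw [id] at ih
        rw [List.map_cons, List.sum_cons, u0, map_mul, End.mul_apply, ih, map_smul, hv, smul_smul,
          ← pow_add, id, List.map_cons, List.sum_cons, ZMod.val_add,
          ← pow_eq_pow_mod _ hω.pow_eq_one, add_comm]) (A := 9) (C := 4) (by decide +kernel) 0
  rw [List.map_congr_left (g := fun _ => dm (u 1) 1) fun d hd => by
    rw [top_inf_eq, show ((id d).map (0 : Fin 3 → ZMod 3)).sum = 0 from List.sum_eq_zero (by simp), ZMod.val_zero, pow_zero]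
    refine a2 _ fun e => ?_
    have := congrArg b.equivFun e
    rw [map_list_sum, List.map_map, map_zero, show b.equivFun ∘ b = fun i => Pi.single i 1 from
      funext fun i => by simp [Finsupp.single_eq_pi_single]] at this
    clear e; revert d; decide +kernel, cw_zero, top_inf_eq, show J (fun i => u (b i)) 1 = J u 1 from
      Submodule.ext fun v => by
        rw [memJ1, memJ1]
        refine ⟨fun k t => ?_, fun k _ => k _⟩
        exact (b.span_eq.ge.trans (Submodule.span_le (p := AddSubgroup.toZModSubmodule 3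
          (Subgroup.toAddSubgroup' ((fixS v).comap u'))).2 (by rintro _ ⟨i, rfl⟩; exact k i)))
          (Submodule.mem_top (x := t))] at a3
  have a4 := (t3 hω (a1 1) u1).1
  simp at a3
  omega

theorem l27_le {a : Fˣ} (ha : h a ^ 13 = 1) : J u 1 ≤ (ρ (h a)).eigenspace 1 := by
  obtain ⟨ζ, hζ⟩ := ex_prim (l := 13) (by decide)
  have a1 := wtc hζ (W := J u 1) (fun v hv => memJ1.2 fun t => by
    have := r1 a (↑a⁻¹ ^ 2 * t)
    rw [← mul_assoc, ← mul_pow, Units.mul_inv, one_pow, one_mul] at this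
    rw [← End.mul_apply, ← map_mul, ← this, map_mul, End.mul_apply, memJ1.1 hv]) ha
  obtain ⟨c, hc⟩ : ∃ c : Fin 13 → ℕ, ∀ j : ZMod 13,
    finrank K ↥(J u 1 ⊓ (ρ (h a)).eigenspace (ζ ^ j.val)) = c j := ⟨_, fun _ => rfl⟩
  have a2 : ∀ j : ZMod 13, c (2 * j :) = c j := fun j => by
    rw [← hc, ← hc, two_val hζ, eig_Φ fun v => by simp only [memJ1, Φ_fix]]
  have a3 := hc 0
  rw [l27_dim hF u0 u1 r1] at a1
  simp only [hc] at a1
  replace a1 : 4 = ∑ j : Fin 13, c j := a1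
  have a4 : c 2 = c 1 ∧ c 4 = c 2 ∧ c 6 = c 3 ∧ c 8 = c 4 ∧ c 10 = c 5 ∧ c 12 = c 6 ∧ c 1 = c 7 ∧
    c 3 = c 8 ∧ c 5 = c 9 ∧ c 7 = c 10 ∧ c 9 = c 11 :=
    ⟨a2 1, a2 2, a2 3, a2 4, a2 5, a2 6, a2 7, a2 8, a2 9, a2 10, a2 11⟩
  simp only [Fin.sum_univ_succ, Fin.sum_univ_zero, Fin.reduceSucc, Fin.succ_zero_eq_one] at a1
  rw [ZMod.val_zero, pow_zero] at a3
  refine inf_eq_left.1 (Submodule.eq_of_le_of_finrank_eq inf_le_left ?_)
  rw [a3, l27_dim hF u0 u1 r1]
  change c 0 = 4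
  omega

theorem l27 (hm : h (-1) = 1) (h1 : ∃ a, h a ≠ 1) (r2 : ∀ a, h a * n = n * h a⁻¹) (r3 : n * n = 1)
    (r4 : ∀ t : Fˣ, n * u t * n = u (-t⁻¹) * h (-t⁻¹) * n * u (-t⁻¹)) :
    Fx (closure (insert n (Set.range u))) := by
  classical
  have a0 : u 0 = 1 := by simpa using u0 0 0
  have a1 : ∀ a, h a ^ 13 = 1 := fun a => by
    have : (a ^ 13) ^ 2 = 1 := by
      rw [← pow_mul, ← pow_card_eq_one (x := a), Fintype.card_units, hF]
    obtain e | e := sq_eq_one_iff.1 (congrArg Units.val this : (↑(a ^ 13) : F) ^ 2 = 1)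
    · rw [← map_pow, Units.ext (v := 1) e, map_one]
    · rw [← map_pow, Units.ext (v := -1) e, hm]
  have a2 : ∀ a, ∀ v ∈ J u 1, ρ (h a) v = v := fun a v hv =>
    fix1.1 (l27_le hF u0 u1 r1 (a1 a) hv)
  have a3 : ∀ v, ρ n (ρ n v) = v := fun v => by rw [← End.mul_apply, ← map_mul, r3]; simp
  obtain ⟨a, ha⟩ := h1
  by_cases b : J u 1 ⊓ (J u 1).map (ρ n) = ⊥
  swap
  · obtain ⟨v, ⟨b1, w, b2, rfl⟩, b3⟩ := (Submodule.ne_bot_iff _).1 b
    refine .inl ⟨_, b3, (closure_le _).2 (Set.insert_subset ?_ ?_)⟩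
    · have c := congrArg (ρ · (ρ n w)) (r4 (-1))
      simp only [map_mul, End.mul_apply, a3, memJ1.1 b1, memJ1.1 b2, inv_neg_one, neg_neg, map_one,
        End.one_apply] at c
      change ρ n (ρ n w) = ρ n w
      rw [a3, c]
    · rintro _ ⟨t, rfl⟩; exact memJ1.1 b1 t
  have b1 : J u 1 ⊔ (J u 1).map (ρ n) = (ρ (h a)).eigenspace 1 := by
    refine Submodule.eq_of_le_of_finrank_eq (sup_le (l27_le hF u0 u1 r1 (a1 a)) ?_) ?_
    · rintro _ ⟨v, hv, rfl⟩
      exact fix1.2 (by rw [← End.mul_apply, ← map_mul, r2, map_mul, End.mul_apply, a2 _ _ hv])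
    · have := Submodule.finrank_sup_add_finrank_inf_eq (J u 1) ((J u 1).map (ρ n))
      rw [b, finrank_bot, ← LinearEquiv.finrank_eq (Submodule.equivMapOfInjective _
        (H23.Wag.ρ_inj (ρ := ρ) n) _), l27_dim hF u0 u1 r1] at this
      exact this.trans (t13 (a1 a) ha).symm
  let E : End K V := ∑ t, ρ (u t)
  have e0 : ∀ v, E v = ∑ t, ρ (u t) v := fun v => LinearMap.sum_apply ..
  have e1 : ∀ s v, E (ρ (u s) v) = E v := fun s v => by
    rw [e0, e0, ← Equiv.sum_comp (Equiv.addRight s) fun t => ρ (u t) v]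
    simp [u0]
  have e2 : ∀ v, E v ∈ J u 1 := fun v => memJ1.2 fun s => by
    rw [e0, map_sum, ← Equiv.sum_comp (Equiv.addLeft s) fun t => ρ (u t) v]
    simp [u0]
  have e3 : ∀ v ∈ J u 1, E v = v := fun v hv => by
    simp only [e0, memJ1.1 hv, Finset.sum_const, Finset.card_univ, hF]
    rw [show 27 • v = 13 • (v + v) + v by abel, add_self]; simp
  have e4 : ∀ c v, E (ρ (h c) v) = E v := fun c v => by
    rw [← a2 c _ (e2 v), e0, e0, map_sum,
      ← Equiv.sum_comp (c ^ 2).mulLeft fun t => ρ (u t) (ρ (h c) v)]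
    exact Finset.sum_congr rfl fun t _ => by
      simpa using congrArg (ρ · v) (r1 c t).symm
  have e5 : ∀ v ∈ J u 1, E (ρ n (E (ρ n v))) = v := fun v hv => by
    rw [e0 (ρ n v), map_sum, map_sum, ← Finset.add_sum_erase _ _ (Finset.mem_univ 0),
      Finset.sum_congr rfl (g := fun _ => E (ρ n v)) fun t ht => by
        have c := congrArg (ρ · v) (r4 (Units.mk0 t (Finset.ne_of_mem_erase ht)))
        simp only [map_mul, End.mul_apply, memJ1.1 hv, Units.val_mk0] at c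
        rw [c, e1, e4], Finset.sum_const, Finset.card_erase_of_mem (Finset.mem_univ _),
      Finset.card_univ, hF, show (27 - 1) • E (ρ n v) = 13 • (E (ρ n v) + E (ρ n v)) by abel,
      add_self, a0]
    simp [a3, e3 v hv]
  have c1 : LinearMap.ker E ⊔ (J u 1).map (ρ n - 1) ≠ ⊤ := fun c => by
    have k : ∀ v ∈ J u 1, ∃ w ∈ J u 1, v = E (ρ n w) - w := fun v hv => by
      obtain ⟨x, hx, _, ⟨w, hw, rfl⟩, e⟩ := Submodule.mem_sup.1 (c.ge (Submodule.mem_top (x := v)))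
      refine ⟨w, hw, ?_⟩
      rw [← e3 v hv, ← e, map_add, LinearMap.mem_ker.1 hx]
      simp [e3 w hw]
    have : J u 1 = ⊥ := (Submodule.eq_bot_iff _).2 fun v hv => by
      obtain ⟨w, hw, rfl⟩ := k v hv
      obtain ⟨x, hx, rfl⟩ := k w hw
      rw [map_sub, map_sub, e5 x hx]
      linear_combination (exp := 1) add_self x - add_self (E (ρ n x))
    have d := l27_dim hF u0 u1 r1
    rw [this, finrank_bot] at d
    omega
  obtain ⟨φ, c2, c3⟩ := Submodule.exists_dual_map_eq_bot_of_lt_top (lt_top_iff_ne_top.2 c1)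
    inferInstance
  replace c3 : ∀ v ∈ _, φ v = 0 := fun v hv => (Submodule.eq_bot_iff _).1 c3 _ ⟨v, hv, rfl⟩
  have d1 : ∀ v, φ (E v) = φ v := fun v => by
    simpa [sub_eq_zero] using c3 (E v - v) (Submodule.mem_sup_left (by simp [e3 _ (e2 v)]))
  have d2 : ∀ v ∈ J u 1, φ (ρ n v) = φ v := fun v hv => by
    simpa [sub_eq_zero] using c3 _ (Submodule.mem_sup_right ⟨v, hv, rfl⟩)
  have d3 : ∀ c v, φ (ρ (h c) v) = φ v := fun c v => by rw [← d1, e4, d1]
  refine .inr ⟨φ, c2, (closure_le _).2 (Set.insert_subset (fun v => sub_eq_zero.1 ?_) ?_)⟩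
  · refine dual_zero (by decide) (a1 a) (ψ := φ ∘ₗ ρ n - φ) (fun v => ?_) (fun v hv => ?_) v
    · have c := congrArg (ρ · v) (r2 a⁻¹)
      simp only [map_mul, End.mul_apply, inv_inv] at c
      simp [← c, d3, -map_inv]
    · obtain ⟨x, hx, _, ⟨w, hw, rfl⟩, rfl⟩ := Submodule.mem_sup.1 (b1.ge (fix1.2 hv))
      simp [a3, d2 x hx, d2 w hw]
  · rintro _ ⟨t, rfl⟩ v
    rw [← d1, e1, d1]

end

theorem noL227 {H : Subgroup G} (hH : IsCoatom H) {F : Type*} [Field F] [Fintype F]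
    (hF : Fintype.card F = 27) (e : Cfsg.generalizedFittingSubgroup H ≃* PSL(2, F)) : False := by
  classical
  have := H11.psl2_simple (F := F) (by omega)
  have h2 := H11.card_psl (ι := Fin 2) (F := F)
  have h1 := H11.card_psl_two (F := F)
  have h3 := Cfsg.Agent.S0813.result (F := F) 3 3 (by decide) hF 2 le_rfl (by decide)
  rw [H11.card_pgl_eq_card_sl, ← h2] at h3
  norm_num [-Nat.card_eq_fintype_card, hF] at h1 h3
  refine nm2 e hH (center_bot (by omega)) (Dvd.intro 1 (by omega)) (by omega) ?_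
  let f : SL(2, F) →* G := (soc e).comp (QuotientGroup.mk' _)
  have c1 : ∀ x, f x = 1 ↔ ∃ r : F, r ^ 2 = 1 ∧ Matrix.scalar _ r = x.1 := fun x =>
    (map_eq_one_iff _ (soc_inj e)).trans ((QuotientGroup.eq_one_iff x).trans
      Matrix.SpecialLinearGroup.mem_center_iff)
  obtain ⟨h, hh⟩ : ∃ h : Fˣ →* SL(2, F), ∀ a, (h a).1 = !![(a : F), 0; 0, (a : F)⁻¹] :=
    ⟨MonoidHom.mk' (fun a => ⟨!![a, 0; 0, a⁻¹], by simp⟩) fun a b => Subtype.ext
      (show _ = !![(a : F), 0; 0, (a : F)⁻¹] * !![(b : F), 0; 0, (b : F)⁻¹] by simp [mul_comm]),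
      fun _ => rfl⟩
  obtain ⟨n, hn⟩ : ∃ n : SL(2, F), n.1 = !![0, 1; -1, 0] := ⟨⟨_, by simp⟩, rfl⟩
  let u : F → SL(2, F) := transvection zero_ne_one
  have hu : ∀ t, (u t).1 = !![1, t; 0, 1] := fun t => by
    ext i j; fin_cases i <;> fin_cases j <;> simp [u, transvection_coe]
  have m : f (h (-1)) = 1 := (c1 _).2 ⟨-1, by simp, by
    ext i j; fin_cases i <;> fin_cases j <;> simp [hh]⟩
  refine (l27 hF (u := fun t => f (u t)) (h := f.comp h) (n := f n)
    (fun s t => by rw [← map_mul, ← transvection_add]) (fun e => ?_) (fun a t => ?_) m ?_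
    (fun a => ?_) ?_ fun t => ?_).mono ?_
  · obtain ⟨r, -, e⟩ := (c1 _).1 e
    simpa [hu] using congrFun (congrFun e 0) 1
  · simp only [MonoidHom.comp_apply, ← map_mul]
    refine congrArg f (Subtype.ext ?_)
    simp [hu, hh, sq, mul_right_comm _ t]
  · obtain ⟨a, ha⟩ := IsCyclic.exists_ofOrder_eq_natCard (α := Fˣ)
    rw [Nat.card_units, Nat.card_eq_fintype_card, hF] at ha
    refine ⟨a, fun e => ?_⟩
    obtain ⟨r, e1, e⟩ := (c1 _).1 e
    have e2 : r = a := by simpa [hh] using congrFun (congrFun e 0) 0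
    exact absurd (ha ▸ orderOf_dvd_of_pow_eq_one (n := 2) (Units.ext (by simpa [e2] using e1)))
      (by decide)
  · simp only [MonoidHom.comp_apply, ← map_mul]
    refine congrArg f (Subtype.ext ?_)
    simp [hh, hn, -map_inv]
  · rw [← map_mul, ← m]
    refine congrArg f (Subtype.ext ?_)
    simp [hh, hn, -map_inv]
  · simp only [MonoidHom.comp_apply, ← map_mul]
    refine congrArg f (Subtype.ext ?_)
    simp [hh, hn, hu]
  · rintro _ ⟨x, rfl⟩
    obtain ⟨x, rfl⟩ := QuotientGroup.mk'_surjective _ x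
    exact (H11.G2.top_of_cyc (n := 1) le_rfl (w := n) (H11.G2.w_smul (by
      ext i j; fin_cases i <;> fin_cases j <;> simp [hn]))
      (H := (closure (insert (f n) (Set.range fun t => f (u t)))).comap f)
      (subset_closure (by simp)) zero_ne_one fun t => subset_closure (.inr ⟨t, rfl⟩)).ge (mem_top x)

end H18.E7
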