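import Cfsg.Agent.H18.E7f
import Cfsg.Agent.H18.E7g
import Cfsg.Agent.H16.O.J2
import Cfsg.Agent.H15.J2

/-! `J₂` fixes a vector of the 56-dimensional module of `E₇(2)`. -/

set_option autoImplicit false

namespace H18.E7

open Module H16 Subgroup

local notation:max "Fz " g:max => Module.End.eigenspace (ρ g) (1 : K)

/-- the dimension of a subspace -/
noncomputable def fr (W : Submodule K V) : ℕ := finrank K W

theorem fr_eq (W : Submodule K V) : finrank K W = fr W := rfl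
theorem dm_eq (g : G) (μ : K) : dm g μ = fr ((ρ g).eigenspace μ) := rfl
theorem fr_top : fr ⊤ = 56 := by simp [fr]

theorem Fz_map {x y : G} (h : Commute x y) {v : V} (hv : v ∈ Fz x) : ρ y v ∈ Fz x :=
  fix1.2 (by rw [comm_app h, fix1.1 hv])

theorem pair {l : ℕ} [NeZero l] (hl : Odd l)
    (h3 : ∀ w : Fin 2 → ZMod l, ([0] :: (List.range l).map fun i => 1 :: List.replicate i 0).countP
      (fun d => (d.map w).sum = 0) = if w = 0 then l + 1 else 1) {W : Submodule K V} {p q : G}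
    (hp : ∀ v ∈ W, ρ p v ∈ W) (hq : ∀ v ∈ W, ρ q v ∈ W)
    (hc : ∀ v ∈ W, ρ p (ρ q v) = ρ q (ρ p v)) (a1 : p ^ l = 1) (a2 : q ^ l = 1) :
    fr (W ⊓ Fz p) + ((List.range l).map fun i => fr (W ⊓ Fz (p ^ i * q))).sum =
      l * fr (W ⊓ (Fz p ⊓ Fz q)) + fr W := by
  obtain ⟨ζ, hζ⟩ := ex_prim hl
  have := four hζ (W := W) (Y := fun i : Fin 2 => if i.1 = 0 then p else q)
    (Fin.forall_fin_two.2 ⟨hp, hq⟩) (Fin.forall_fin_two.2 ⟨Fin.forall_fin_two.2
      ⟨fun _ _ => rfl, hc⟩, Fin.forall_fin_two.2 ⟨fun v h => (hc v h).symm, fun _ _ => rfl⟩⟩)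
    (Fin.forall_fin_two.2 ⟨a1, a2⟩) (α := List (Fin 2)) _
    (fun d => evA (fun k => if k = 0 then p else q) (d.map Fin.val)) id
    (fun d _ w v _ hv => eig_ev hζ (h := fun k => if k = 0 then p else q) (f := Fin.val) (w := w)
      (v := v) hv d) h3 0
  rw [cw_zero, show J (fun i : Fin 2 => if i.1 = 0 then p else q) 1 = Fz p ⊓ Fz q from
    Submodule.ext fun v => by simp [memJ1, Fin.forall_fin_two]] at this
  simpa [fr_eq, Function.comp_def, A13.evA_rep] using this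

theorem heis {z q c : G} (a1 : z ^ 3 = 1) (a2 : q ^ 3 = 1) (a3 : q ≠ 1) (a4 : Commute z q)
    (a5 : Commute z c) (h : c * q = z * q * c) (hz : dm z 1 = 32) :
    fr (Fz z ⊓ Fz q) % 3 = 0 := by
  have := pair (l := 3) (by decide) (by decide) (W := ⊤) (fun _ _ => trivial) (fun _ _ => trivial)
    (fun v _ => comm_app a4 v) a1 a2
  have b1 : dm (z * q) 1 = dm q 1 := by rw [← dm_conj c q, h, mul_inv_cancel_right]
  have b2 : dm (z ^ 2 * q) 1 = dm q 1 := by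
    rw [← b1, ← dm_conj c (z * q), ← mul_assoc, ← a5.eq, mul_assoc z c, h, sq, ← mul_assoc,
      mul_inv_cancel_right, mul_assoc]
  obtain ⟨ω, hω⟩ := ex_prim (l := 3) (by decide)
  have b3 := (t3 hω a2 a3).1
  simp only [top_inf_eq, List.range_succ, List.range_zero, List.nil_append, List.cons_append,
    List.map_cons, List.map_nil, List.sum_cons, List.sum_nil, pow_zero, one_mul, pow_one,
    fr_top] at this
  simp only [dm_eq] at hz b1 b2 b3
  omega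

theorem ne32 {z u x : G} (a1 : z ^ 3 = 1) (a2 : u ^ 3 = 1 ∧ u ≠ 1)
    (a3 : ∀ i < 3, (u ^ i * x) ^ 3 = 1 ∧ u ^ i * x ≠ 1) (a4 : Commute z u) (a5 : Commute z x)
    (h : x * u = z * u * x) : dm z 1 ≠ 32 := fun hz => by
  have := pair (l := 3) (by decide) (by decide) (W := Fz z) (fun _ => Fz_map a4)
    (fun _ => Fz_map a5) (fun v hv => by
      have := congrArg (ρ · v) h
      simp only [map_mul, End.mul_apply] at this
      rw [this, fix1.1 (Fz_map a4 (Fz_map a5 hv))]) a2.1 (by simpa using (a3 0 (by decide)).1)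
  have b1 := heis a1 a2.1 a2.2 a4 a5 h hz
  have b2 : ∀ i < 3, fr (Fz z ⊓ Fz (u ^ i * x)) % 3 = 0 := fun i hi =>
    heis (c := u⁻¹) a1 (a3 i hi).1 (a3 i hi).2 ((a4.pow_right i).mul_right a5) a4.inv_right (by
      rw [eq_mul_inv_iff_mul_eq, mul_assoc, mul_assoc, h, mul_assoc z, ← mul_assoc (u ^ i),
        ← (a4.pow_right i).eq, ← mul_assoc, ← mul_assoc, ← mul_assoc, ← a4.inv_right.eq]
      group) hz
  have b3 := b2 0 (by decide)
  have b4 := b2 1 (by decide)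
  have b5 := b2 2 (by decide)
  simp only [List.range_succ, List.range_zero, List.nil_append, List.cons_append,
    List.map_cons, List.map_nil, List.sum_cons, List.sum_nil] at this
  simp only [dm_eq] at hz
  omega

theorem eig_mul {y z : G} (h : Commute y z) {m n : ℕ} [NeZero n] (hy : y ^ m = 1) (hz : z ^ n = 1) {μ : K}
    (hμ : μ ^ n = 1) {a b : ℕ} (e : a * m = b * n + 1) :
    dm (y * z) μ = fr (Fz y ⊓ (ρ z).eigenspace μ) :=
  congrArg fr (Submodule.ext fun v => by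
    simp only [Submodule.mem_inf, End.mem_eigenspace_iff, one_smul]
    refine ⟨fun k => ?_, fun k => by rw [map_mul, End.mul_apply, k.2, map_smul, k.1]⟩
    have c := H23.Wag.pow_eig k (a * m)
    rw [← map_pow, h.mul_pow, mul_comm a, pow_mul, hy, one_pow, one_mul, mul_comm m, e, pow_succ,
      pow_succ, mul_comm b, pow_mul, pow_mul, hz, hμ, one_pow, one_pow, one_mul, one_mul] at c
    refine ⟨?_, c⟩
    rw [map_mul, End.mul_apply, c, map_smul] at k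
    exact smul_right_injective _ (fun e => by
      rw [e, zero_pow (NeZero.ne n)] at hμ; exact zero_ne_one hμ) k)

theorem six {y a z : G} (a1 : y ^ 5 = 1 ∧ y ≠ 1) (a2 : ∀ i < 5, y ^ i * a ≠ 1) (a3 : a ^ 5 = 1)
    (a4 : z ^ 3 = 1) (a5 : Commute y a) (a6 : Commute y z) (h : z ^ 2 = a ^ 1 * z * a ^ 1)
    (hz : dm z 1 ≠ 32) :
    fr (Fz y ⊓ Fz a) = 8 ∧ 6 ≤ fr (Fz y ⊓ Fz a ⊓ Fz z) := by
  have b1 := pair (l := 5) (by decide) (by decide +kernel) (W := ⊤) (fun _ _ => trivial)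
    (fun _ _ => trivial) (fun v _ => comm_app a5 v) a1.1 a3
  have b2 : fr (Fz y) = 16 := t5' a1.1 a1.2
  rw [List.map_congr_left (g := fun _ => 16) fun i hi => by
    rw [top_inf_eq]
    exact t5' (by rw [(a5.pow_left i).mul_pow, ← pow_mul, mul_comm, pow_mul, a1.1, a3]; simp)
      (a2 i (List.mem_range.1 hi)), top_inf_eq, top_inf_eq, b2] at b1
  simp only [List.map_const', List.length_range, List.sum_replicate, smul_eq_mul, fr_top] at b1
  obtain ⟨ζ, hζ⟩ := ex_prim (l := 15) (by decide)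
  have hω := hζ.pow (by decide) (show 15 = 5 * 3 from rfl)
  have hη := hζ.pow (by decide) (show 15 = 3 * 5 from rfl)
  have b3 := trick3 a3 a4 h (W := Fz y) fun _ => Fz_map a6
  have b4 := trickω hω a3 a4 h (W := Fz y) fun _ => Fz_map a6
  have b5 := (tab (by decide) tb15 hζ (s := y * z) (by
    rw [a6.mul_pow, show y ^ 15 = (y ^ 5) ^ 3 by group, show z ^ 15 = (z ^ 3) ^ 5 by group, a1.1, a4]
    simp)).1
  have c1 := wtc hω (W := Fz y) (fun _ => Fz_map a6) a4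
  have c2 := wtc hη (W := Fz z) (fun _ => Fz_map a6.symm) a1.1
  have c3 : ∀ j : ZMod 3, _ := fun j => eig_mul a6 a1.1 a4 (μ := (ζ ^ 5) ^ j.val)
    (by rw [← pow_mul, mul_comm, pow_mul, hω.pow_eq_one, one_pow]) (a := 2) (b := 3) rfl
  have c4 : ∀ j : ZMod 5, _ := fun j => eig_mul a6.symm a4 a1.1 (μ := (ζ ^ 3) ^ j.val)
    (by rw [← pow_mul, mul_comm, pow_mul, hη.pow_eq_one, one_pow]) (a := 2) (b := 1) rfl
  have c5 : dm _ (_ ^ 0) = fr (_ ⊓ (ρ z).eigenspace (_ ^ 0)) := c3 0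
  have c6 : dm _ (_ ^ 1) = fr (_ ⊓ (ρ z).eigenspace (_ ^ 1)) := c3 1
  simp only [fr_eq, ← c3] at c1
  simp only [fr_eq, ← c4, ← a6.eq] at c2
  have d2 : ∀ j : ZMod 5, dm (y * z) ((ζ ^ 3) ^ (2 * j).val) = dm (y * z) ((ζ ^ 3) ^ j.val) :=
    fun j => by rw [two_val hη, ← dm_Φ]
  replace c1 : _ = dm (y * z) ((ζ ^ 5) ^ 0) + (dm (y * z) ((ζ ^ 5) ^ 1) +
    (dm (y * z) ((ζ ^ 5) ^ 2) + 0)) := c1
  replace c2 : _ = dm (y * z) ((ζ ^ 3) ^ 0) + (dm (y * z) ((ζ ^ 3) ^ 1) + (dm (y * z) ((ζ ^ 3) ^ 2) +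
    (dm (y * z) ((ζ ^ 3) ^ 3) + (dm (y * z) ((ζ ^ 3) ^ 4) + 0)))) := c2
  have d3 := dm_Φ (y * z) (ζ ^ 5)
  have d4 : dm _ (_ ^ 2) = dm _ (_ ^ 1) := d2 1
  have d5 : dm _ (_ ^ 4) = dm _ (_ ^ 2) := d2 2
  have d6 : dm _ (_ ^ 3) = dm _ (_ ^ 4) := d2 4
  replace b5 : (dm (y * z) (ζ ^ 0), dm (y * z) (ζ ^ 1), dm (y * z) (ζ ^ 3),
    dm (y * z) (ζ ^ 5)) ∈ _ := b5
  simp only [pow_zero, pow_one, fr_eq, List.mem_cons, Prod.mk.injEq, List.not_mem_nil,
    or_false] at b3 b4 b5 c1 c2 c5 c6 d4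
  rw [dm_eq z] at hz
  omega

namespace J2

/-- extra letters -/
def Ws : List (List ℕ) := [[1, 2, 1, 1, 3, 2, 0, 4, 2, 1, 2, 0, 2, 3, 4], [1, 2, 1, 2, 0, 2, 1, 1, 3, 4, 2, 4, 2, 0, 2,
    4], [3, 4, 0, 2, 1, 2, 0, 3, 2, 1, 2, 1, 4], [1, 1, 2, 1, 2, 0, 2, 0, 3, 2, 1], [1, 1, 3, 2, 0,
    2, 0, 4, 2, 0, 2, 0, 4, 2, 3], [3, 4, 2, 1, 1, 4], [4, 2, 0, 2, 0, 2, 1, 1, 3, 2, 1, 1, 4]]
/-- the letters as words in four of the extra letters -/
def Gs : List (List ℕ) := [[9, 7, 5, 5, 5, 5, 6, 6, 6, 6, 9, 9, 7, 6, 6, 6, 6, 9, 7, 6, 6, 6, 6, 7, 7], [7, 6, 7, 7, 9, 9,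
    6, 7, 7, 9, 6, 5, 7, 7, 9, 9], [5, 7, 7, 9, 6, 7, 7, 6, 9, 9, 6, 7, 7], [7, 9, 5, 6, 9, 9, 7, 7,
    6, 6, 6, 6, 6, 6, 6, 6, 7, 9], [7, 7, 9, 9, 6, 9, 6, 6, 6, 6, 7, 7, 9, 9, 6, 9, 9, 5, 6, 6, 6,
    6, 7, 9, 6, 5, 5, 5, 5]]

theorem fx (f : gen J2.g 5 →* G) (hf : Function.Injective f) : Fx f.range := by
  obtain ⟨h, M, hr⟩ := Md.ex J2.act J2.Blt J2.isBase hf (Ws := Ws) (by decide +kernel)
    (K' := 12) (by decide)
  have z3 : h 7 ^ 3 = 1 := by simpa [pow_succ] using M.eq [7, 7, 7] [] (by decide +kernel)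
  obtain ⟨a1, a2⟩ := six (y := h 5) (a := h 6)
    ⟨by simpa [pow_succ] using M.eq [5, 5, 5, 5, 5] [] (by decide +kernel),
      by simpa using M.ne [5] 0 (by decide +kernel)⟩
    (fun i hi => by
      simpa [A13.evA_rep] using M.ne (6 :: List.replicate i 5) 0 (by revert i; decide +kernel))
    (by simpa [pow_succ] using M.eq [6, 6, 6, 6, 6] [] (by decide +kernel)) z3
    (show _ = _ by simpa using M.eq [6, 5] [5, 6] (by decide +kernel))
    (show _ = _ by simpa using M.eq [7, 5] [5, 7] (by decide +kernel))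
    (by simpa [pow_succ] using M.eq [7, 7] [6, 7, 6] (by decide +kernel))
    (ne32 (u := h 10) (x := h 11) z3
      ⟨by simpa [pow_succ] using M.eq [10, 10, 10] [] (by decide +kernel),
        by simpa using M.ne [10] 0 (by decide +kernel)⟩
      (fun i hi => ⟨by
        simpa only [evA_replicate_flatten, evA_cons, A13.evA_rep, evA_nil] using M.eq (List.replicate 3
          (11 :: List.replicate i 10)).flatten [] (by revert i; decide +kernel), by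
        simpa [A13.evA_rep] using M.ne (11 :: List.replicate i 10) 0 (by revert i; decide +kernel)⟩)
      (show _ = _ by simpa using M.eq [10, 7] [7, 10] (by decide +kernel))
      (show _ = _ by simpa using M.eq [11, 7] [7, 11] (by decide +kernel))
      (by simpa using M.eq [10, 11] [11, 10, 7] (by decide +kernel)))
  have a3 : fr (Fz (h 5) ⊓ Fz (h 6) ⊓ Fz (h 7)) ≤ fr (Fz (h 5) ⊓ Fz (h 6) ⊓ Fz (h 9)) := by
    refine inj_le (ρ (h 8)) (ρ (h 8)⁻¹) (fun v hv => ?_) fun v _ => H23.Wag.ρ_cancel' ..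
    have b1 := congrArg (ρ · v) (M.eq [8, 5] [6, 5, 5, 8] (by decide +kernel))
    have b2 := congrArg (ρ · v) (M.eq [8, 6] [6, 6, 5, 5, 5, 8] (by decide +kernel))
    have b3 := congrArg (ρ · v) (M.eq [8, 9] [7, 8] (by decide +kernel))
    simp only [evA_cons, evA_nil, one_mul, map_mul, End.mul_apply, fix1.1 hv.1.1, fix1.1 hv.1.2,
      fix1.1 hv.2] at b1 b2 b3
    exact ⟨⟨fix1.2 b1, fix1.2 b2⟩, fix1.2 b3⟩
  have a4 := Submodule.finrank_sup_add_finrank_inf_eq (Fz (h 5) ⊓ Fz (h 6) ⊓ Fz (h 7))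
    (Fz (h 5) ⊓ Fz (h 6) ⊓ Fz (h 9))
  have a5 := Submodule.finrank_mono (sup_le (inf_le_left (a := Fz (h 5) ⊓ Fz (h 6)) (b := Fz (h 7)))
    (inf_le_left (b := Fz (h 9))))
  simp only [fr_eq] at a4 a5
  obtain ⟨v, hv, a6⟩ := (Submodule.ne_bot_iff (Fz (h 5) ⊓ Fz (h 6) ⊓ Fz (h 7) ⊓
    (Fz (h 5) ⊓ Fz (h 6) ⊓ Fz (h 9)))).1 fun e => by rw [e, ← fr_eq ⊥, finrank_bot] at a4; omega
  refine .inl ⟨v, a6, hr.trans_le (gen_le.2 fun k hk => ?_)⟩
  rw [show h k = evA h (nth [] Gs k) by simpa using M.eq [k] _ (by revert k; decide +kernel)]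
  refine evA_mem _ fun j hj => ?_
  obtain rfl | rfl | rfl | rfl : j = 5 ∨ j = 6 ∨ j = 7 ∨ j = 9 := by revert k j; decide +kernel
  exacts [fix1.1 hv.1.1.1, fix1.1 hv.1.1.2, fix1.1 hv.1.2, fix1.1 hv.2.2]

theorem no {H : Subgroup G} (hH : IsCoatom H) :
    ¬ Cfsg.Spor.IsoJ2 (Cfsg.generalizedFittingSubgroup H) := fun ⟨e⟩ => by
  have := J2.simple
  have h1 := J2.card
  have hZ := center_bot (S := gen J2.g 5) (by rw [h1]; decide)
  have h2 := card_eq_card_quotient_mul_card_subgroup (Cfsg.Inn (gen J2.g 5))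
  rw [OJ2.out, ← Nat.card_congr (MonoidHom.ofInjective ((injective_iff_map_eq_one _).2 fun g hg =>
    mem_bot.1 (hZ.le (mem_center_iff.2 fun x =>
      (mul_inv_eq_iff_eq_mul.1 (DFunLike.congr_fun hg x)).symm)))).toEquiv] at h2
  exact nm1 (e.trans H15.J2L.equiv) hH hZ (a := 1) (Dvd.intro 1 (by omega)) (by omega)
    (fx _ (soc_inj _))

end J2

end H18.E7
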