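import Cfsg.Agent.H18.E7g

/-! `G₂(8)` is not a subgroup of `E₇(2)`. -/

set_option autoImplicit false

namespace H18.E7

open Module H14 H14.PreSt H14.St Cfsg.Lie

theorem eig2 {l : ℕ} [NeZero l] {ζ : K} (hζ : IsPrimitiveRoot ζ l) {a b : G} {v : V} {u w : ZMod l}
    (h1 : ρ a v = ζ ^ u.val • v) (h2 : ρ b v = ζ ^ w.val • v) (m n : ℕ) :
    ρ (a ^ m * b ^ n) v = ζ ^ (m * u + n * w).val • v := by
  rw [map_mul, map_pow, map_pow, End.mul_apply, H23.Wag.pow_eig h2, map_smul, H23.Wag.pow_eig h1,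
    smul_smul, ← pow_mul, ← pow_mul, ← pow_add, pow_eq_pow_mod _ hζ.pow_eq_one, ← ZMod.val_natCast]
  simp [add_comm, mul_comm]

namespace G28

/-- the orbits on the weights -/
def orb (w : Fin 2 → ZMod 9) : Fin 7 := [0, 1, 1, 2, 1, 1, 2, 1, 1, 3, 4, 5, 5, 3, 4, 4, 5, 3, 3, 4,
  4, 4, 5, 5, 5, 3, 3, 6, 1, 1, 6, 1, 1, 6, 1, 1, 3, 5, 4, 5, 4, 3, 4, 3, 5, 3, 5, 3, 4, 3, 4, 5, 4,
  5, 6, 1, 1, 6, 1, 1, 6, 1, 1, 3, 3, 3, 5, 5, 5, 4, 4, 4, 3, 3, 5, 4, 4, 3, 5, 5, 4].getD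
    ((w 0).val * 9 + (w 1).val) 0
/-- representatives -/
def rep : Fin 7 → Fin 2 → ZMod 9 := ![![0, 0], ![0, 1], ![0, 3], ![1, 0], ![1, 1], ![1, 2], ![3, 0]]
/-- the element of order three -/
def sg (w : Fin 2 → ZMod 9) : Fin 2 → ZMod 9 :=
  ![(1 : ℕ) * w 0 + (3 : ℕ) * w 1, (8 : ℕ) * w 0 + (7 : ℕ) * w 1]
/-- test elements -/
def E : Fin 5 → ℕ × ℕ := ![(0, 1), (1, 0), (3, 0), (1, 4), (1, 7)]
/-- the counts -/
def N : Fin 5 → ZMod 9 → Fin 7 → ℕ := fun k j =>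
  if j = 0 then ![![1, 0, 0, 6, 0, 0, 2], ![1, 6, 2, 0, 0, 0, 0], ![1, 18, 2, 0, 0, 0, 6],
    ![1, 0, 0, 0, 0, 6, 2], ![1, 0, 0, 0, 6, 0, 2]] k
  else if j = 1 then ![![0, 3, 0, 2, 2, 2, 0], ![0, 0, 0, 3, 3, 3, 0], ![0, 0, 0, 0, 0, 0, 0],
    ![0, 3, 0, 2, 2, 2, 0], ![0, 3, 0, 2, 2, 2, 0]] k
  else ![![0, 0, 1, 0, 3, 3, 2], ![0, 6, 0, 0, 0, 0, 3], ![0, 0, 0, 9, 9, 9, 0],
    ![0, 0, 1, 3, 3, 0, 2], ![0, 0, 1, 3, 0, 3, 2]] k
/-- the condition -/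
def Ok (x : Fin 7 → ℕ) : Prop := ∀ k, ∑ t, N k 0 t * x t ≠ 56 ∧
  (∑ t, N k 0 t * x t, ∑ t, N k 1 t * x t, ∑ t, N k 3 t * x t) ∈ [(0, 6, 10), (0, 9, 1), (2, 0, 27),
    (4, 7, 5), (6, 6, 7), (8, 6, 6), (12, 4, 10), (12, 6, 4), (14, 0, 21), (20, 0, 18), (32, 0, 12),
    (56, 0, 0)]

instance decOk : DecidablePred Ok := fun x => by unfold Ok; infer_instance

set_option synthInstance.maxSize 1000 in
theorem fin9 : ∀ a < 4, ∀ b < 4 - a, ∀ c < 4 - a - b, ∀ d < 4 - a - b - c, ∀ e < 10, ∀ f < 29,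
    18 * (a + b + c + d) + 6 * e + 2 * f ≤ 56 →
      ¬ Ok ![56 - (18 * (a + b + c + d) + 6 * e + 2 * f), a, f, b, c, d, e] := by decide +kernel

theorem sum_orb (p : (Fin 2 → ZMod 9) → Prop) [DecidablePred p] (x : Fin 7 → ℕ) :
    ∑ w, (if p w then x (orb w) else 0) =
      ∑ t, (Finset.univ.filter fun w => p w ∧ orb w = t).card * x t := by
  rw [← Finset.sum_filter, ← Finset.sum_fiberwise' (s := Finset.univ.filter p) orb x]
  simp [Finset.filter_filter]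

theorem no {a b s : G} (ha : a ^ 9 = 1) (hb : b ^ 9 = 1) (hc : Commute a b)
    (h1 : a * s = s * (a ^ 1 * b ^ 3)) (h2 : b * s = s * (a ^ 8 * b ^ 7))
    (hn : ∀ k, a ^ (E k).1 * b ^ (E k).2 ≠ 1) : False := by
  obtain ⟨ζ, hζ⟩ := ex_prim (l := 9) (by decide)
  obtain ⟨c, hcw⟩ : ∃ c : (Fin 2 → ZMod 9) → ℕ, ∀ w, cw ⊤ ![a, b] ζ w = c w := ⟨_, fun _ => rfl⟩
  have a1 : ∀ w, c w ≤ c (sg w) := fun w => by
    rw [← hcw, ← hcw, cw, cw, top_inf_eq, top_inf_eq]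
    refine J_conj s fun v hv => mem_J.2 (Fin.forall_fin_two.2 ?_)
    have k := eig2 hζ (a := a) (b := b) (mem_J.1 hv 0) (mem_J.1 hv 1)
    simp only [Matrix.cons_val, sg, ← End.mul_apply, ← map_mul, h1, h2]
    simp only [map_mul _ s, End.mul_apply, k, map_smul, and_self]
  have a2 : ∀ w, c (sg w) = c w := fun w => le_antisymm ((a1 _).trans ((a1 _).trans_eq
    (congrArg c (by revert w; decide +kernel)))) (a1 w)
  have a3 : ∀ w, c (fun i => 2 * w i) = c w := fun w => by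
    rw [← hcw, ← hcw, cw, cw, top_inf_eq, top_inf_eq, J_Φ _ fun i => ζ ^ (w i).val,
      funext fun i => two_val hζ (w i)]
  have a4 : ∀ w, c w = c (rep (orb w)) := fun w => by
    obtain ⟨i, -, j, -, e⟩ : ∃ i < 3, ∃ j < 6, w = sg^[i] ((fun w i => 2 * w i)^[j] (rep (orb w))) := by
      revert w; decide +kernel
    conv_lhs => rw [e]
    exact (congrFun (Function.iterate_invariant (funext a2) i) _).trans
      (congrFun (Function.iterate_invariant (funext a3) j) _)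
  obtain ⟨x, hx⟩ : ∃ x : Fin 7 → ℕ, ∀ t, c (rep t) = x t := ⟨_, fun _ => rfl⟩
  have b1 : ∀ i : Fin 2, ∀ v ∈ (⊤ : Submodule K V), ρ (![a, b] i) v ∈ (⊤ : Submodule K V) :=
    fun _ _ _ => trivial
  have b2 : ∀ i j : Fin 2, ∀ v ∈ (⊤ : Submodule K V), ρ (![a, b] i) (ρ (![a, b] j) v) =
      ρ (![a, b] j) (ρ (![a, b] i) v) := Fin.forall_fin_two.2 ⟨Fin.forall_fin_two.2
    ⟨fun _ _ => rfl, fun v _ => comm_app hc v⟩,
      Fin.forall_fin_two.2 ⟨fun v _ => comm_app hc.symm v, fun _ _ => rfl⟩⟩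
  have b3 : ∀ i : Fin 2, ![a, b] i ^ 9 = 1 := Fin.forall_fin_two.2 ⟨ha, hb⟩
  have c1 := (wt0 hζ b1 b2 b3).trans ((Finset.sum_congr rfl fun w _ => by
    rw [hcw, a4, hx, if_pos trivial]).trans (sum_orb (fun _ => True) x))
  rw [finrank_top, finrank_fintype_fun_eq_card, Fintype.card_fin, Finset.sum_congr rfl
    (g := fun t => ![1, 18, 2, 18, 18, 18, 6] t * x t) fun t _ => by
      congr 1; revert t; decide +kernel] at c1
  simp only [Fin.sum_univ_seven, Matrix.cons_val] at c1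
  have c2 : ∀ k, ∀ j ∈ [0, 1, 3], dm (a ^ (E k).1 * b ^ (E k).2) (ζ ^ ZMod.val j) =
      ∑ t, N k j t * x t := fun k j hj => by
    have := wt1 hζ b1 b2 b3 _ (fun w => (E k).1 * w 0 + (E k).2 * w 1)
      (fun w v _ hv => eig2 hζ (hv 0) (hv 1) _ _) j
    rw [top_inf_eq, Finset.sum_congr rfl fun w _ => by rw [hcw, a4, hx], sum_orb] at this
    refine this.trans (Finset.sum_congr rfl fun t _ => ?_)
    congr 1; clear this; revert k j t; decide +kernel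
  refine fin9 (x 1) (by omega) (x 3) (by omega) (x 4) (by omega) (x 5) (by omega) (x 6) (by omega)
    (x 2) (by omega) (by omega) ?_
  rw [show 56 - (18 * (x 1 + x 3 + x 4 + x 5) + 6 * x 6 + 2 * x 2) = x 0 by omega,
    show ![x 0, x 1, x 2, x 3, x 4, x 5, x 6] = x from funext fun t => by fin_cases t <;> rfl]
  intro k
  rw [← c2 k 0 (by simp), ← c2 k 1 (by simp), ← c2 k 3 (by simp)]
  refine ⟨by simpa using dm_lt (hn k), tab (by decide) tb9 hζ ?_⟩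
  rw [(hc.pow_pow _ _).mul_pow, ← pow_mul, ← pow_mul, mul_comm _ 9, mul_comm _ 9, pow_mul, pow_mul,
    ha, hb]
  simp

end G28

theorem noG28 {F : Type*} [Field F] [Fintype F] (hF : Fintype.card F = 8)
    (f : chevG2.group F →* G) (hf : Function.Injective f) : False := by
  have : CharP F 2 := charP_of_card_eq_prime_pow (f := 3) hF
  obtain ⟨Φ, h1, h2, h3, h4⟩ := goodG2.exists_fr' F kerG2
  let i0 : Fin chevG2.rank := ⟨0, by decide⟩
  let i1 : Fin chevG2.rank := ⟨1, by decide⟩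
  have hL := nprod_mem_NW (S := (goodG2.SG (AlgebraicClosure F)).toPreSt) [i0, i1, i0, i1, i0, i1]
  have hs := nprod_mem_NW (S := (goodG2.SG (AlgebraicClosure F)).toPreSt) [i0, i1, i0, i1]
  obtain ⟨x, hx⟩ := Φ.exists_conj hL
  obtain ⟨z, hz⟩ := exists_orderOf (AlgebraicClosure F) (n := 9) fun e =>
    absurd ((CharP.cast_eq_zero_iff _ 2 _).1 e) (by decide)
  have a1 : ∀ μ : Fin chevG2.rank → ℤ, ∃ g, goodG2.mapG (algebraMap F _) g =
      x * Φ.hmul.tor (fun i => z ^ μ i) * x⁻¹ := fun μ => h1.ge ((hx _).1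
    (((Φ.tw hL).σ_tor _).trans (congrArg Φ.hmul.tor (show mpow _ (Φ.tw hL).mat
      (fun i => z ^ μ i) = fun i => z ^ μ i by
      rw [Φ.mat_tw hL h3, h2, show goodG2.R.cm (goodG2.R.wprod [i0, i1, i0, i1, i0, i1] * 1) = -1 from
        (RootSys.cm_wprod _ _).trans (by decide +kernel), mpow_zpow, hF]
      funext j
      rw [zpow_eq_zpow_iff_modEq, hz]
      exact Int.modEq_iff_dvd.2 ⟨μ j, by simp [Matrix.vecMul_neg]; ring⟩))))
  choose T hT using a1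
  obtain ⟨s, hs'⟩ := h1.ge ((hx ((goodG2.SG _).nprod [i0, i1, i0, i1])).1 (by
    have : ∀ r, Φ.σ ((goodG2.SG _).n r 1) = (goodG2.SG _).n r 1 := fun r => by
      simp [Φ.σ_n r 1 one_ne_zero, h2, h4]
    simp only [Fr.mem_fix, Fr.tw_σ, nprod, List.map_cons, List.map_nil, List.prod_cons, List.prod_nil,
      map_mul, map_one, this]
    group))
  have inj := goodG2.mapG_inj (algebraMap F (AlgebraicClosure F))
  let e : ℕ → ℕ → Fin chevG2.rank → ℤ := fun m n i => if i = i0 then m else n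
  have a2 : ∀ m n, T (e 1 0) ^ m * T (e 0 1) ^ n = T (e m n) := fun m n => inj (by
    rw [map_mul, map_pow, map_pow, hT, hT, hT, conj_pow, conj_pow, conj_mul, ← map_pow, ← map_pow,
      ← map_mul]
    congr 3; funext i
    by_cases h : i = i0 <;> simp [e, h])
  have a3 : ∀ μ ν, T μ = T ν ↔ ∀ i, μ i ≡ ν i [ZMOD 9] := fun μ ν => by
    rw [← inj.eq_iff, hT, hT, mul_left_inj, mul_right_inj, (goodG2.tor_inj kerG2).eq_iff, funext_iff]
    simp only [zpow_eq_zpow_iff_modEq, hz, Nat.cast_ofNat]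
  have a4 : ∀ μ, T μ * s⁻¹ = s⁻¹ * T (Matrix.vecMul μ (lmat _ [[1, 3], [-1, -2]])) := fun μ => inj (by
    rw [map_mul, map_mul, map_inv, hs', hT, hT, ← mpow_zpow, show lmat _ [[1, 3], [-1, -2]] =
      goodG2.R.cm (goodG2.R.wprod [i0, i1, i0, i1] * 1) from
        ((RootSys.cm_wprod _ _).trans (by decide +kernel)).symm, mul_one, ← Φ.hmul.conj_tor hs]
    group)
  have a5 : T (e 0 0) = 1 := by simpa using (a2 0 0).symm
  refine G28.no (a := f (T (e 1 0))) (b := f (T (e 0 1))) (s := f s⁻¹) ?_ ?_ ?_ ?_ ?_ fun k => ?_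
  · rw [← map_pow, ← mul_one (_ ^ 9), ← pow_zero (T (e 0 1)), a2, (a3 _ _).2 _, a5, map_one]
    decide +kernel
  · rw [← map_pow, ← one_mul (_ ^ 9), ← pow_zero (T (e 1 0)), a2, (a3 _ _).2 _, a5, map_one]
    decide +kernel
  · refine Commute.map (inj ?_) f
    simp only [map_mul, hT, conj_mul]
    rw [← map_mul, ← map_mul, mul_comm (fun i => z ^ e 1 0 i)]
  · rw [← map_pow, ← map_pow, ← map_mul, ← map_mul, ← map_mul, a2, a4, (a3 _ _).2 _]
    decide +kernel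
  · rw [← map_pow, ← map_pow, ← map_mul, ← map_mul, ← map_mul, a2, a4, (a3 _ _).2 _]
    decide +kernel
  · rw [← map_pow, ← map_pow, ← map_mul, a2, Ne, map_eq_one_iff f hf, ← a5, a3]
    revert k; decide +kernel

end H18.E7
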