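import Cfsg.Agent.H7.ME0

/-! Abstract lemmas for elements of orders 43 and 127 in `E₇(2)`. -/

set_option autoImplicit false

namespace H18.ME

open H18.E7 (G M xr)
open Subgroup Matrix H7.ME Polynomial

theorem sylconj {Γ : Type*} [Group Γ] [Finite Γ] {p : ℕ} (hp : p.Prime) (h : ¬ p ^ 2 ∣ Nat.card Γ) {a b : Γ}
    (ha : orderOf a = p) (hb : orderOf b = p) : ∃ (g : Γ) (k : ℕ), b = g * a ^ k * g⁻¹ := by
  haveI := Fact.mk hp
  have key : ∀ x : Γ, orderOf x = p → ∃ P : Sylow p Γ, (P : Subgroup Γ) = zpowers x := by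
    intro x hx
    have h1 : Nat.card (zpowers x) = p ^ 1 := by rw [Nat.card_zpowers, hx, pow_one]
    refine ⟨(IsPGroup.of_card h1).toSylow fun hd => h ?_, rfl⟩
    rw [← (zpowers x).card_mul_index, h1, pow_one, sq]
    exact Nat.mul_dvd_mul_left _ hd
  obtain ⟨P, hP⟩ := key a ha
  obtain ⟨R, hR⟩ := key b hb
  obtain ⟨g, hg⟩ := MulAction.exists_smul_eq Γ P R
  have hbR : b ∈ (R : Subgroup Γ) := hR ▸ mem_zpowers b
  rw [← hg, Sylow.coe_subgroup_smul, mem_pointwise_smul_iff_inv_smul_mem, hP, ← mem_powers_iff_mem_zpowers] at hbR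
  obtain ⟨k, hk⟩ := hbR
  refine ⟨g, k, ?_⟩
  simp only [MulAut.smul_def, MulAut.conj_inv_apply] at hk
  rw [hk]; group

theorem cyc {n : ℕ} {C Y : Matrix (Fin (n + 1)) (Fin (n + 1)) (ZMod 2)}
    (hC : ∀ i : Fin n, C *ᵥ Pi.single i.castSucc 1 = Pi.single i.succ 1) (h : Commute Y C) (q : C ^ 128 = C) :
    Y ^ 128 = Y := by
  have e : ∀ i : Fin (n + 1), C ^ i.val *ᵥ Pi.single 0 1 = Pi.single i 1 := by
    intro i
    induction i using Fin.induction with
    | zero => rw [Fin.val_zero, pow_zero, one_mulVec]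
    | succ i ih => rw [Fin.val_succ, pow_succ', ← mulVec_mulVec, ← hC, ← ih]; rfl
  obtain ⟨p, rfl⟩ : ∃ p : (ZMod 2)[X], Y = aeval C p := by
    refine ⟨∑ i : Fin (n + 1), monomial i.val (Y i 0), ?_⟩
    have h0 : Y *ᵥ Pi.single 0 1 = aeval C (∑ i : Fin (n + 1), monomial i.val (Y i 0)) *ᵥ Pi.single 0 1 := by
      simp only [map_sum, aeval_monomial, sum_mulVec, ← Algebra.smul_def, smul_mulVec, e]
      ext j
      simp [Pi.single_apply, Finset.sum_apply]
    generalize (∑ i : Fin (n + 1), monomial i.val (Y i 0) : (ZMod 2)[X]) = p at h0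
    have hc : Commute (aeval C p) C := by
      have := (Commute.all p X).map (aeval C)
      rwa [aeval_X] at this
    ext i j
    have h1 : Y *ᵥ Pi.single j 1 = aeval C p *ᵥ Pi.single j 1 := by
      rw [← e, mulVec_mulVec, mulVec_mulVec, (h.pow_right _).eq, (hc.pow_right _).eq, ← mulVec_mulVec,
        ← mulVec_mulVec, h0]
    simpa using congrFun h1 i
  have h2 : p ^ 128 = expand (ZMod 2) 128 p := by
    have := FiniteField.expand_card (K := ZMod 2)
    rw [ZMod.card] at this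
    have h3 : ∀ k : ℕ, expand (ZMod 2) (2 ^ k) p = p ^ 2 ^ k := by
      intro k
      induction k with
      | zero => simp
      | succ k ih => rw [pow_succ', expand_mul, this, ih, ← pow_mul, mul_comm]
    exact (h3 7).symm
  rw [← map_pow, h2, expand_aeval, q]

theorem M_inj : Function.Injective M := by
  rw [injective_iff_map_eq_one]
  intro g hg
  apply H18.E7.ρ_one
  refine LinearMap.ext fun v => ?_
  rw [H18.E7.ρ_app, hg]
  simp

theorem ord {a : G} {p : ℕ} (hp : p.Prime) (h : M a ^ p = 1) (h1 : M a ≠ 1) : orderOf a = p := by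
  haveI := Fact.mk hp
  refine orderOf_eq_prime (M_inj ?_) fun e => h1 (by rw [e, map_one])
  rw [map_pow, h, map_one]

theorem a43_of {a0 : G} (h : orderOf a0 = 43) {R : Matrix (Fin 56) (Fin 56) (ZMod 2)} (hR : R * (M a0 + 1) = 1)
    (a : G) (ha : orderOf a = 43) (v : V) (hv : M a *ᵥ v = v) : v = 0 := by
  obtain ⟨g, k, e⟩ := sylconj (by norm_num) (by rw [H18.E7.cardG]; norm_num) ha h
  have h1 : ∀ k : ℕ, M (a ^ k) *ᵥ v = v := by
    intro k
    induction k with
    | zero => simp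
    | succ k ih => rw [pow_succ, map_mul, ← mulVec_mulVec, hv, ih]
  have h2 : M a0 *ᵥ (M g *ᵥ v) = M g *ᵥ v := by
    rw [mulVec_mulVec, ← map_mul, e, inv_mul_cancel_right, map_mul, ← mulVec_mulVec, h1]
  have h3 : M g *ᵥ v = 0 := by
    rw [← one_mulVec (M g *ᵥ v), ← hR, ← mulVec_mulVec, add_mulVec, h2, one_mulVec, CharTwo.add_self_eq_zero,
      mulVec_zero]
  rw [← one_mulVec v, ← map_one M, ← inv_mul_cancel g, map_mul, ← mulVec_mulVec, h3, mulVec_zero]

theorem b127_of {b0 : G} (h : orderOf b0 = 127) {T U C : Matrix (Fin 56) (Fin 56) (ZMod 2)} (hT : T * U = 1)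
    (hB : M b0 * T = T * C) (hC : ∀ i : Fin 55, C *ᵥ Pi.single i.castSucc 1 = Pi.single i.succ 1)
    (b : G) (hb : orderOf b = 127) (y : G) (hy : Commute y b) : y ^ 127 = 1 := by
  obtain ⟨g, k, e⟩ := sylconj (by norm_num) (by rw [H18.E7.cardG]; norm_num) hb h
  have hU : U * T = 1 := (mul_eq_one_comm (a := T) (b := U)).1 hT
  let φ : G →* Matrix (Fin 56) (Fin 56) (ZMod 2) :=
    { toFun := fun x => U * M x * T
      map_one' := by rw [map_one, Matrix.mul_one, hU]
      map_mul' := fun x y => by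
        rw [map_mul]
        calc U * (M x * M y) * T = U * (M x * (T * U) * M y) * T := by rw [hT, Matrix.mul_one]
          _ = _ := by simp only [Matrix.mul_assoc] }
  have hφ : φ b0 = C := by
    show U * M b0 * T = C
    rw [Matrix.mul_assoc, hB, ← Matrix.mul_assoc, hU, Matrix.one_mul]
  have hc : Commute (g * y * g⁻¹) b0 := by
    rw [e]
    exact ((hy.pow_right k).map (MulAut.conj g))
  have h1 := cyc (n := 55) (Y := φ (g * y * g⁻¹)) hC (hφ ▸ hc.map φ) (by
    rw [← hφ, ← map_pow, pow_succ, ← h, pow_orderOf_eq_one, one_mul])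
  have h2 : (g * y * g⁻¹) ^ 128 = g * y * g⁻¹ := by
    apply M_inj
    rw [← map_pow] at h1
    have h3 := congrArg (fun Z => T * Z * U) h1
    change T * (U * M _ * T) * U = T * (U * M _ * T) * U at h3
    simpa only [Matrix.mul_assoc, hT, Matrix.mul_one, ← Matrix.mul_assoc T U, Matrix.one_mul] using h3
  rw [conj_pow, mul_left_inj, mul_right_inj, pow_succ] at h2
  exact mul_eq_right.1 h2

/-- the centralizer of a matrix -/
def cz (Θ : Matrix (Fin 56) (Fin 56) (ZMod 2)) : Subgroup G where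
  carrier := {g | M g * Θ = Θ * M g}
  one_mem' := by simp
  mul_mem' := fun {a b} (ha : Commute (M a) Θ) (hb : Commute (M b) Θ) => by
    show Commute (M _) Θ
    rw [map_mul]; exact ha.mul_left hb
  inv_mem' := fun {a} (ha : M a * Θ = Θ * M a) => by
    show M _ * Θ = Θ * M _
    calc M a⁻¹ * Θ = M a⁻¹ * (Θ * M a) * M a⁻¹ := by
          rw [Matrix.mul_assoc, Matrix.mul_assoc, ← map_mul, mul_inv_cancel, map_one, Matrix.mul_one]
      _ = _ := by rw [← ha, ← Matrix.mul_assoc, ← map_mul, inv_mul_cancel, map_one, Matrix.one_mul]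

theorem dl_of {a b c : G} (ha : orderOf a = 43) (hb : orderOf b = 127) {Θ : Matrix (Fin 56) (Fin 56) (ZMod 2)}
    (h1 : M a * Θ = Θ * M a) (h2 : M b * Θ = Θ * M b) (h3 : M c * Θ ≠ Θ * M c) : DL :=
  ⟨cz Θ, fun e => h3 (show c ∈ cz Θ from e ▸ mem_top c), a, h1, b, h2, ha, hb⟩

end H18.ME
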