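import Cfsg.Agent.H7.ME1

/-! Soundness of the irreducibility test and good configurations. -/

set_option autoImplicit false
set_option maxRecDepth 100000

namespace H18.ME

open H18.E7 (G M xr)
open Matrix Subgroup H7.ME

theorem ex_bv (d : ℕ) (w : Fin d → F) : ∃ e < 2 ^ d, bv d e = w :=
  ⟨Nat.ofBits fun i => decide (w i = 1), Nat.ofBits_lt_two_pow _, funext fun i => by
    simp only [bv, bt, Nat.testBit_ofBits_lt _ _ i.2, Fin.eta, decide_eq_true_eq]
    generalize w i = x; revert x; decide⟩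

theorem add2 {n : ℕ} {x y : Fin n → F} (h : x + y = 0) : x = y := by
  rw [eq_neg_of_add_eq_zero_left h]; funext i; exact ZMod.neg_eq_self_mod_two _

theorem add3 {n : ℕ} (x : Fin n → F) : x + x = 0 := funext fun _ => CharTwo.add_self_eq_zero _

theorem add4 {n : ℕ} {a b w : Fin n → F} (h : a + b + w = 0) : a = w + b := by
  rw [← add2 h, add_assoc, add3, add_zero]

theorem ir : IR := fun k Wm L θ A d Cm Fm Rs R U h hW hθ hA => by
  simp only [irc, frc_eq, Bool.and_eq_true, Nat.ble_eq, List.all_eq_true, List.mem_range, Bool.or_eq_true, Nat.beq_eq] at h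
  obtain ⟨⟨⟨⟨hd, hk⟩, h1⟩, h2⟩, h3⟩ := h
  have key : ∀ X Y, eqm 32 32 (mul 32 (Nat.xor Id (mul k Wm L)) (Nat.xor X Y)) 0 = true → ∀ x, ∃ c,
      toM 32 32 X *ᵥ x = toM 32 k Wm *ᵥ c + toM 32 32 Y *ᵥ x := fun X Y e x => by
    have := congrArg (· *ᵥ x) (eqm_eq e)
    simp only [toM_zero, zero_mulVec] at this
    rw [toM_mul, toM_xor, toM_xor, toM_Id, toM_mul, ← mulVec_mulVec, add_mulVec, one_mulVec, ← mulVec_mulVec] at this
    rw [add_mulVec] at this
    exact ⟨_, add4 this⟩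
  by_cases hF : ∀ u ∈ U, toM d 32 Fm *ᵥ u = 0
  · refine .inr fun u hu => ?_
    have kl : ∀ len, ∀ u ∈ U, toM 32 32 (kryT 32 A (mul d 1 Fm) len) *ᵥ u = 0 := fun len => by
      simp only [kryT, frc_eq]
      induction len with
      | zero => intro u _; exact (congrArg (· *ᵥ u) (toM_zero 32 32)).trans (zero_mulVec u)
      | succ len ih =>
        intro u hu
        refine (congrArg (· *ᵥ u) (toM_xor _ _ _ _)).trans ?_
        rw [add_mulVec, toM_mul, toM_mul, toM_mul, ← mulVec_mulVec, ← mulVec_mulVec, ← mulVec_mulVec, ih _ (hA u hu), hF u hu]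
        simp
    obtain ⟨c, e⟩ := key _ _ h3 u
    exact ⟨c, by rwa [toM_Id, one_mulVec, toM_mul, ← mulVec_mulVec, kl _ u hu, mulVec_zero, add_zero] at e⟩
  push Not at hF
  obtain ⟨u, hu, h0⟩ := hF
  obtain ⟨e, he, e1⟩ := ex_bv d (toM d 32 Fm *ᵥ u)
  obtain ⟨c, e2⟩ := key _ _ h1 u
  have m : toM 32 d Cm *ᵥ bv d e ∈ U := by
    rw [toM_mul, ← mulVec_mulVec, ← e1] at e2
    exact (U.add_mem_iff_right (hW c)).1 (e2 ▸ hθ u hu)
  have m' : ∀ x, toM 32 32 (mul d Cm e) *ᵥ x ∈ U := fun x => by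
    have : toM d 32 e *ᵥ x = x 0 • bv d e := by
      funext i
      rw [mulVec, dotProduct, Finset.sum_eq_single 0 (fun j _ hj => ?_) (by simp)]
      · simp [toM, bv, mul_comm]
      · have : e < 2 ^ (64 * j + i : ℕ) := he.trans_le (Nat.pow_le_pow_right (by decide) (by
          have : (j : ℕ) ≠ 0 := fun k => hj (Fin.ext k)
          omega))
        simp [toM, bt, Nat.testBit_lt_two_pow this]
    rw [toM_mul, ← mulVec_mulVec, this, mulVec_smul]
    exact U.smul_mem _ m
  have rg : ∀ len x, toM 32 32 (kry 32 A (mul d Cm e) len) *ᵥ x ∈ U := fun len => by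
    simp only [kry, frc_eq]
    induction len with
    | zero => intro x; exact ((congrArg (· *ᵥ x) (toM_zero 32 32)).trans (zero_mulVec x)).symm ▸ U.zero_mem
    | succ len ih =>
      intro x
      refine (congrArg (· *ᵥ x) (toM_xor _ _ _ _)).symm ▸ ?_
      rw [add_mulVec, toM_mul, toM_mul, ← mulVec_mulVec, ← mulVec_mulVec]
      exact U.add_mem (hA _ (ih _)) (m' x)
  refine .inl (eq_top_iff.2 fun x _ => ?_)
  obtain ⟨c, e3⟩ := key _ _ ((h2 e he).resolve_left fun k => h0 (by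
    rw [← e1, k]; funext i; exact bt_zero _)) x
  rw [toM_Id, one_mulVec, toM_mul, ← mulVec_mulVec] at e3
  exact e3 ▸ U.add_mem (hW c) (rg _ _)

theorem trc_eq {n m X Y : ℕ} (h : trc n m X Y = true) : toM m n Y = (toM n m X)ᵀ := by
  simp only [trc, List.all_eq_true, List.mem_range, Nat.beq_eq] at h
  ext j i
  have := h i i.2 j j.2
  change X >>> (64 * (j : ℕ) + i) &&& 1 = Y >>> (64 * (i : ℕ) + j) &&& 1 at this
  simp only [toM, of_apply, transpose_apply, bt, Nat.testBit, Nat.and_comm 1, this]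

theorem lv_iw {C : List (List ℕ)} (h : C.all Lv = true) (w : List ℕ) : Lv (iw C w) = true := by
  simp only [Lv, iw, List.all_flatten, List.all_map, List.all_eq_true] at h ⊢
  intro i _
  by_cases k : i < C.length
  · simpa [k] using h _ (List.getElem_mem k)
  · simp [not_lt.1 k]

section
variable (f : Fs) (l : Lam)
include l
theorem lam1 : lam 1 = 0 := by
  have := l.mul 1 (one_mem _) 1 (one_mem _)
  rwa [mul_one, left_eq_add] at this
theorem lam_inv {q : G} (h : q ∈ Q) : lam q⁻¹ = lam q :=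
  add2 (by rw [← l.mul _ (inv_mem h) _ h, inv_mul_cancel, lam1 l])
theorem lam_sur (v : Fin 32 → F) : ∃ q ∈ Q, lam q = v :=
  let ⟨w, _, e⟩ := ex_bv 32 v; ⟨_, l.uQ w, (l.u w).trans e⟩
theorem lam_N {W : List ℕ} (h : W.length ≤ 64) (c : Fin W.length → F) : ∃ q ∈ Nn W, lam q = toM 32 W.length (pk W) *ᵥ c :=
  let ⟨q, hq, e⟩ := lam_sur l _; ⟨q, (l.mem W h q).2 ⟨hq, c, e⟩, e⟩
end

theorem zN (W : List ℕ) : z ∈ Nn W := (show X 125 ∈ _ from wd_one 125 ▸ wd_mem (L := gN W) (by simp [gN]))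

theorem ndc_eq {W : List ℕ} {T Gi : ℕ} (h : ndc W T Gi = true) : W.length ≤ 31 ∧
    toM W.length 32 (Li W.length T Gi) = toM W.length W.length Gi * ((toM 32 W.length (pk W))ᵀ * toM 32 32 Jm) ∧
    toM W.length 32 (Li W.length T Gi) * toM 32 W.length (pk W) = 1 := by
  simp only [ndc, Bool.and_eq_true, Nat.ble_eq] at h
  obtain ⟨⟨h1, h2⟩, h3⟩ := h
  have k : W.length ≤ 64 := by omega
  exact ⟨h1, by rw [Li, toM_mul _ _ _ k, toM_mul _ _ _ k, trc_eq h2], by
    rw [← toM_mul _ _ _ k k, eqm_eq h3 k k, toM_Id k]⟩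

theorem gd (f : Fs) (l : Lam) : GD := fun C E W T Gi w1 w2 p d Cm Fm Rs R hC hn hi => by
  obtain ⟨n1, n2, n3⟩ := ndc_eq hn
  have k : W.length ≤ 64 := by omega
  have NQ : Nn W ≤ Q := fun q hq => ((l.mem W k q).1 hq).1
  have k0 : ∀ q ∈ Nn W, toM W.length 32 (Li W.length T Gi) *ᵥ lam q = 0 → q = 1 ∨ q = z := fun q hq e => by
    obtain ⟨hQ, c, e1⟩ := (l.mem W k q).1 hq
    rw [e1, mulVec_mulVec, n3, one_mulVec] at e
    exact l.ker q hQ (by rw [e1, e, mulVec_zero])
  refine ⟨fun H hH h1 => ?_, fun h => ?_, ?_⟩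
  · have sub : ∀ L : List (List ℕ), (∀ x ∈ L, x ∈ gA C E W) → cw L ≤ H := fun L h =>
      (closure_le _).2 fun _ ⟨x, hx, e⟩ => hH (subset_closure ⟨x, h x hx, e⟩)
    have NH : Nn W ≤ H := sub _ fun x hx => by simp [gA, hx]
    have x0H : x0 ∈ H := (show X 0 ∈ _ from wd_one 0 ▸ hH (wd_mem (by simp [gA])))
    refine ⟨zN W, x0H, le_antisymm ?_ (le_inf NH NQ), fun n hn n1 nz => ?_⟩
    · let U : Submodule F (Fin 32 → F) :=
        { carrier := {v | ∃ q ∈ H ⊓ Q, lam q = v}
          add_mem' := by rintro _ _ ⟨a, ha, rfl⟩ ⟨b, hb, rfl⟩; exact ⟨_, mul_mem ha hb, l.mul _ ha.2 _ hb.2⟩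
          zero_mem' := ⟨1, one_mem _, lam1 l⟩
          smul_mem' := fun c v hv => by
            rcases (by decide : ∀ c : F, c = 0 ∨ c = 1) c with rfl | rfl
            exacts [⟨1, one_mem _, by rw [lam1 l, zero_smul]⟩, by rwa [one_smul]] }
      have ha : ∀ ws, ∀ u ∈ U, toM 32 32 (alg w32 C ws) *ᵥ u ∈ U := fun ws => by
        induction ws with
        | nil => intro u _; exact ((congrArg (· *ᵥ u) (toM_zero 32 32)).trans (zero_mulVec u)).symm ▸ U.zero_mem
        | cons w ws ih =>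
          intro u hu
          refine (congrArg (· *ᵥ u) (toM_xor _ _ _ _)).symm ▸ ?_
          rw [add_mulVec]
          refine U.add_mem ?_ (ih u hu)
          obtain ⟨q, hq, rfl⟩ := hu
          obtain ⟨a1, a2⟩ := l.act _ (lv_iw hC w)
          have a3 := sub C (fun x hx => by simp [gA, hx]) (iw_mem C w)
          exact ⟨_, mem_inf.2 ⟨mul_mem (mul_mem a3 hq.1) (inv_mem a3), f.nQ _ a1 q hq.2⟩, a2 q hq.2⟩
      have hh : ∀ u ∈ U, toM 32 32 (hor 32 (alg w32 C w1) p) *ᵥ u ∈ U := by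
        simp only [hor, frc_eq]
        clear hi
        induction p with
        | nil => intro u _; exact ((congrArg (· *ᵥ u) (toM_zero 32 32)).trans (zero_mulVec u)).symm ▸ U.zero_mem
        | cons c p ih =>
          intro u hu
          refine (congrArg (· *ᵥ u) (toM_xor _ _ _ _)).symm ▸ ?_
          rw [add_mulVec, toM_mul, ← mulVec_mulVec]
          refine U.add_mem (ha _ _ (ih u hu)) ?_
          cases c
          · rw [cond_false, toM_zero, zero_mulVec]; exact U.zero_mem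
          · rwa [cond_true, toM_Id, one_mulVec]
      rcases ir _ _ _ _ _ _ _ _ _ _ U hi (fun c => let ⟨q, hq, e⟩ := lam_N l k c; ⟨q, ⟨NH hq, NQ hq⟩, e⟩) hh (ha _) with e | e
      · refine (h1 (f.gen H (fun q hq => ?_) x0H)).elim
        obtain ⟨q', h', e'⟩ : lam q ∈ U := e ▸ Submodule.mem_top
        rw [mem_inf] at h'
        refine (mul_mem_cancel_right (inv_mem h'.1)).1 ?_
        rcases l.ker _ (mul_mem hq (inv_mem h'.2)) (by
          rw [l.mul _ hq _ (inv_mem h'.2), lam_inv l h'.2, e', add3]) with k | k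
        exacts [k ▸ one_mem _, k ▸ NH (zN W)]
      · exact fun q hq => (l.mem W k q).2 ⟨hq.2, e _ ⟨q, hq, rfl⟩⟩
    · by_contra! h
      refine (k0 n hn ?_).elim n1 nz
      rw [n2, ← mulVec_mulVec, ← mulVec_mulVec, show _ *ᵥ (toM 32 32 Jm *ᵥ lam n) = 0 from funext fun j => ?_, mulVec_zero]
      obtain ⟨m, hm, e⟩ := lam_N l k (Pi.single j 1)
      have c : Commute n m := (mul_inv_eq_iff_eq_mul.1 ((f.cQ m (NQ hm) n (NQ hn)).resolve_right (h m hm))).symm
      have := l.form n (NQ hn) m (NQ hm)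
      rw [cm, if_pos c, e, mulVec_single_one] at this
      exact this.symm
  · have := LinearMap.finrank_le_finrank_of_surjective (f := (toM 32 W.length (pk W)).mulVecLin) fun v => by
      obtain ⟨q, hq, rfl⟩ := lam_sur l v
      obtain ⟨-, c, e⟩ := (l.mem W k q).1 (h hq)
      exact ⟨c, e.symm⟩
    simp at this; omega
  · let φ : Nn W →* Multiplicative (Fin W.length → F) := MonoidHom.mk'
      (fun q => .ofAdd (toM W.length 32 (Li W.length T Gi) *ᵥ lam q)) fun a b => by
        rw [← ofAdd_add, ← mulVec_add, ← l.mul _ (NQ a.2) _ (NQ b.2)]; rfl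
    have s : φ.range = ⊤ := MonoidHom.range_eq_top.2 fun c => by
      obtain ⟨q, hq, e⟩ := lam_N l k c.toAdd
      exact ⟨⟨q, hq⟩, congrArg Multiplicative.ofAdd (by
        change _ *ᵥ lam q = _
        rw [e, mulVec_mulVec, n3, one_mulVec]; rfl)⟩
    have zz : z * z = 1 := f.inv 125
    have o : orderOf z = 2 := orderOf_eq_prime ((pow_two _).trans zz) (f.ne1 125 (by decide))
    have lz : lam z = 0 := funext fun i => if_pos (f.Qz _ ((f.inQ _ (by omega)).2 (by revert i; decide +kernel))).symm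
    have kr : φ.ker = (zpowers z).subgroupOf (Nn W) := by
      refine le_antisymm (fun q hq => ?_) ?_
      · rcases k0 q q.2 (congrArg Multiplicative.toAdd hq) with e | e
        exacts [mem_subgroupOf.2 (e ▸ one_mem _), mem_subgroupOf.2 (e ▸ mem_zpowers _)]
      · rintro q ⟨i, e⟩
        have : (⟨z, zN W⟩ : Nn W) ∈ φ.ker := congrArg Multiplicative.ofAdd (by
          change _ *ᵥ lam z = 0
          rw [lz, mulVec_zero])
        exact (show ⟨z, zN W⟩ ^ i = q from Subtype.ext e) ▸ zpow_mem this i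
    rw [← φ.ker.card_mul_index, index_ker, s, kr, Nat.card_congr (subgroupOfEquivOfLe (zpowers_le.2 (zN W))).toEquiv,
      Nat.card_zpowers, o, card_top]
    simp [pow_succ']

end H18.ME
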