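/-
Standard subgroups of type `Sp₄(2ⁿ)`: fusion of the involution `t`.
-/
import Cfsg.Agent.H27.W4

set_option autoImplicit false
set_option linter.unusedSectionVars false

namespace H18.S4
open Cfsg Subgroup H27.S4
open H28.CY hiding aa h2
open H19 hiding PG el0
open H1.YG (Big h2 aa ng add0 sqadd ex_n four_le ex_sqrt sq_inj)

universe u
variable {F : Type} [Field F] [Big F] {G : Type u} [Group G] [Finite G] {ι e : Γ F →* G} {g k n t x y : G} {A B P : Subgroup G}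
  {a b c d v w : F}

theorem tri (l : A ≤ B) (c : #B ≤ 2 * #A) (hx : x ∈ B) (hy : y ∈ B) : x ∈ A ∨ y ∈ A ∨ x * y ∈ A := by
  have h := card_mul_relIndex l
  have p := relIndex_pos A B
  have : A.relIndex B ≤ 2 := Nat.le_of_mul_le_mul_left (h.le.trans (c.trans (mul_comm ..).le)) Nat.card_pos
  rcases (by omega : A.relIndex B = 1 ∨ A.relIndex B = 2) with r | r
  · exact .inl (relIndex_eq_one.1 r hx)
  · have := mul_mem_iff_of_index_two (H := A.subgroupOf B) r (a := ⟨x, hx⟩) (b := ⟨y, hy⟩)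
    simp only [mem_subgroupOf, coe_mul] at this
    tauto

variable (F) in
/-- the centre of `U` -/
def Zs : Subgroup (Γ F) where
  carrier := {x | ∃ v w, x = el 0 0 v w}
  one_mem' := ⟨0, 0, el0.symm⟩
  mul_mem' := by rintro _ _ ⟨_, _, rfl⟩ ⟨_, _, rfl⟩; exact ⟨_, _, elZ_mul ..⟩
  inv_mem' := by rintro _ ⟨_, _, rfl⟩; exact ⟨_, _, el_inv ..⟩
theorem zZ (v w : F) : el 0 0 v w ∈ Zs F := ⟨v, w, rfl⟩
theorem Z2 (v w : F) : el 0 0 v w * el 0 0 v w = 1 := by simp [el_sq, el0]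
theorem sqZ (v w : F) : ∃ a b a' b' : F, el 0 0 v w = el 0 0 (a * b) (a ^ 2 * b) * el 0 0 (a' * b') (a' ^ 2 * b') := by
  obtain ⟨c, c0, c1, -⟩ := w1 (F := F)
  refine ⟨1, v + (v + w) / (c + 1), c, (v + w) / (c * (c + 1)), ?_⟩
  rw [elZ_mul, el_iff]
  refine ⟨rfl, rfl, ?_, ?_⟩ <;> field_simp
  · linear_combination (-(v + w)) * (h2 : (2 : F) = 0)
  · linear_combination (-(v * c + v)) * (h2 : (2 : F) = 0)
theorem Z_der (v w : F) : el 0 0 v w ∈ ⁅U F, U F⁆ := by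
  have : ∀ a b : F, el 0 0 (a * b) (a ^ 2 * b) ∈ ⁅U F, U F⁆ := fun a b =>
    cm_mem (el_U a 0 0 0) (el_U 0 b 0 0) (by rw [el_cj, el_inv, el_mul]; simp [aa])
  obtain ⟨a, b, a', b', e⟩ := sqZ v w
  exact e ▸ mul_mem (this _ _) (this _ _)

theorem nrm (hP : H19.PG 2 P) (hn : P ≤ N(e.range)) : ∃ a, ∀ x ∈ P, e a * x * (e a)⁻¹ ∈ N((U F).map e) := by
  obtain ⟨S, hS, l⟩ := PiN.exists_syl hP (le_sup_right (a := e.range))
  have nL := left_normal_sup hn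
  obtain ⟨_, ⟨a, rfl⟩, r⟩ := (hS.inf_normal nL).sconj (syl_L e)
  refine ⟨a, fun x hx => ?_⟩
  rw [← r, ← cj_norm, conj_mem_cj]
  exact norms_inf le_normalizer (hS.le.trans nL.2) (l hx)

theorem nmU (i : Function.Injective ι) {k : Γ F} (h : ι k ∈ N((U F).map ι)) : k ∈ N(U F) := mem_norm_of fun x hx => by
  obtain ⟨y, hy, r⟩ := conj_mem_of_norm h (mem_map_of_mem ι hx)
  rw [ι_cj] at r
  exact i r ▸ hy
theorem CU (h : k ∈ C(ι.range)) : k ∈ N((U F).map ι) := cent_le_norm _ (cent_mono (map_le_range ..) h)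

/-- the group `⟨t⟩ U` -/
noncomputable def J (ι : Γ F →* G) (t : G) : Subgroup G := (U F).map ι ⊔ zpowers t

section
variable (H : Hyp ι t)
include H

theorem mem_st {D : Subgroup (Γ F)} : x ∈ D.map ι ⊔ zpowers t ↔ ∃ u ∈ D, x = ι u ∨ x = ι u * t := by
  rw [mem_sup_of_norm (zpowers_le.2 (cent_le_norm _ (cent_mono (map_le_range ..) H.tK)))]
  constructor
  · rintro ⟨_, ⟨u, hu, rfl⟩, b, hb, rfl⟩
    rcases (mem_zp H.tt).1 hb with rfl | rfl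
    exacts [⟨u, hu, .inl (mul_one _)⟩, ⟨u, hu, .inr rfl⟩]
  · rintro ⟨u, hu, rfl | rfl⟩
    exacts [⟨_, mem_map_of_mem ι hu, 1, one_mem _, (mul_one _).symm⟩, ⟨_, mem_map_of_mem ι hu, t, mem_zpowers t, rfl⟩]
theorem sqt (u : Γ F) : ι u * t * (ι u * t) = ι u * ι u := by
  rw [mul_assoc, ← mul_assoc t, H.cen, mul_assoc, H.tt, mul_one]
theorem pgJ : H19.PG 2 (J ι t) := (syl_L ι).pi.sup (piG_zpowers.2 (two_of_sq H.tt)) (zpowers_le.2 (CU H.tK))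

theorem pi1 (hn : x ∈ N((U F).map ι)) (p : In ι x) (x4 : x * x * (x * x) = 1) : ∃ k ∈ U F, ∃ c ∈ C(ι.range), x = ι k * c := by
  obtain ⟨k, p⟩ := p
  obtain ⟨c, hc, rfl⟩ := inn p
  refine ⟨k, syl_U.mem_of_norm (mem_top _) (two_of_sq_two (two_of_sq (LK H.inj ?_)))
    (nmU H.inj ((mul_mem_cancel_right (CU hc)).1 hn)), c, hc, rfl⟩
  have m : Commute (ι k) c := mem_cent.1 hc _ ⟨k, rfl⟩
  rw [← pow_two, ← pow_two, ← pow_mul, m.mul_pow] at x4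
  rw [← pow_two, ← pow_two, ← pow_mul, map_pow, eq_inv_of_mul_eq_one_left x4]
  exact inv_mem (pow_mem hc _)
theorem pi2 (hx : x ∈ C[t]) (hn : x ∈ N((U F).map ι)) (p : In ι x) (xx : x * x = 1) :
    ∃ k ∈ U F, k * k = 1 ∧ (x = ι k ∨ x = ι k * t) := by
  obtain ⟨k, kk, r⟩ := H.inv hx p xx
  refine ⟨k, syl_U.mem_of_norm (mem_top _) (two_of_sq kk) (nmU H.inj ?_), kk, r⟩
  rcases r with rfl | rfl
  exacts [hn, (mul_mem_cancel_right (CU H.tK)).1 hn]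

/-- a copy of `U` which centralizes `t` and normalizes `U` has its centre in `⟨t⟩ Z` -/
theorem zin (i : Function.Injective e) (hc : ∀ u ∈ U F, e u ∈ C[t]) (hn : ∀ u ∈ U F, e u ∈ N((U F).map ι)) :
    (Zs F).map e ≤ (Zs F).map ι ⊔ zpowers t := by
  rintro _ ⟨_, ⟨v, w, rfl⟩, rfl⟩
  have nL : (U F).map e ≤ N(ι.range) := by rintro _ ⟨u, hu, rfl⟩; exact H.nor (hc u hu)
  have iz : ∀ v w, In ι (e (el 0 0 v w)) := fun v w =>
    In.der H.inj nL (map_commutator (U F) (U F) e ▸ mem_map_of_mem e (Z_der v w))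
  obtain ⟨y, hy, yy, r⟩ := pi2 H (hc _ (el_U _ _ _ _)) (hn _ (el_U _ _ _ _)) (iz v w) (by rw [← map_mul, Z2, map_one])
  obtain ⟨a, b, v', w', rfl⟩ := mem_U.1 hy
  by_cases ab : a = 0 ∧ b = 0
  · exact (mem_st H).2 ⟨_, by rw [ab.1, ab.2]; exact zZ .., r⟩
  exfalso
  have ab0 : a * b = 0 := (el_one.1 ((el_sq ..).symm.trans yy)).2.2.1
  have key : ∀ c d, c * d ≠ 0 → In ι (e (el c d 0 0)) → e (el 0 0 (c * d) (c ^ 2 * d)) = t := fun c d cd p => by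
    have x4 : e (el c d 0 0) * e (el c d 0 0) * (e (el c d 0 0) * e (el c d 0 0)) = 1 := by
      rw [← map_mul, el_sq, ← map_mul, Z2, map_one]
    obtain ⟨k, hk, o, ho, q⟩ := pi1 H (hn _ (el_U _ _ _ _)) p x4
    obtain ⟨a', b', v'', w'', rfl⟩ := mem_U.1 hk
    have m1 : Commute (e (el c d 0 0)) (e (el 0 0 v w)) := by
      rw [Commute, SemiconjBy, ← map_mul, ← map_mul, U_Z (el_U _ _ _ _)]
    have m2 : Commute (e (el c d 0 0)) t := mem_cent1.1 (hc _ (el_U _ _ _ _))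
    have m3 : Commute (e (el c d 0 0)) (ι (el a b v' w')) := by
      rcases r with r | r
      · exact r ▸ m1
      · exact eq_mul_inv_of_mul_eq r.symm ▸ m1.mul_right m2.inv_right
    have m4 : ∀ y, Commute (ι y) o := fun y => mem_cent.1 ho _ ⟨_, rfl⟩
    have m5 : Commute (ι (el a' b' v'' w'')) (ι (el a b v' w')) :=
      eq_mul_inv_of_mul_eq q.symm ▸ m3.mul_left (m4 _).symm.inv_left
    have m6 := H.inj ((ι_cj ..).symm.trans (mul_inv_eq_iff_eq_mul.2 m5.eq))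
    rw [el_cj] at m6
    have m7 : a' * b + a * b' = 0 := by simpa [add_assoc] using (el_inj m6).2.2.1
    have m8 : a' * b' = 0 := by
      rcases mul_eq_zero.1 ab0 with h | h
      · rw [h, zero_mul, add_zero] at m7
        rw [(mul_eq_zero.1 m7).resolve_right fun k => ab ⟨h, k⟩, zero_mul]
      · rw [h, mul_zero, zero_add] at m7
        rw [(mul_eq_zero.1 m7).resolve_left fun k => ab ⟨k, h⟩, mul_zero]
    have s : e (el 0 0 (c * d) (c ^ 2 * d)) = o * o := by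
      rw [← el_sq c d 0 0, map_mul, q, ← pow_two, (m4 _).mul_pow, pow_two, ← map_mul, el_sq, pow_two a', mul_assoc a', m8, mul_zero,
        el0, map_one, one_mul, pow_two]
    refine (H.rk _ (s ▸ mul_mem ho ho) (by rw [← map_mul, Z2, map_one]) (mem_cent1.1 (hc _ (el_U _ _ _ _)))).resolve_left fun k => ?_
    exact cd (el_one.1 (i (k.trans (map_one e).symm))).2.2.1
  have two : ∀ x ∈ U F, ∀ y ∈ U F, In ι (e x) ∨ In ι (e y) ∨ In ι (e (x * y)) := fun x hx y hy => by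
    have sq : ∀ x ∈ U F, In ι (e x * e x) := fun x hx => by
      obtain ⟨_, _, _, _, rfl⟩ := mem_U.1 hx
      rw [← map_mul, el_sq]; exact iz ..
    rw [map_mul]
    exact In.two H.inj (H.nor (hc x hx)) (H.nor (hc y hy)) (sq x hx) (sq y hy)
  have pr : ∀ {c d}, In ι (e (el c 0 0 0)) → In ι (e (el 0 d 0 0)) → In ι (e (el c d 0 0)) := fun p q => by
    have := p.mul q
    rw [← map_mul, el_mul] at this
    simpa using this
  obtain ⟨θ, θ0, θ1, -⟩ := w1 (F := F)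
  obtain ⟨c, c0, pc⟩ : ∃ c ≠ 0, In ι (e (el c 0 0 0)) := by
    rcases two _ (el_U θ 0 0 0) _ (el_U 1 0 0 0) with h | h | h
    exacts [⟨_, θ0, h⟩, ⟨_, one_ne_zero, h⟩, ⟨_, θ1, by simpa [el_mul] using h⟩]
  obtain ⟨d, d0, pd⟩ : ∃ d ≠ 0, In ι (e (el 0 d 0 0)) := by
    rcases two _ (el_U 0 θ 0 0) _ (el_U 0 1 0 0) with h | h | h
    exacts [⟨_, θ0, h⟩, ⟨_, one_ne_zero, h⟩, ⟨_, θ1, by simpa [el_mul] using h⟩]
  have k0 := key c d (mul_ne_zero c0 d0) (pr pc pd)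
  have θn : θ ≠ 1 := fun k => θ1 (add0.2 k)
  rcases two _ (el_U (θ * c) 0 0 0) _ (el_U 0 (θ * d) 0 0) with h | h | h
  · have := (el_inj (i ((key _ _ (by simp [*]) (pr h pd)).trans k0.symm))).2.2.1
    exact θn (by simpa [c0, d0] using this)
  · have := (el_inj (i ((key _ _ (by simp [*]) (pr pc h)).trans k0.symm))).2.2.1
    exact θn (by simpa [c0, d0] using this)
  · obtain ⟨-, -, p, q⟩ := el_inj (i ((key (θ * c) (θ * d) (by simp [*]) (by simpa [el_mul] using h)).trans k0.symm))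
    rw [pow_two, mul_assoc, p, pow_two, mul_assoc c] at q
    exact θn (by simpa [c0, d0] using q)

theorem inJ (i : Function.Injective e) (hc : ∀ u ∈ U F, e u ∈ C[t]) (hn : ∀ u ∈ U F, e u ∈ N((U F).map ι)) (xx : x * x = 1)
    (xt : x ∈ C[t]) (xn : x ∈ N((U F).map ι)) (xz : ∀ v w, x * e (el 0 0 v w) = e (el 0 0 v w) * x) : x ∈ J ι t := by
  obtain ⟨α, p⟩ := H.ex xt
  have f : ∀ y, ι y ∈ (Zs F).map e → α y = y := by
    rintro y ⟨_, ⟨v, w, rfl⟩, r⟩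
    exact p.fix H.inj (r ▸ xz v w)
  obtain ⟨k, q⟩ := fx (α := α) (fun y hy => by
    obtain ⟨y', hy', r⟩ := conj_mem_of_norm xn (mem_map_of_mem ι hy)
    rw [p] at r
    exact H.inj r ▸ hy') fun v w v' w' => by
      have := tri (zin H i hc hn) (by
        refine (Nat.le_of_dvd (Nat.mul_pos Nat.card_pos Nat.card_pos) (card_sup_dvd
          (zpowers_le.2 (cent_le_norm _ (cent_mono (map_le_range ..) H.tK))))).trans (le_of_eq ?_)
        rw [card_map_of_injective H.inj, card_map_of_injective i, Nat.card_zpowers,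
          orderOf_eq_prime (pow_two t ▸ H.tt) H.t1, mul_comm])
        (mem_sup_left (mem_map_of_mem ι (zZ v w))) (mem_sup_left (mem_map_of_mem ι (zZ v' w')))
      rw [← map_mul, elZ_mul] at this
      exact this.imp (f _) (.imp (f _) (f _))
  obtain ⟨y, hy, -, r⟩ := pi2 H xt xn ⟨k, fun y => q y ▸ p y⟩ xx
  exact (mem_st H).2 ⟨y, hy, r⟩

/-- conjugates of `t` centralizing `J` are conjugate to `t` under `N(J)` -/
theorem b1 (gt : g * t * g⁻¹ * t = t * (g * t * g⁻¹)) (gu : ∀ u ∈ U F, g * t * g⁻¹ * ι u = ι u * (g * t * g⁻¹)) :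
    ∃ n ∈ N(J ι t), n * t * n⁻¹ = g * t * g⁻¹ := by
  have l : cj g⁻¹ (J ι t) ≤ C[t] := by
    rw [cj_le_iff, inv_inv, cj_cent1]
    exact sup_le (by rintro _ ⟨u, hu, rfl⟩; exact mem_cent1.2 (gu u hu).symm) (zpowers_le.2 (mem_cent1.2 gt.symm))
  obtain ⟨a, ha⟩ := nrm ((pgJ H).J g⁻¹) (l.trans H.nor)
  have f : ∀ x ∈ J ι t, ι a * g⁻¹ * x * (ι a * g⁻¹)⁻¹ ∈ C[t] ∧ ι a * g⁻¹ * x * (ι a * g⁻¹)⁻¹ ∈ N((U F).map ι) := fun x hx => by
    rw [cj2]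
    exact ⟨mul_mem (mul_mem (H.LC a) (l (conj_mem_cj.2 hx))) (inv_mem (H.LC a)), ha _ (conj_mem_cj.2 hx)⟩
  refine ⟨(ι a * g⁻¹)⁻¹, inv_mem (mem_norm_of_cj_le (cj_le_iff.2 ?_)), by
    rw [mul_inv_rev, inv_inv, cj2, ← map_inv, H.tcj]⟩
  generalize ι a * g⁻¹ = n at f
  have uJ : ∀ u ∈ U F, ι u ∈ J ι t := fun u hu => mem_sup_left (mem_map_of_mem ι hu)
  have tJ : t ∈ J ι t := mem_sup_right (mem_zpowers t)
  have k : ∀ x ∈ J ι t, x * x = 1 → (∀ v w, x * ι (el 0 0 v w) = ι (el 0 0 v w) * x) → x ∈ cj n⁻¹ (J ι t) := fun x hx xx xz =>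
    mem_cj_inv.2 (inJ H (H.conj n).inj (fun u hu => (f _ (uJ u hu)).1) (fun u hu => (f _ (uJ u hu)).2) (by rw [conj_mul, xx]; simp)
      (f x hx).1 (f x hx).2 fun v w => by rw [cjh_ap, conj_mul, conj_mul, xz])
  exact sup_le (map_le_iff_le_comap.2 (U_le fun r hr c => k _ (uJ _ (X_mem_U c hr)) (ix2 r c) fun v w => by
    rw [← map_mul, U_Z (X_mem_U c hr), map_mul])) (zpowers_le.2 (k t tJ H.tt fun v w => H.cen _))

theorem nsq (hn : n ∈ N(J ι t)) (a b : F) :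
    ∃ a' b' : F, n * ι (el 0 0 (a * b) (a ^ 2 * b)) * n⁻¹ = ι (el 0 0 (a' * b') (a' ^ 2 * b')) := by
  obtain ⟨u, hu, r⟩ := (mem_st H).1 (conj_mem_of_norm hn (mem_sup_left (mem_map_of_mem ι (el_U a b 0 0))))
  obtain ⟨a', b', v, w, rfl⟩ := mem_U.1 hu
  refine ⟨a', b', ?_⟩
  rw [← el_sq a b 0 0, ← el_sq a' b' v w, map_mul, map_mul, ← conj_mul]
  rcases r with r | r <;> rw [r]
  exact sqt H _
theorem nZ (hn : n ∈ N(J ι t)) (v w : F) : ∃ v' w' : F, n * ι (el 0 0 v w) * n⁻¹ = ι (el 0 0 v' w') := by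
  obtain ⟨a, b, a', b', e⟩ := sqZ v w
  obtain ⟨_, _, p⟩ := nsq H hn a b
  obtain ⟨_, _, q⟩ := nsq H hn a' b'
  rw [e, map_mul, ← conj_mul, p, q, ← map_mul, elZ_mul]
  exact ⟨_, _, rfl⟩
theorem nsq' (hn : n ∈ N(J ι t)) (hv : v ≠ 0) (hw : w ≠ 0) (p : n * ι (el 0 0 v w) * n⁻¹ = ι (el 0 0 c d)) : c ≠ 0 ∧ d ≠ 0 := by
  obtain ⟨a, b, q⟩ := nsq H hn (w / v) (v ^ 2 / w)
  rw [show w / v * (v ^ 2 / w) = v by field_simp, show (w / v) ^ 2 * (v ^ 2 / w) = w by field_simp] at q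
  obtain ⟨-, -, rfl, rfl⟩ := el_inj (H.inj (p.symm.trans q))
  have : a * b ≠ 0 := fun k => hv (by
    rw [pow_two, mul_assoc a a, k, mul_zero, el0, map_one, conj_eq_one_iff] at q
    exact (el_one.1 (H.inj (q.trans (map_one ι).symm))).2.2.1)
  exact ⟨this, by simpa [not_or] using this⟩
theorem b1' (p : g * t * g⁻¹ = t * ι (el 0 0 v w)) : ∃ n ∈ N(J ι t), n * t * n⁻¹ = t * ι (el 0 0 v w) :=
  p ▸ b1 H (by rw [p, mul_assoc, ← H.cen]) fun u hu => by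
    rw [p, mul_assoc, ← map_mul, ← U_Z hu, map_mul, ← mul_assoc, H.cen, mul_assoc]

theorem b2i (h1 : g * t * g⁻¹ ≠ t) (hg : g * t * g⁻¹ ∈ C[t]) (A : In ι (g * t * g⁻¹)) :
    ∃ g v w, el 0 0 v w ≠ 1 ∧ g * t * g⁻¹ = t * ι (el 0 0 v w) := by
  obtain ⟨x, xx, r⟩ := H.inv hg A (H.conj g).tt
  obtain ⟨k, v, w, q⟩ := inv_Z xx
  rcases r with r | r
  · have p : ι k * g * t * (ι k * g)⁻¹ = ι (el 0 0 v w) := by rw [cj2, r, ι_cj, q]
    obtain ⟨n, hn, s⟩ := b1 H (g := ι k * g) (by rw [p, H.cen]) fun u hu => by rw [p, ← map_mul, ← U_Z hu, map_mul]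
    obtain ⟨_, _, s'⟩ := nZ H (inv_mem hn) v w
    exact absurd (by rw [← s', ← p, ← s]; group) (H.tL _)
  · refine ⟨ι k * g, v, w, fun e => h1 ?_, by rw [cj2, r, ← conj_mul, H.tcj, ι_cj, q, H.cen]⟩
    rw [r, conj_eq_one_iff.1 (q.trans e), map_one, one_mul]

theorem b2 (h1 : g * t * g⁻¹ ≠ t) (h2 : g * t * g⁻¹ * t = t * (g * t * g⁻¹)) :
    ∃ g v w, el 0 0 v w ≠ 1 ∧ g * t * g⁻¹ = t * ι (el 0 0 v w) := by
  have hg : g * t * g⁻¹ ∈ C[t] := mem_cent1.2 h2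
  obtain ⟨a, hn⟩ := nrm (piG_zpowers.2 (two_of_sq (H.conj g).tt)) (zpowers_le.2 (H.nor hg))
  replace hn := hn _ (mem_zpowers _)
  have h1 : ι a * (g * t * g⁻¹) * (ι a)⁻¹ ≠ t := fun e => h1 (mul_left_cancel (mul_right_cancel (e.trans (H.tcj a).symm)))
  have hg := mul_mem (mul_mem (H.LC a) hg) (inv_mem (H.LC a))
  rw [← cj2] at hn h1 hg
  generalize ι a * g = g at hn h1 hg
  by_cases A : In ι (g * t * g⁻¹)
  · exact b2i H h1 hg A
  have H' := H.conj g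
  obtain ⟨α, p⟩ := H.ex hg
  have αU : ∀ y ∈ U F, α y ∈ U F := fun y hy => by
    obtain ⟨y', hy', r⟩ := conj_mem_of_norm hn (mem_map_of_mem ι hy)
    rw [p] at r
    exact H.inj r ▸ hy'
  obtain ⟨v, w, v', w', n⟩ : ∃ v w v' w', ¬ (α (el 0 0 v w) = el 0 0 v w ∨ α (el 0 0 v' w') = el 0 0 v' w' ∨
      α (el 0 0 (v + v') (w + w')) = el 0 0 (v + v') (w + w')) := by
    by_contra! k
    obtain ⟨k, q⟩ := fx αU k
    exact A ⟨k, fun y => q y ▸ p y⟩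
  have cv : (∃ k v w, el 0 0 v w ≠ 1 ∧ k * (g * t * g⁻¹) * k⁻¹ = g * t * g⁻¹ * cjh g ι (el 0 0 v w)) →
      ∃ g v w, el 0 0 v w ≠ 1 ∧ g * t * g⁻¹ = t * ι (el 0 0 v w) := fun ⟨k, v, w, n, q⟩ =>
    ⟨g⁻¹ * k * g, v, w, n, by
      rw [cjh_ap, conj_mul] at q
      rw [← mul_right_inj g, ← mul_left_inj g⁻¹, ← q]; group⟩
  generalize g * t * g⁻¹ = s at p H' cv
  have αα : ∀ y, α (α y) = y := fun y => H.inj (by rw [← p, ← p, ← cj2, H'.tt]; simp)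
  have cs : ∀ v w, ι (α (el 0 0 v w) * el 0 0 v w) ∈ C[s] := fun v w => mem_cent1.2 (mul_inv_eq_iff_eq_mul.1 (by
    rw [p, map_mul α, αα, U_Z (αU _ (el_U _ _ _ _))])).symm
  have sq : ∀ v w, In (cjh g ι) (ι (α (el 0 0 v w) * el 0 0 v w) * ι (α (el 0 0 v w) * el 0 0 v w)) := fun v w => by
    rw [← map_mul, mul_assoc, ← mul_assoc (el 0 0 v w), ← U_Z (αU _ (el_U _ _ _ _)), mul_assoc, Z2, mul_one, ← map_mul, Z2, map_one, map_one]
    exact In.cent (one_mem _)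
  have f : ∀ v w, In (cjh g ι) (ι (α (el 0 0 v w) * el 0 0 v w)) → α (el 0 0 v w) = el 0 0 v w ∨
      ∃ g v w, el 0 0 v w ≠ 1 ∧ g * t * g⁻¹ = t * ι (el 0 0 v w) := fun v w q => or_iff_not_imp_left.2 fun n => cv (by
    have e : ι (el 0 0 v w) * s * (ι (el 0 0 v w))⁻¹ = s * ι (α (el 0 0 v w) * el 0 0 v w) := by
      rw [map_mul, ← p, ← mul_assoc, ← mul_assoc, ← mul_assoc, H'.tt, one_mul, H'.tinv, ← map_inv,
        inv_eq_of_mul_eq_one_right (Z2 v w)]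
    refine b2i H' (fun k => n ?_) (e ▸ mul_mem (mem_cent1_self s) (cs v w)) (e ▸ (In.cent H'.tK).mul q)
    rw [e, mul_eq_left, ← map_one ι, H.inj.eq_iff, ← Z2 v w, mul_left_inj] at k
    exact k)
  by_contra k
  refine n ((In.two H'.inj (H'.nor (cs v w)) (H'.nor (cs v' w')) (sq ..) (sq ..)).imp (fun q => (f _ _ q).resolve_right k)
    (.imp (fun q => (f _ _ q).resolve_right k) fun q => (f _ _ ?_).resolve_right k))
  rwa [← elZ_mul, map_mul α, mul_assoc, ← mul_assoc (α (el 0 0 v' w')), U_Z (αU _ (el_U _ _ _ _)), mul_assoc, ← mul_assoc, map_mul]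

theorem b3 (z1 : el 0 0 v w ≠ 1) (p : g * t * g⁻¹ = t * ι (el 0 0 v w)) :
    ∃ g, ∃ c ≠ 0, g * t * g⁻¹ = t * ι (X 6 c) ∨ g * t * g⁻¹ = t * ι (X 7 c) := by
  by_cases w0 : w = 0
  · exact ⟨g, v, fun k => z1 (by rw [k, w0, el0]), .inl (by rw [p, w0, el6])⟩
  by_cases v0 : v = 0
  · exact ⟨g, w, w0, .inr (by rw [p, v0, el7])⟩
  have T : ∀ c ≠ 0, ∀ d ≠ 0, ∃ g, g * t * g⁻¹ = t * ι (el 0 0 c d) := fun c c0 d d0 => by
    obtain ⟨l, m, e1, e2⟩ := ex_hh (div_ne_zero c0 v0) (div_ne_zero d0 w0)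
    refine ⟨_, (H.cct p (hh l m)).trans ?_⟩
    rw [hh_el, e1, e2, mul_zero, mul_zero, div_mul_cancel₀ _ v0, div_mul_cancel₀ _ w0]
  obtain ⟨θ, θ0, θ1, -⟩ := w1 (F := F)
  obtain ⟨_, q⟩ := T 1 one_ne_zero 1 one_ne_zero
  obtain ⟨n, hn, q⟩ := b1' H q
  obtain ⟨c, d, r⟩ := nZ H (inv_mem hn) 1 θ
  obtain ⟨c0, d0⟩ := nsq' H (inv_mem hn) one_ne_zero θ0 r
  obtain ⟨k, s⟩ := T c c0 d d0
  refine ⟨n * k, θ + 1, θ1, .inr ?_⟩
  rw [cj2, s, ← conj_mul, q, ← r, ← cj2, mul_inv_cancel, one_mul, inv_one, mul_one, mul_assoc, ← map_mul, elZ_mul, aa, add_comm, el7]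

theorem b4 (c0 : c ≠ 0) (p : g * t * g⁻¹ = t * ι (X 6 c)) : D1 ι t := by
  obtain ⟨n, hn, p⟩ := b1' H (el6 c ▸ p)
  obtain ⟨v, w, q⟩ := nZ H (inv_mem hn) c 0
  have q' : n * ι (el 0 0 v w) * n⁻¹ = ι (el 0 0 c 0) := by rw [← q]; group
  rw [← el6] at p q
  have l := (H.conj n).YL (e := ι) fun x hx => mem_cent1.2 (by
    rw [p, ← mul_assoc, ← H.cen, mul_assoc, mul_assoc, ← map_mul, ← map_mul, Y1_6 hx])
  have m : cj n⁻¹ ((Y1 F).map ι) ≤ C[el 0 0 v w].map ι := cj_le_iff.2 (by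
    rintro _ ⟨x, hx, rfl⟩
    obtain ⟨y, r⟩ := l (mem_map_of_mem ι hx)
    rw [inv_inv, ← r, cjh_ap, conj_mem_cj]
    refine mem_map_of_mem ι (mem_cent1.2 ((H.conj n).inj ?_))
    rw [map_mul, map_mul, r, cjh_ap, q', ← el6, ← map_mul, Y1_6 hx, map_mul])
  have z1 : el 0 0 v w ≠ 1 := fun k => c0 (by
    rw [k, map_one, conj_eq_one_iff] at q
    exact X_eq1 (H.inj (q.trans (map_one ι).symm)))
  by_cases w0 : w = 0
  · rw [w0, ← el6, cent6 fun k => z1 (by rw [k, w0, el0])] at m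
    exact ⟨n, inv_inv n ▸ inv_mem (mem_norm_of_cj_le m), c, c0, p⟩
  obtain rfl : v = 0 := by_contra fun v0 => (nsq' H hn v0 w0 q').2 rfl
  rw [← el7, cent7 w0] at m
  have m' := eq_of_le_of_card_eq m (by rw [card_cj, card_map_of_injective H.inj, card_map_of_injective H.inj, cardY])
  obtain ⟨l, -, hl⟩ := exl (F := F)
  obtain ⟨v', w', r⟩ := nZ H hn 0 (l ^ 2 * w)
  obtain rfl : w' = 0 := by
    obtain ⟨y, hy, s⟩ := m (conj_mem_cj.2 (mem_map_of_mem ι (X2Y 1)))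
    have a : ι (X 2 1) * ι (el 0 0 v' w') = ι (el 0 0 v' w') * ι (X 2 1) := by
      rw [← r, ← el7, ← mul_left_inj n, ← mul_right_inj n⁻¹, show ι (X 2 1) = n * ι y * n⁻¹ by rw [s]; group, conj_mul, conj_mul,
        ← map_mul, ← map_mul, Y2_7 hy]
    rw [← map_mul, ← map_mul, H.inj.eq_iff, elZ, ← mul_assoc, comm (r := 2) (s := 6), mul_assoc, mul_assoc, mul_right_inj] at a
    have := congrArg (fun x => na F * x * (na F)⁻¹) a
    simp only [← conj_mul, na_conj] at this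
    rw [show X (sa 2) (1 : F) = _ from el5 1, show X (sa 7) w' = _ from el4 w', el_mul, el_mul] at this
    simpa using (el_inj this).2.2.1.symm
  refine ⟨n * ι (hh l 1) * n⁻¹, ?_, c + v', fun k => ?_, ?_⟩
  · rw [← cj_cj_inv n ((Y1 F).map ι), m', ← cj_norm, conj_mem_cj]
    exact map_norm (hY2 l 1)
  · rw [← add0.1 k, ← q', mul_left_inj, mul_right_inj] at r
    exact w0 (fix0 (el_inj (H.inj r)).2.2.2 hl)
  · have e : t = n * (t * ι (el 0 0 0 w)) * n⁻¹ := by rw [← conj_mul, p, q', ← el6, mul_assoc, ix2, mul_one]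
    calc _ = n * (ι (hh l 1) * (n⁻¹ * t * n) * (ι (hh l 1))⁻¹) * n⁻¹ := by group
      _ = n * (ι (hh l 1) * (t * ι (el 0 0 0 w)) * (ι (hh l 1))⁻¹) * n⁻¹ := by
        nth_rw 1 [e]; group
      _ = _ := by
        rw [← conj_mul (b := ι _), H.tcj, ι_cj, hh_el, ← conj_mul, p, mul_zero, mul_zero, mul_zero, r, ← el6, mul_assoc, ixa]
end

theorem fb : FB.{u} := fun {F} _ _ {G} _ _ ι t H g h1 h2 => by
  obtain ⟨g, v, w, z1, p⟩ := b2 H h1 h2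
  have H' := H.tw (γ F)
  have f : ∀ {ι : Γ F →* G}, Hyp ι t → ∀ g d, d ≠ 0 → g * t * g⁻¹ = t * ι (X 7 d) → D1 (tw ι (γ F)) t := fun H g d d0 p => by
    obtain ⟨d, rfl⟩ := ex_sqrt d
    exact b4 (H.tw _) (c := d) (fun k => d0 (by simp [k])) (by rw [p, tw_ap, γ6])
  have n : ∀ {ι : Γ F →* G}, Hyp ι t → N2 ι t ∨ D1 (tw ι (γ F)) t := fun H => or_iff_not_imp_right.2 fun k g d p =>
    by_contra fun d0 => k (f H g d d0 p)
  obtain ⟨g, c, c0, p | p⟩ := b3 H z1 p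
  exacts [⟨ι, .inl rfl, b4 H c0 p, n H⟩, ⟨_, .inr rfl, f H g c c0 p, n H'⟩]

end H18.S4
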