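/-
Standard subgroups of type `Sp₄(2ⁿ)`: recognition of `L₄(q)` and `L₅(q)`.
-/
import Cfsg.Agent.H27.W6
import Cfsg.Agent.H11.SLPres

set_option autoImplicit false
set_option linter.unusedSectionVars false

namespace H18.S4
open Cfsg Subgroup H27.S4 Matrix
open H28.CY hiding aa h2
open H19 hiding PG el0
open H1.YG (Big h2 aa ng add0 sqadd ex_n four_le ex_sqrt sq_inj)

universe u
variable {F : Type} [Field F] [Big F] {G : Type u} [Group G] [Finite G] {ι : Γ F →* G} {t : G} {r : F}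
  {ξ w : I → E (r ^ 2 + r) → G} {a b c d e : Fin 5} {M : Subgroup G}

/-- multiples of the first idempotent -/
def e1 (r c : F) : E (r ^ 2 + r) := ⟨c * r, c⟩
/-- multiples of the second idempotent -/
def e2 (r c : F) : E (r ^ 2 + r) := ⟨c * (r + 1), c⟩
/-- computation in coordinates -/
macro "ez" : tactic => `(tactic| (first | ext | skip) <;> simp [e1, e2, ng, QuadraticAlgebra.norm_def] <;> grind)
theorem e1a (s u : F) : e1 r (s + u) = e1 r s + e1 r u := by ez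
theorem e2a (s u : F) : e2 r (s + u) = e2 r s + e2 r u := by ez
theorem s1' (s : F) : star (e1 r s) = e2 r s := by ez
theorem s2' (s : F) : star (e2 r s) = e1 r s := by ez
theorem m11 (s u : F) : e1 r s * e1 r u = e1 r (s * u) := by ez
theorem m22 (s u : F) : e2 r s * e2 r u = e2 r (s * u) := by ez
theorem m12 (s u : F) : e1 r s * e2 r u = 0 := by ez
theorem m21 (s u : F) : e2 r s * e1 r u = 0 := by ez
theorem n1 (s : F) : (e1 r s).norm = 0 := by ez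
theorem n2 (s : F) : (e2 r s).norm = 0 := by ez
theorem sm1 (s u : F) : s • e1 r u = e1 r (u * s) := by ez
theorem sm2 (s u : F) : s • e2 r u = e2 r (s * u) := by ez
theorem o1 (s : F) : (e1 r s * star QuadraticAlgebra.omega).im = s * r := by ez
theorem o2 (s : F) : (e2 r s * star QuadraticAlgebra.omega).im = s * r + s := by ez
theorem i1 (s : F) : (e1 r s).im = s := rfl
theorem i2 (s : F) : (e2 r s).im = s := rfl
theorem spl (x : E (r ^ 2 + r)) : ∃ s u, x = e1 r s + e2 r u := ⟨x.re + x.im * (r + 1), x.re + x.im * r, by ez⟩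

variable (ι ξ w) in
/-- the root elements -/
noncomputable def xx (a b : Fin 5) (c : F) : G := ![![1, ξ 5 (e1 r c), w 7 (e1 r c), ξ 6 (e1 r c), ι (X 7 c)],
  ![ξ 2 (e2 r c), 1, w 4 (e1 r c), ι (X 4 c), ξ 6 (e2 r c)], ![w 0 (e2 r c), w 3 (e2 r c), 1, w 4 (e2 r c), w 7 (e2 r c)],
  ![ξ 1 (e2 r c), ι (X 3 c), w 3 (e1 r c), 1, ξ 5 (e2 r c)], ![ι (X 0 c), ξ 1 (e1 r c), w 0 (e1 r c), ξ 2 (e1 r c), 1]] a b
local notation "χ" => xx ι ξ w
theorem ent : (∀ c, χ 0 0 c = 1) ∧ (∀ c, χ 0 1 c = ξ 5 (e1 r c)) ∧ (∀ c, χ 0 2 c = w 7 (e1 r c)) ∧ (∀ c, χ 0 3 c = ξ 6 (e1 r c)) ∧ (∀ c, χ 0 4 c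
    = ι (X 7 c)) ∧ (∀ c, χ 1 0 c = ξ 2 (e2 r c)) ∧ (∀ c, χ 1 1 c = 1) ∧ (∀ c, χ 1 2 c = w 4 (e1 r c)) ∧ (∀ c, χ 1 3 c = ι (X 4 c)) ∧
    (∀ c, χ 1 4 c = ξ 6 (e2 r c)) ∧ (∀ c, χ 2 0 c = w 0 (e2 r c)) ∧ (∀ c, χ 2 1 c = w 3 (e2 r c)) ∧ (∀ c, χ 2 2 c = 1) ∧ (∀ c, χ 2 3 c
    = w 4 (e2 r c)) ∧ (∀ c, χ 2 4 c = w 7 (e2 r c)) ∧ (∀ c, χ 3 0 c = ξ 1 (e2 r c)) ∧ (∀ c, χ 3 1 c = ι (X 3 c)) ∧ (∀ c, χ 3 2 c = w 3
    (e1 r c)) ∧ (∀ c, χ 3 3 c = 1) ∧ (∀ c, χ 3 4 c = ξ 5 (e2 r c)) ∧ (∀ c, χ 4 0 c = ι (X 0 c)) ∧ (∀ c, χ 4 1 c = ξ 1 (e1 r c)) ∧ (∀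
    c, χ 4 2 c = w 0 (e1 r c)) ∧ (∀ c, χ 4 3 c = ξ 2 (e1 r c)) ∧ (∀ c, χ 4 4 c = 1) := by
  refine ⟨?_, ?_, ?_, ?_, ?_, ?_, ?_, ?_, ?_, ?_, ?_, ?_, ?_, ?_, ?_, ?_, ?_, ?_, ?_, ?_, ?_, ?_, ?_, ?_, ?_⟩ <;> exact fun _ => by simp [xx]
variable (ι t ξ w) in
/-- the admissible indices -/
def Ok (a : Fin 5) : Prop := a ≠ 2 ∨ R5 ι t (r ^ 2 + r) ξ w
local notation "ok" => Ok ι t ξ w
/-- the first reflection -/
def pa (a : Fin 5) : Fin 5 := ![1, 0, 2, 4, 3] a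
/-- the second reflection -/
def pb (a : Fin 5) : Fin 5 := ![0, 3, 2, 1, 4] a
theorem pab : (pa 0 = 1 ∧ pa 1 = 0 ∧ pa 2 = 2 ∧ pa 3 = 4 ∧ pa 4 = 3) ∧ (pb 0 = 0 ∧ pb 1 = 3 ∧ pb 2 = 2 ∧ pb 3 = 1 ∧ pb 4 = 4) ∧
    (0 : Fin 5).rev = 4 ∧ (1 : Fin 5).rev = 3 ∧ (2 : Fin 5).rev = 2 ∧ (3 : Fin 5).rev = 1 ∧ (4 : Fin 5).rev = 0 := by decide
theorem sab' : (sa 0 = 3 ∧ sa 1 = 1 ∧ sa 2 = 5 ∧ sa 3 = 0 ∧ sa 4 = 7 ∧ sa 5 = 2 ∧ sa 6 = 6 ∧ sa 7 = 4) ∧
    (sb 0 = 0 ∧ sb 1 = 2 ∧ sb 2 = 1 ∧ sb 3 = 4 ∧ sb 4 = 3 ∧ sb 5 = 6 ∧ sb 6 = 5 ∧ sb 7 = 7) := by decide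
theorem shs : (Sh 1 ∧ Sh 2 ∧ Sh 5 ∧ Sh 6) ∧ ¬ Sh 0 ∧ ¬ Sh 3 ∧ ¬ Sh 4 ∧ ¬ Sh 7 := by decide
/-- the action of the Weyl group -/
def ac : List Bool → Fin 5 → Fin 5
  | [], a => a
  | true :: l, a => pa (ac l a)
  | false :: l, a => pb (ac l a)
/-- the elements of the Weyl group -/
def ws : List (List Bool) := [[], [true], [false], [true, false], [false, true], [true, false, true], [false, true, false],
  [true, false, true, false]]
/-- two roots which are not opposite -/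
def Np (a b c d : Fin 5) : Prop := ∃ l ∈ ws, ac l a < ac l b ∧ ac l c < ac l d
instance (a b c d : Fin 5) : Decidable (Np a b c d) := inferInstanceAs (Decidable (∃ l ∈ ws, _))
theorem ac2 (l : List Bool) (a : Fin 5) : ac l a = 2 ↔ a = 2 := by
  induction l with
  | nil => rfl
  | cons i l ih => rw [← ih]; cases i <;> simp only [ac] <;> generalize ac l a = b <;> revert b <;> decide
theorem Ok.ac (h : ok a) (l : List Bool) : ok (ac l a) := h.imp_left (mt (ac2 l a).1)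
theorem Ok.q (h : ok 2) : R5 ι t (r ^ 2 + r) ξ w := h.resolve_left (by simp)
theorem ac_inj (l : List Bool) (h : a ≠ b) : ac l a ≠ ac l b := by
  induction l with
  | nil => exact h
  | cons i l ih => cases i <;> simp only [ac] <;> revert ih <;> generalize ac l a = a <;> generalize ac l b = b <;> revert a b <;> decide
theorem f5 : ∀ a : Fin 5, a = 0 ∨ a = 1 ∨ a = 2 ∨ a = 3 ∨ a = 4 := by decide
/-- the five indices -/
macro "c5" a:ident : tactic => `(tactic| (rcases f5 $a with h | h | h | h | h <;> subst h))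
theorem f10 : ∀ {a b : Fin 5}, a < b → a = 0 ∧ b = 1 ∨ a = 0 ∧ b = 2 ∨ a = 0 ∧ b = 3 ∨ a = 0 ∧ b = 4 ∨ a = 1 ∧ b = 2 ∨
    a = 1 ∧ b = 3 ∨ a = 1 ∧ b = 4 ∨ a = 2 ∧ b = 3 ∨ a = 2 ∧ b = 4 ∨ a = 3 ∧ b = 4 := by decide
/-- the ten positive roots -/
macro "c10" a:ident : tactic => `(tactic|
  (rcases f10 $a with h | h | h | h | h | h | h | h | h | h <;> obtain ⟨h, k⟩ := h <;> subst h k))

theorem gL1 {A B C P R S : G} (A2 : A * A = 1) (B2 : B * B = 1) (S2 : S * S = 1) (p : A * B = P * B * A) (q : B * C = S * C * B)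
    (r : A * S = R * S * A) (ac : A * C = C * A) (ar : A * R = R * A) (br : B * R = R * B) (bs : B * S = S * B) :
    P * C = R * C * P := by
  have e : P = A * B * A * B := by rw [p, mul_assoc _ A A, A2, mul_one, mul_assoc, B2, mul_one]
  rw [← mul_inv_eq_iff_eq_mul] at q r ⊢
  show P ⋆ C = _
  have q' : B ⋆ C = S * C := q
  have r' : A ⋆ S = R * S := r
  rw [e, mcn, mcn, mcn, q', cnm A S, r', cjc ac, cnm B, cnm B, q', cjc br, cjc bs, mul_assoc, ← mul_assoc S, S2, one_mul, cnm, cjc ac,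
    cjc ar]
theorem gL2 {A B C P R S : G} (A2 : A * A = 1) (B2 : B * B = 1) (S2 : S * S = 1) (p : B * S = C * S * B) (q : P * B = A * B * P)
    (r : A * S = R * S * A) (ps : P * S = S * P) (ab : A * B = B * A) (br : B * R = R * B) : P * C = R * C * P := by
  have e : C = B * S * B * S := by rw [p, mul_assoc _ B B, B2, mul_one, mul_assoc, S2, mul_one]
  rw [← mul_inv_eq_iff_eq_mul] at q ⊢
  show P ⋆ C = _
  have q' : P ⋆ B = A * B := q
  rw [e, cnm, cnm, cnm, q', cjc ps, ← mul_assoc _ A, ab, mul_assoc B A, r, ← mul_assoc B, mul_assoc _ A A, A2, mul_one, ← mul_assoc B, br]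
  simp only [mul_assoc]

theorem w0 (Q : R5 ι t (r ^ 2 + r) ξ w) {k : I} (hk : ¬ Sh k) : w k 0 = 1 := by simpa [ix0] using Q.mul k hk 0 0
theorem wm (Q : R5 ι t (r ^ 2 + r) ξ w) {k : I} (hk : ¬ Sh k) {x y : E (r ^ 2 + r)} (h : x * star y = 0) :
    w k (x + y) = w k x * w k y := by simpa [h, ix0] using (Q.mul k hk x y).symm

section
variable (D : R4 ι t (r ^ 2 + r) ξ)
include D
theorem ξ0 {k : I} (hk : Sh k) : ξ k 0 = 1 := by simpa using D.add k hk 0 0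

theorem xa (ha : ok a) (hb : ok b) (s : F) : Na ι (χ a b s) = χ (pa a) (pa b) s := by
  have f : ∀ k x, Sh k → Na ι (ξ k x) = ξ (sa k) (star x) := fun k x h => D.wa k h x
  have g : ∀ k x, ¬ Sh k → ok 2 → Na ι (w k x) = w (sa k) x := fun k x h q => q.q.va k h x
  c5 a <;> c5 b <;> simp only [ent, pab, Na_one, Na_X, f, g, shs, sab', s1', s2', ha, hb, not_false_eq_true]
theorem xb (ha : ok a) (hb : ok b) (s : F) : Nb ι (χ a b s) = χ (pb a) (pb b) s := by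
  have f : ∀ k x, Sh k → Nb ι (ξ k x) = ξ (sb k) x := fun k x h => D.wb k h x
  have g : ∀ k x, ¬ Sh k → ok 2 → Nb ι (w k x) = w (sb k) x := fun k x h q => q.q.vb k h x
  c5 a <;> c5 b <;> simp only [ent, pab, Nb_one, Nb_X, f, g, shs, sab', ha, hb, not_false_eq_true]
theorem xt (ha : ok a) (hb : ok b) (s : F) : t ⋆ χ a b s = χ b.rev a.rev s := by
  have f : ∀ k x, Sh k → t ⋆ ξ k x = ξ k (star x) := fun k x h => D.tc k h x
  have g : ∀ k x, ¬ Sh k → ok 2 → t ⋆ w k x = w k (star x) * ι (X k x.norm) := fun k x h q => q.q.tw k h x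
  have h : ∀ x, t ⋆ ι x = ι x := fun x => cjc (D.cen x)
  c5 a <;> c5 b <;> simp only [ent, pab, cn1, f, g, h, shs, s1', s2', n1, n2, ix0, mul_one, ha, hb, not_false_eq_true]
theorem xw (l : List Bool) : ∃ φ : MulAut G, ∀ a b s, ok a → ok b → φ (χ a b s) = χ (ac l a) (ac l b) s := by
  induction l with
  | nil => exact ⟨1, fun _ _ _ _ _ => rfl⟩
  | cons i l ih =>
    obtain ⟨φ, h⟩ := ih
    refine ⟨MulAut.conj (if i then ι (na F) else ι (nb F)) * φ, fun a b s ha hb => ?_⟩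
    rw [MulAut.mul_apply, h a b s ha hb]
    cases i
    exacts [xb D (ha.ac l) (hb.ac l) s, xa D (ha.ac l) (hb.ac l) s]
theorem x0 (ha : ok a) (hb : ok b) (s u : F) : χ a b (s + u) = χ a b s * χ a b u := by
  have f : ∀ k x y, Sh k → ξ k (x + y) = ξ k x * ξ k y := fun k x y h => D.add k h x y
  have g : ∀ k, ¬ Sh k → ok 2 → w k (e1 r s + e1 r u) = w k (e1 r s) * w k (e1 r u) := fun k hk h => wm h.q hk (by rw [s1', m12])
  have h : ∀ k, ¬ Sh k → ok 2 → w k (e2 r s + e2 r u) = w k (e2 r s) * w k (e2 r u) := fun k hk h => wm h.q hk (by rw [s2', m21])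
  c5 a <;> c5 b <;> simp only [ent, e1a, e2a, f, g, h, ixa, shs, mul_one, ha, hb, not_false_eq_true]
theorem x2 (ha : ok a) (hb : ok b) (s : F) : χ a b s * χ a b s = 1 := by
  rw [← x0 D ha hb, aa]; simpa using x0 D ha hb 0 0

set_option linter.unusedSimpArgs false in
theorem pcm (ha : ok a) (hb : ok b) (hc : ok c) (hd : ok d) (h1 : a < b) (h2 : c < d) (h3 : a ≠ d) (h4 : b ≠ c) (s u : F) :
    χ a b s * χ c d u = χ c d u * χ a b s := by
  wlog l : a.val * 5 + b ≤ c * 5 + d generalizing a b c d s u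
  · exact (this hc hd ha hb h2 h1 h4.symm h3.symm u s (by omega)).symm
  have T : Tri 4 5 6 7 := by decide
  have f0 : ∀ k x y, Sh k → ξ k x * ξ k y = ξ k y * ξ k x := fun k x y hk => by rw [← D.add k hk, ← D.add k hk, add_comm]
  have f1 : ∀ x y, x * star y = 0 → ξ 5 x * ξ 6 y = ξ 6 y * ξ 5 x := fun x y h => by simpa [h, ix0] using D.cs _ _ _ _ T x y
  have f2 : ∀ k x y, ¬ Sh k → ok 2 → x * star y = 0 → y * star x = 0 → w k x * w k y = w k y * w k x := fun k x y hk h p q => by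
    rw [← wm h.q hk p, ← wm h.q hk q, add_comm]
  have f3 : ∀ x y, ok 2 → star x * y = 0 → w 4 x * w 7 y = w 7 y * w 4 x := fun x y h p => by
    simpa [p, ep, ξ0 D (k := 6) (by decide)] using h.q.ww _ _ _ _ T x y
  have f4 : ∀ x y, ok 2 → x * y = 0 → y.norm = 0 → ξ 5 x * w 4 y = w 4 y * ξ 5 x := fun x y h p q => mul_inv_eq_iff_eq_mul.1 (by
    simpa [p, q, show ep 4 x = x from rfl, ξ0 D (k := 6) (by decide), w0 h.q (k := 7) (by decide)] using h.q.wy _ _ _ _ T x y)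
  have f5 := fun x u => (D.cm _ _ _ _ T x u).1
  have f6 := fun x u => (D.cm _ _ _ _ T x u).2
  have f7 := fun x u => (D.cm 7 1 5 3 (by decide) x u).2
  have f8 := ixc (ι := ι) (r := 4) (s := 7)
  have f9 : ∀ k (s u : F), ι (X k s) * ι (X k u) = ι (X k u) * ι (X k s) := fun k s u => by rw [ixa, ixa, add_comm]
  have g0 := fun k x u hk (h : ok 2) => h.q.wx k hk x u
  have g1 := fun x y (h : ok 2) => (h.q.wc _ _ _ _ T x).1 y
  have g2 := fun x y (h : ok 2) => (h.q.wc _ _ _ _ T x).2 y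
  have g3 := fun x y (h : ok 2) => (h.q.wc 7 2 6 4 (by decide) x).1 y
  have g4 := fun x y (h : ok 2) => (h.q.wc 7 2 6 4 (by decide) x).2 y
  have g5 := fun x y (h : ok 2) => (h.q.wc 3 6 5 7 (by decide) x).1 y
  c10 h1 <;> c10 h2 <;> first
    | exact absurd l (by decide)
    | exact absurd h4 (by decide)
    | (simp only [ent]; first
      | (simp only [f1, f3, f4, f5, f6, f7, f8, g0, g1, g2, g3, g4, g5, ha, hb, hc, hd, s1', s2', m12, m21, n1, n2, shs,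
          not_false_eq_true]; done)
      | exact f0 _ _ _ (by decide)
      | exact f9 ..
      | exact f2 _ _ _ (by decide) ‹_› (by simp only [s1', s2', m12, m21]) (by simp only [s1', s2', m12, m21]))
theorem pch (ha : ok a) (hb : ok b) (hd : ok d) (h1 : a < b) (h2 : b < d) (s u : F) :
    χ a b s * χ b d u = χ a d (s * u) * χ b d u * χ a b s := by
  have T : Tri 4 5 6 7 := by decide
  have p := pcm D ha hd hb hd (h1.trans h2) h2 (h1.trans h2).ne h2.ne' (s * u) u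
  have q := pcm D ha hb ha hd h1 (h1.trans h2) (h1.trans h2).ne h1.ne' s (s * u)
  have f : χ a b s * χ b d u = χ b d u * χ a b s * χ a d (s * u) → χ a b s * χ b d u = χ a d (s * u) * χ b d u * χ a b s := fun h => by
    rw [h, mul_assoc, q, ← mul_assoc, p]
  have f' : χ b d u * χ a b s = χ a b s * χ b d u * χ a d (s * u) → χ a b s * χ b d u = χ a d (s * u) * χ b d u * χ a b s := fun h =>
    f (by rw [h, mul_assoc, x2 D ha hd, mul_one])
  have f'' : χ a b s * χ b d u * (χ a b s)⁻¹ = χ b d u * χ a d (s * u) → χ a b s * χ b d u = χ a d (s * u) * χ b d u * χ a b s :=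
    fun h => by rw [p, ← h, inv_mul_cancel_right]
  have g : χ b d u * χ a b s * (χ b d u)⁻¹ = χ a b s * χ a d (s * u) → χ a b s * χ b d u = χ a d (s * u) * χ b d u * χ a b s :=
    fun h => f' (by rw [mul_inv_eq_iff_eq_mul.1 h, mul_assoc, p, mul_assoc])
  have z := ξ0 D (k := 6) (by decide)
  have e : ∀ x : E (r ^ 2 + r), ep 4 x = x := fun _ => rfl
  have m : ∀ k, ¬ Sh k → ok 2 → w k (e1 r s) * w k (e2 r u) = w k (e2 r u) * w k (e1 r s) * ι (X k (s * u)) := fun k hk h => by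
    have := (h.q.mul k hk (e1 r s) (e2 r u)).trans ((congrArg _ (add_comm ..)).trans (h.q.mul k hk (e2 r u) (e1 r s)).symm)
    rw [s1', s2', m11, m22, o1, o2] at this
    rw [eq_mul_inv_of_mul_eq this, ixi, mul_assoc, ixa, mul_comm u, add_right_comm, aa, zero_add]
  clear p q
  c10 h1 <;> rcases f10 h2 with ⟨h, rfl⟩ | ⟨h, rfl⟩ | ⟨h, rfl⟩ | ⟨h, rfl⟩ | ⟨h, rfl⟩ | ⟨h, rfl⟩ | ⟨h, rfl⟩ | ⟨h, rfl⟩ | ⟨h, rfl⟩ |
    ⟨h, rfl⟩ <;> first | exact absurd h (by decide) | simp only [ent] at f f' f'' g ⊢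
  · exact f'' (by simpa only [e, m11, n1, zero_smul, z, mul_one] using hd.q.wy _ _ _ _ T (e1 r s) (e1 r u))
  · exact f' (by simpa only [sm1, n1, zero_mul, ix0, mul_one] using D.cy _ _ _ _ T u (e1 r s))
  · exact f (by simpa only [s2', m11, i1] using D.cs _ _ _ _ T (e1 r s) (e2 r u))
  · exact f' (by simpa only [e, s2', m11, mul_comm u] using hb.q.ww _ _ _ _ T (e2 r u) (e1 r s))
  · exact f (m _ (by decide) hb)
  · exact f' (by simpa only [s1', m22, i2, mul_comm u] using D.cs _ _ _ _ T (e2 r u) (e1 r s))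
  · exact f (m _ (by decide) hb)
  · exact f (by simpa only [e, s1', m22] using hb.q.ww _ _ _ _ T (e1 r s) (e2 r u))
  · exact f (by simpa only [sm2, n2, zero_mul, ix0, mul_one] using D.cy _ _ _ _ T s (e2 r u))
  · exact g (by simpa only [e, m22, n2, zero_smul, z, mul_one, mul_comm u] using ha.q.wy _ _ _ _ T (e2 r u) (e2 r s))
theorem ncm (ha : ok a) (hb : ok b) (hc : ok c) (hd : ok d) (h : Np a b c d) (h3 : a ≠ d) (h4 : b ≠ c) (s u : F) :
    χ a b s * χ c d u = χ c d u * χ a b s := by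
  obtain ⟨l, -, p, q⟩ := h
  obtain ⟨φ, k⟩ := xw D (w := w) l
  refine φ.injective ?_
  rw [map_mul, map_mul, k _ _ _ ha hb, k _ _ _ hc hd]
  exact pcm D (ha.ac l) (hb.ac l) (hc.ac l) (hd.ac l) p q (ac_inj l h3) (ac_inj l h4) s u
theorem nch (ha : ok a) (hb : ok b) (hd : ok d) (h : Np a b b d) (s u : F) :
    χ a b s * χ b d u = χ a d (s * u) * χ b d u * χ a b s := by
  obtain ⟨l, -, p, q⟩ := h
  obtain ⟨φ, k⟩ := xw D (w := w) l
  refine φ.injective ?_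
  rw [map_mul, map_mul, map_mul, k _ _ _ ha hb, k _ _ _ hb hd, k _ _ _ ha hd]
  exact pch D (ha.ac l) (hb.ac l) (hd.ac l) p q s u
theorem nmem (ha : ok a) (hb : ok b) (hd : ok d) (h : Np a b b d) (p : ∀ s, χ a b s ∈ M) (q : ∀ s, χ b d s ∈ M) (s : F) :
    χ a d s ∈ M := by
  have := mul_mem (p s) (q 1)
  rwa [nch D ha hb hd h, mul_one, mul_mem_cancel_right (p s), mul_mem_cancel_right (q 1)] at this
theorem G4_le (h : ∀ a b s, a ≠ 2 → b ≠ 2 → χ a b s ∈ M) : G4 ι ξ ≤ M := by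
  have f : ∀ k x, Sh k → ξ k x ∈ M := fun k x hk => by
    obtain ⟨s, u, rfl⟩ := spl x
    rw [D.add k hk]
    rcases (by decide : ∀ k, Sh k → k = 1 ∨ k = 2 ∨ k = 5 ∨ k = 6) k hk with rfl | rfl | rfl | rfl
    · exact mul_mem (by simpa only [ent] using h 4 1 s (by decide) (by decide)) (by simpa only [ent] using h 3 0 u (by decide) (by decide))
    · exact mul_mem (by simpa only [ent] using h 4 3 s (by decide) (by decide)) (by simpa only [ent] using h 1 0 u (by decide) (by decide))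
    · exact mul_mem (by simpa only [ent] using h 0 1 s (by decide) (by decide)) (by simpa only [ent] using h 3 4 u (by decide) (by decide))
    · exact mul_mem (by simpa only [ent] using h 0 3 s (by decide) (by decide)) (by simpa only [ent] using h 1 4 u (by decide) (by decide))
  refine sup_le ?_ ((closure_le _).2 (by rintro _ ⟨k, x, hk, rfl⟩; exact f k x hk))
  rintro _ ⟨x, rfl⟩
  refine (gen (H := M.comap ι) fun k c => mem_comap.2 ?_).ge (mem_top x)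
  rcases (by decide : ∀ k, Sh k ∨ k = 0 ∨ k = 3 ∨ k = 4 ∨ k = 7) k with hk | rfl | rfl | rfl | rfl
  exacts [D.em k hk c ▸ f k _ hk, by simpa only [ent] using h 4 0 c (by decide) (by decide),
    by simpa only [ent] using h 3 1 c (by decide) (by decide), by simpa only [ent] using h 1 3 c (by decide) (by decide),
    by simpa only [ent] using h 0 4 c (by decide) (by decide)]
omit D in
theorem xG4 (ha : a ≠ 2) (hb : b ≠ 2) (s : F) : χ a b s ∈ G4 ι ξ := by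
  have f : ∀ k x, Sh k → ξ k x ∈ G4 ι ξ := fun k x hk => mem_sup_right (subset_closure ⟨k, x, hk, rfl⟩)
  have g : ∀ x, ι x ∈ G4 ι ξ := fun x => mem_sup_left ⟨x, rfl⟩
  c5 a <;> c5 b <;> first | exact absurd rfl ha | exact absurd rfl hb | simp only [ent, f, g, shs, one_mem]
omit D in
theorem xG5 (a b : Fin 5) (s : F) : χ a b s ∈ G5 ι ξ w := by
  have f : ∀ k x, Sh k → ξ k x ∈ G5 ι ξ w := fun k x hk => mem_sup_left (mem_sup_right (subset_closure ⟨k, x, hk, rfl⟩))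
  have g : ∀ x, ι x ∈ G5 ι ξ w := fun x => mem_sup_left (mem_sup_left ⟨x, rfl⟩)
  have h : ∀ k x, ¬ Sh k → w k x ∈ G5 ι ξ w := fun k x hk => mem_sup_right (subset_closure ⟨k, x, hk, rfl⟩)
  c5 a <;> c5 b <;> simp only [ent, f, g, h, shs, one_mem, not_false_eq_true]

/-- the missing relation of `L₄(q)` -/
theorem sp (o : PiG {2}ᶜ C(G4 ι ξ)) (s u : F) : χ 0 1 s * χ 4 3 u = χ 4 3 u * χ 0 1 s := by
  have o0 : ok 0 := .inl (by decide)
  have o1 : ok 1 := .inl (by decide)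
  have o3 : ok 3 := .inl (by decide)
  have o4 : ok 4 := .inl (by decide)
  have c : ∀ {a b c d : Fin 5} s u, ok a → ok b → ok c → ok d → Np a b c d ∧ a ≠ d ∧ b ≠ c → χ a b s ⋆ χ c d u = χ c d u :=
    fun s u ha hb hc hd h => cjc (ncm D ha hb hc hd h.1 h.2.1 h.2.2 s u)
  have c1 : ∀ {a b d : Fin 5} s u, ok a → ok b → ok d → Np a b b d → χ a b s ⋆ χ b d u = χ a d (s * u) * χ b d u :=
    fun s u ha hb hd h => mul_inv_eq_iff_eq_mul.2 (nch D ha hb hd h s u)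
  have c2 : ∀ {a b d : Fin 5} s u, ok a → ok b → ok d → Np a b b d → χ b d u ⋆ χ a b s = χ a d (s * u) * χ a b s :=
    fun s u ha hb hd h => mul_inv_eq_iff_eq_mul.2 (by
      rw [mul_assoc, nch D ha hb hd h, ← mul_assoc, ← mul_assoc, x2 D ha hd, one_mul])
  have k : ∀ s u a b, (a = 0 ∨ a = 1) ∧ (b = 3 ∨ b = 4) → ∀ v, χ 0 1 s ⋆ χ 4 3 u ⋆ χ a b v = χ 4 3 u ⋆ χ 0 1 s ⋆ χ a b v := by
    intro s u a b h v
    have a1 := fun v => c s v o0 o1 o0 o3 (by decide)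
    have a2 := fun v => c s v o0 o1 o0 o4 (by decide)
    have a3 := fun v => c1 s v o0 o1 o3 (by decide)
    have a4 := fun v => c1 s v o0 o1 o4 (by decide)
    have b1 := fun v => c u v o4 o3 o0 o3 (by decide)
    have b2 := fun v => c u v o4 o3 o1 o3 (by decide)
    have b3 := fun v => c2 v u o0 o4 o3 (by decide)
    have b4 := fun v => c2 v u o1 o4 o3 (by decide)
    obtain ⟨rfl | rfl, rfl | rfl⟩ := h <;> simp only [cnm, a1, a2, a3, a4, b1, b2, b3, b4, mul_assoc]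
    rw [← mul_assoc (χ 1 3 _), ncm D o1 o3 o0 o4 (by decide) (by decide) (by decide), mul_assoc]
  obtain ⟨φ, p⟩ := xw D (w := w) [true, false, true, false]
  have k' : ∀ a b, (a = 0 ∨ a = 1) ∧ (b = 3 ∨ b = 4) ∨ (b = 0 ∨ b = 1) ∧ (a = 3 ∨ a = 4) → ∀ v,
      χ a b v ∈ C[(χ 4 3 u * χ 0 1 s)⁻¹ * (χ 0 1 s * χ 4 3 u)] := fun a b h v => mem_cent1.2 (cjc' (by
    rw [mcn, mcn]
    rcases h with h | h
    · rw [k s u a b h, ← mcn (χ 4 3 u), icn]
    have ha : ok a := .inl (by rintro rfl; simp at h)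
    have hb : ok b := .inl (by rintro rfl; simp at h)
    have : χ 0 1 s ⋆ χ 4 3 u ⋆ χ a b v = χ 4 3 u ⋆ χ 0 1 s ⋆ χ a b v := φ.injective (by
      simp only [cn, map_mul, map_inv, p _ _ _ o0 o1, p _ _ _ o4 o3, p _ _ _ ha hb]
      exact (k u s _ _ (by obtain ⟨rfl | rfl, rfl | rfl⟩ := h <;> decide) v).symm)
    rw [this, ← mcn (χ 4 3 u), icn])).symm
  have l := G4_le D (w := w) (M := C[(χ 4 3 u * χ 0 1 s)⁻¹ * (χ 0 1 s * χ 4 3 u)]) fun a b v ha hb => by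
    rcases (by decide : ∀ a b : Fin 5, a ≠ 2 → b ≠ 2 → a = b ∨ ((a = 0 ∨ a = 1) ∧ (b = 3 ∨ b = 4) ∨ (b = 0 ∨ b = 1) ∧ (a = 3 ∨ a = 4)) ∨
      ∃ e, e ≠ 2 ∧ Np a e e b ∧ ((a = 0 ∨ a = 1) ∧ (e = 3 ∨ e = 4) ∨ (e = 0 ∨ e = 1) ∧ (a = 3 ∨ a = 4)) ∧
        ((e = 0 ∨ e = 1) ∧ (b = 3 ∨ b = 4) ∨ (b = 0 ∨ b = 1) ∧ (e = 3 ∨ e = 4))) a b ha hb with rfl | h | ⟨e, h0, h1, h2, h3⟩
    · c5 a <;> simp only [ent, one_mem]
    exacts [k' a b h v, nmem D (.inl ha) (.inl h0) (.inl hb) h1 (k' _ _ h2) (k' _ _ h3) v]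
  refine (inv_mul_eq_one.1 (mem_bot.1 (mem_of_odd (o.elt (le_cent1_iff.1 l)) (mem_bot.2 ?_)))).symm
  have x := x2 D o0 o1 s
  have y := x2 D o4 o3 u
  have := mem_cent1.1 (l (xG4 (a := 0) (b := 1) (w := w) (by decide) (by decide) s))
  generalize χ 0 1 s = a, χ 4 3 u = b at *
  rw [_root_.mul_inv_rev, inv_eq_of_mul_eq_one_right x, inv_eq_of_mul_eq_one_right y] at this ⊢
  calc _ = a * b * (a * b) * a * (b * a * b) := by group
    _ = a * a * b * (a * (b * b) * a) * b := by rw [← this]; group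
    _ = 1 := by simp [x, y]
theorem cm4 (o : PiG {2}ᶜ C(G4 ι ξ)) (ha : a ≠ 2) (hb : b ≠ 2) (hc : c ≠ 2) (hd : d ≠ 2) (h1 : a ≠ b) (h2 : c ≠ d) (h3 : a ≠ d)
    (h4 : b ≠ c) (s u : F) : χ a b s * χ c d u = χ c d u * χ a b s := by
  rcases (by decide +kernel : ∀ a b c d : Fin 5, a ≠ 2 → b ≠ 2 → c ≠ 2 → d ≠ 2 → a ≠ b → c ≠ d → a ≠ d → b ≠ c → Np a b c d ∨
    ∃ l ∈ ws, ac l a = 0 ∧ ac l b = 1 ∧ ac l c = 4 ∧ ac l d = 3) a b c d ha hb hc hd h1 h2 h3 h4 with h | ⟨l, -, p1, p2, p3, p4⟩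
  · exact ncm D (.inl ha) (.inl hb) (.inl hc) (.inl hd) h h3 h4 s u
  obtain ⟨φ, k⟩ := xw D (w := w) l
  refine φ.injective ?_
  rw [map_mul, map_mul, k _ _ _ (.inl ha) (.inl hb), k _ _ _ (.inl hc) (.inl hd), p1, p2, p3, p4, sp D o]
end

section
variable (Q : R5 ι t (r ^ 2 + r) ξ w)
include Q
theorem cm5 (h1 : a ≠ b) (h2 : c ≠ d) (h3 : a ≠ d) (h4 : b ≠ c) (s u : F) : χ a b s * χ c d u = χ c d u * χ a b s := by
  have o : ∀ a, ok a := fun _ => .inr Q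
  rcases (by decide +kernel : ∀ a b c d : Fin 5, a ≠ b → c ≠ d → a ≠ d → b ≠ c → Np a b c d ∨
    ∃ e, Np a e e b ∧ Np a e c d ∧ Np e b c d ∧ e ≠ c ∧ e ≠ d) a b c d h1 h2 h3 h4 with h | ⟨e, p1, p2, p3, p4, p5⟩
  · exact ncm Q.toR4 (o _) (o _) (o _) (o _) h h3 h4 s u
  exact mem_cent1.1 (nmem Q.toR4 (M := C[χ c d u]) (o a) (o e) (o b) p1
    (fun _ => mem_cent1.2 (ncm Q.toR4 (o _) (o _) (o _) (o _) p2 h3 p4 _ _))
    (fun _ => mem_cent1.2 (ncm Q.toR4 (o _) (o _) (o _) (o _) p3 p5 h4 _ _)) s)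
theorem ch5 (h1 : a ≠ b) (h2 : b ≠ d) (h3 : a ≠ d) (s u : F) : χ a b s * χ b d u = χ a d (s * u) * χ b d u * χ a b s := by
  have o : ∀ a, ok a := fun _ => .inr Q
  have n : ∀ {a b d}, Np a b b d → ∀ s u, χ a b s * χ b d u = χ a d (s * u) * χ b d u * χ a b s := fun h =>
    nch Q.toR4 (o _) (o _) (o _) h
  have x : ∀ a b s, χ a b s * χ a b s = 1 := fun a b => x2 Q.toR4 (o a) (o b)
  rcases (by decide +kernel : ∀ a b d : Fin 5, a ≠ b → b ≠ d → a ≠ d → Np a b b d ∨ ∃ e, (a ≠ e ∧ e ≠ b ∧ e ≠ d) ∧ Np a e e d ∧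
    (Np a e e b ∧ Np e b b d ∨ Np b e e d ∧ Np a b b e)) a b d h1 h2 h3 with h | ⟨e, ⟨p1, p2, p3⟩, p4, ⟨p5, p6⟩ | ⟨p5, p6⟩⟩
  · exact n h s u
  · exact gL1 (x a e s) (x e b 1) (x e d u) (by simpa using n p5 s 1) (by simpa using n p6 1 u) (n p4 s u) (cm5 Q p1 h2 h3 p2 ..)
      (cm5 Q p1 h3 h3 p1.symm ..) (cm5 Q p2 h3 p3 h1.symm ..) (cm5 Q p2 p3 p3 p2.symm ..)
  · exact gL2 (x a e (s * u)) (x b e u) (x e d 1) (by simpa using n p5 u 1) (n p6 s u) (by simpa using n p4 (s * u) 1)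
      (cm5 Q h1 p3 h3 p2.symm ..) (cm5 Q p1 p2.symm p1 p2 ..) (cm5 Q p2.symm h3 h2 p1.symm ..)
theorem G5_le (h : ∀ a b s, χ a b s ∈ M) : G5 ι ξ w ≤ M := by
  have l := G4_le Q.toR4 fun a b s _ _ => h a b s
  refine sup_le l ((closure_le _).2 ?_)
  rintro _ ⟨k, x, hk, rfl⟩
  obtain ⟨s, u, rfl⟩ := spl x
  rw [← Q.mul k hk]
  refine mul_mem ?_ (l (mem_sup_left ⟨_, rfl⟩))
  rcases (by decide : ∀ k, ¬ Sh k → k = 0 ∨ k = 3 ∨ k = 4 ∨ k = 7) k hk with rfl | rfl | rfl | rfl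
  · exact mul_mem (by simpa only [ent] using h 4 2 s) (by simpa only [ent] using h 2 0 u)
  · exact mul_mem (by simpa only [ent] using h 3 2 s) (by simpa only [ent] using h 2 1 u)
  · exact mul_mem (by simpa only [ent] using h 1 2 s) (by simpa only [ent] using h 2 3 u)
  · exact mul_mem (by simpa only [ent] using h 0 2 s) (by simpa only [ent] using h 2 4 u)
end

theorem fin {m : ℕ} (hm : 2 ≤ m) (i : Function.Injective ι) (x : Fin (m + 1) → Fin (m + 1) → F → G) (x1 : ∀ a s, x a a s = 1)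
    (h0 : ∀ a b s u, x a b (s + u) = x a b s * x a b u)
    (h1 : ∀ a b c d, a ≠ b → c ≠ d → a ≠ d → b ≠ c → ∀ s u, x a b s * x c d u = x c d u * x a b s)
    (h2 : ∀ a b d, a ≠ b → b ≠ d → a ≠ d → ∀ s u, x a b s * x b d u = x a d (s * u) * x b d u * x a b s)
    (h3 : ∀ a b s, t ⋆ x a b s = x b.rev a.rev s) (h4 : x 0 (Fin.last m) 1 = ι (X 7 1)) (h5 : ∀ a b s, x a b s ∈ M)
    (h6 : ∀ K : Subgroup G, (∀ a b s, x a b s ∈ K) → M ≤ K) :
    ∃ ψ : SpecialLinearGroup (Fin (m + 1)) F →* G, ψ.range = M ∧ TwL m F ψ t (ι (X 7 1)) := by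
  obtain ⟨ψ, k⟩ := H11.exists_hom_sl hm (fun a b _ => x a b) (fun a b _ => h0 a b) (fun a b p c d q => h1 a b c d p q)
    fun a b p d q r => h2 a b d p q r
  have k' : ∀ a b s, ψ (H28.SA.xs a b s) = x a b s := fun a b s => by
    by_cases p : a = b
    · rw [p, H28.SA.xs_self, map_one, x1]
    · rw [H28.SA.xs_eq p, k]
  refine ⟨ψ, le_antisymm ?_ (h6 _ fun a b s => ⟨_, k' a b s⟩), fun a b s => ?_, (k' ..).trans h4, fun e => ?_⟩
  · rintro _ ⟨g, rfl⟩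
    exact (H28.SA.sl_top (H := M.comap ψ) fun a b s _ => mem_comap.2 (k' a b s ▸ h5 a b s)).ge (mem_top g)
  · rw [k', k']; exact h3 a b s
  · exact one_ne_zero (X_eq1 (i (e.trans (map_one ι).symm)))

theorem x1 (a : Fin 5) (s : F) : χ a a s = 1 := by c5 a <;> simp only [ent]

theorem rl5 : RL5.{u} := fun ι t r ξ w Q _ =>
  fin (by omega) Q.inj (xx ι ξ w) x1 (fun _ _ => x0 Q.toR4 (.inr Q) (.inr Q)) (fun _ _ _ _ => cm5 Q) (fun _ _ _ => ch5 Q)
    (fun _ _ => xt Q.toR4 (.inr Q) (.inr Q)) (by simp only [show Fin.last 4 = 4 from rfl, ent]) xG5 fun _ => G5_le Q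

/-- the indices of `L₄(q)` -/
def em (a : Fin 4) : Fin 5 := ![0, 1, 3, 4] a
theorem rl4 : RL4.{u} := fun ι t r ξ D o => by
  obtain ⟨e, i, v, s⟩ : (∀ a, em a ≠ 2) ∧ (∀ a b, a ≠ b → em a ≠ em b) ∧ (∀ a, (em a).rev = em a.rev) ∧
    ∀ a ≠ 2, ∃ b, a = em b := by decide
  refine fin (by omega) D.inj (fun a b => xx ι ξ ξ (em a) (em b)) (fun _ => x1 _) (fun _ _ => x0 D (.inl (e _)) (.inl (e _)))
    (fun a b c d p q r s => cm4 D o (e _) (e _) (e _) (e _) (i _ _ p) (i _ _ q) (i _ _ r) (i _ _ s))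
    (fun a b d p q r => nch D (.inl (e _)) (.inl (e _)) (.inl (e _)) ?_) (fun _ _ _ => ?_)
    (by simp only [show em (Fin.last 3) = 4 from rfl, show em 0 = 0 from rfl, ent]) (fun _ _ => xG4 (e _) (e _))
    fun K h => G4_le D (w := ξ) fun a b u ha hb => ?_
  · revert a b d; decide
  · rw [xt D (.inl (e _)) (.inl (e _)), v, v]
  · obtain ⟨a, rfl⟩ := s a ha
    obtain ⟨b, rfl⟩ := s b hb
    exact h a b u

end H18.S4
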