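/-
Standard subgroups of type `Sp₄(2ⁿ)`: `C(t)` normalizes the group generated by the doublings.
-/
import Cfsg.Agent.H27.W4

set_option autoImplicit false
set_option linter.unusedSectionVars false

namespace H18.S4
open Cfsg Subgroup H27.S4
open H28.CY hiding aa h2
open H19 hiding PG
open H1.YG (Big h2 aa ng add0 sqadd ex_n four_le ex_sqrt sq_inj)

universe u
variable {F : Type} [Field F] [Big F] {G : Type u} [Group G] [Finite G] {ι ι' : Γ F →* G} {g k t : G} {β β' δ : F → G}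
  {κ s : F} {σ : F ≃+* F} {M : Subgroup G}

/-- the properties of a doubling which determine it modulo `L` -/
structure Wk (ι : Γ F →* G) (t : G) (β : F → G) : Prop where
  ct : ∀ c, β c * t * (β c)⁻¹ = t * ι (X 6 c)
  mul : ∀ c d, ∃ e, β c * β d = β (c + d) * ι (X 6 e)
  c4 : ∀ c u, β c * ι (X 4 u) = ι (X 4 u) * β c
  c6 : ∀ c u, β c * ι (X 6 u) = ι (X 6 u) * β c
  c7 : ∀ c u, β c * ι (X 7 u) = ι (X 7 u) * β c
  tor : ∀ l m c, ι (hh l m) * β c * (ι (hh l m))⁻¹ = β (l * m * c)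

theorem wk (D : Db ι t β κ s) : Wk ι t β :=
  ⟨D.ct, fun c d => by
    obtain ⟨c, rfl⟩ := ex_sqrt c
    obtain ⟨d, rfl⟩ := ex_sqrt d
    exact ⟨_, D.mul c d⟩, D.c4, D.c6, D.c7, D.tor⟩

theorem cjx {a b : G} (h : a * b = b * a) (g : G) : g * a * g⁻¹ * (g * b * g⁻¹) = g * b * g⁻¹ * (g * a * g⁻¹) := by
  rw [conj_mul, conj_mul, h]

theorem Wk.tr (D : Wk ι t β) (hg : g * t = t * g) (p : ∀ x, g * ι x * g⁻¹ = ι' (φ σ x)) :
    Wk ι' t fun c => g * β (σ.symm c) * g⁻¹ := by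
  have q : g * t * g⁻¹ = t := mul_inv_eq_iff_eq_mul.2 hg
  have x : ∀ r u, ι' (X r u) = g * ι (X r (σ.symm u)) * g⁻¹ := fun r u => by rw [p, φ_X, RingEquiv.apply_symm_apply]
  refine ⟨fun c => ?_, fun c d => ?_, fun c u => ?_, fun c u => ?_, fun c u => ?_, fun l m c => ?_⟩
  · calc _ = g * (β (σ.symm c) * (g⁻¹ * t * g) * (β (σ.symm c))⁻¹) * g⁻¹ := by group
      _ = _ := by rw [mul_assoc g⁻¹, ← hg, inv_mul_cancel_left, D.ct, ← conj_mul, q, x]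
  · obtain ⟨e, h⟩ := D.mul (σ.symm c) (σ.symm d)
    exact ⟨σ e, by rw [conj_mul, h, ← conj_mul, x, map_add, RingEquiv.symm_apply_apply]⟩
  · rw [x]; exact cjx (D.c4 _ _) g
  · rw [x]; exact cjx (D.c6 _ _) g
  · rw [x]; exact cjx (D.c7 _ _) g
  · have e : ι' (hh l m) = g * ι (hh (uσ σ.symm l) (uσ σ.symm m)) * g⁻¹ := by
      have : ∀ l : Fˣ, uσ σ (uσ σ.symm l) = l := fun l => Units.ext (σ.apply_symm_apply _)
      rw [p, φ_hh, this, this]
    rw [e, conj_inv, conj_mul, conj_mul, D.tor, uσ_val, uσ_val, map_mul, map_mul]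

theorem LG (x : Γ F) : ι x ∈ G1 ι β := mem_sup_left ⟨x, rfl⟩
theorem βG (c : F) : β c ∈ G1 ι β := mem_sup_right (subset_closure ⟨c, rfl⟩)
theorem G1_le (h1 : ∀ x, ι x ∈ M) (h2 : ∀ c, β c ∈ M) : G1 ι β ≤ M :=
  sup_le (by rintro _ ⟨x, rfl⟩; exact h1 x) ((closure_le _).2 (by rintro _ ⟨x, rfl⟩; exact h2 x))
theorem G2_le (h1 : ∀ x, ι x ∈ M) (h2 : ∀ c, β c ∈ M) (h3 : ∀ c, δ c ∈ M) : G2 ι β δ ≤ M :=
  sup_le (G1_le h1 h2) ((closure_le _).2 (by rintro _ ⟨x, rfl⟩; exact h3 x))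
theorem G12 : G1 ι β ≤ G2 ι β δ := le_sup_left
theorem G12' (α : MulAut (Γ F)) : G1 (tw ι α) δ ≤ G2 ι β δ :=
  G1_le (fun _ => G12 (LG _)) fun c => mem_sup_right (subset_closure ⟨c, rfl⟩)

/-- uniqueness of the doubling -/
theorem Wk.uq (H : Hyp ι t) (D : Wk ι t β) (D' : Wk ι t β') (c : F) : β' c ∈ G1 ι β := by
  obtain ⟨l, -, hl⟩ := exl (F := F)
  obtain ⟨c, rfl⟩ : ∃ e, c = e + l * l * e := ⟨c / (l ^ 2 + 1), by field_simp; ring⟩
  have cm : ∀ {x : G}, β c * x = x * β c → β' c * x = x * β' c → (β c)⁻¹ * β' c * x = x * ((β c)⁻¹ * β' c) := fun p q =>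
    (Commute.mul_left (Commute.inv_left p) q :)
  have T : ∀ {β : F → G}, Wk ι t β → β c * ι (hh l l⁻¹) = ι (hh l l⁻¹) * β c := fun D =>
    (mul_inv_eq_iff_eq_mul.1 ((D.tor l l⁻¹ c).trans (by simp))).symm
  obtain ⟨v, k, hk, e⟩ := H.cA1T (g := (β c)⁻¹ * β' c) (mul_inv_eq_iff_eq_mul.1 (by
    rw [cj2, D'.ct, ← D.ct]; group)) (fun u => cm (D.c4 _ _) (D'.c4 _ _)) (fun u => cm (D.c6 _ _) (D'.c6 _ _))
    (fun u => cm (D.c7 _ _) (D'.c7 _ _)) hl (cm (T D) (T D'))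
  have := ht (h := ι (hh l l)) ((inv_mul_eq_iff_eq_mul.1 e).trans (mul_assoc ..).symm) (mem_cent.1 hk _ ⟨_, rfl⟩).symm
  have m : β c * ι (X 6 v) ∈ G1 ι β := mul_mem (βG _) (LG _)
  have m' : β' c * ι (hh l l) * (β' c)⁻¹ * (ι (hh l l))⁻¹ ∈ G1 ι β :=
    this ▸ mul_mem (mul_mem (mul_mem m (LG _)) (inv_mem m)) (inv_mem (LG _))
  obtain ⟨d, r⟩ := D'.mul (c + l * l * c) (l * l * c)
  rw [add_assoc, aa, add_zero] at r
  rw [mul_assoc, mul_assoc, ← mul_assoc (ι _), ← conj_inv, D'.tor, eq_mul_inv_of_mul_eq r.symm, ixi, mul_assoc _ _ (ι _),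
    D'.c6, ← mul_assoc, mul_inv_cancel_right] at m'
  exact (mul_mem_cancel_right (LG _)).1 m'

theorem red (H : Hyp ι t) (hg : g ∈ C[t]) : ∃ k σ, (ι k)⁻¹ * g * t = t * ((ι k)⁻¹ * g) ∧
    ((∀ x, (ι k)⁻¹ * g * ι x * ((ι k)⁻¹ * g)⁻¹ = ι (φ σ x)) ∨
      ∀ x, (ι k)⁻¹ * g * ι x * ((ι k)⁻¹ * g)⁻¹ = tw ι (γ F) (φ σ x)) := by
  obtain ⟨α, p⟩ := H.ex hg
  obtain ⟨k, _, ⟨σ, rfl | rfl⟩, rfl⟩ := aut α <;> refine ⟨k, σ, mem_cent1.1 (mul_mem (inv_mem (H.LC k)) hg), ?_⟩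
  · exact .inl fun x => by rw [cj2, p, MulAut.mul_apply, MulAut.conj_apply, map_mul, map_mul, map_inv]; group
  · exact .inr fun x => by rw [cj2, p, MulAut.mul_apply, MulAut.conj_apply, map_mul, map_mul, map_inv, tw_ap, MulAut.mul_apply]; group

theorem Wk.cj (H : Hyp ι' t) (D : Wk ι t β) (D' : Wk ι' t β') (hg : g * t = t * g) (p : ∀ x, g * ι x * g⁻¹ = ι' (φ σ x)) (c : F) :
    g * β c * g⁻¹ ∈ G1 ι' β' := by
  simpa using D'.uq H (D.tr hg p) (σ c)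

theorem nr : NR.{u} := fun {F} _ _ {G} _ _ ι t H β κ s D => by
  replace D := wk D
  refine ⟨fun n g hg => ?_, fun δ κ' s' D' g hg => ?_, fun M l hM => PiN.of_not_dvd fun d => ?_⟩
  · obtain ⟨k, σ, c, p | p⟩ := red H hg
    · refine (mul_mem_cancel_left (inv_mem (le_normalizer (LG k)))).1 (mem_norm_of_cj_le (cj_le_iff.2 (G1_le
        (fun x => mem_cj_inv.2 (p x ▸ LG _)) fun x => mem_cj_inv.2 (D.cj H D c p x))))
    · have := (D.tr c p).ct 1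
      rw [tw_ap, γ6, one_pow] at this
      exact absurd (n _ _ this) one_ne_zero
  · replace D' := wk D'
    have H' := H.tw (γ F)
    obtain ⟨k, σ, c, p⟩ := red H hg
    refine (mul_mem_cancel_left (inv_mem (le_normalizer (G12 (LG k))))).1 (mem_norm_of_cj_le (cj_le_iff.2 ?_))
    obtain p | p := p
    · exact G2_le (fun x => mem_cj_inv.2 (p x ▸ G12 (LG _))) (fun x => mem_cj_inv.2 (G12 (D.cj H D c p x)))
        fun x => mem_cj_inv.2 (G12' _ (D'.cj H' D' (σ := σ) c (fun y => by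
          rw [tw_ap, p, tw_ap, ← MulAut.mul_apply, γφ, MulAut.mul_apply]) x))
    · exact G2_le (fun x => mem_cj_inv.2 (p x ▸ G12 (LG _))) (fun x => mem_cj_inv.2 (G12' _ (D.cj H' D' c p x)))
        fun x => mem_cj_inv.2 (G12 (D'.cj H D (σ := fr F * σ) c (fun y => by
          rw [tw_ap, p, tw_ap, φ_mul, ← γγ, mul_assoc, ← γφ]; rfl) x))
  · have pt := piG_zpowers.2 (two_of_sq H.tt)
    have hM := norm_le_norm_cent _ hM
    obtain ⟨S, hS, l'⟩ := PiN.exists_syl pt (le_sup_right (a := C(M)))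
    have nL := left_normal_sup (zpowers_le.2 hM)
    have s := hS.inf_normal nL
    have n := PiN.meet_cent s.pi pt (l'.trans (norms_inf le_normalizer (hS.le.trans nL.2))) (s.sne_bot Nat.prime_two d)
    obtain ⟨p, pp, pd⟩ := exists_prime_dvd_card n
    obtain rfl : p = 2 := s.pi p pp (pd.trans (card_dvd_of_le inf_le_left))
    obtain ⟨j, hj, o⟩ := exists_orderOf_eq_prime pp pd
    rcases H.rk j (cent_mono (le_sup_left.trans l) hj.1.2) (by rw [← pow_two, ← o, pow_orderOf_eq_one])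
      (mem_cent.1 hj.2 _ (mem_zpowers t)).symm with rfl | rfl
    · simp at o
    · have := D.ct 1
      rw [mem_cent.1 hj.1.2 _ (l (βG _)), mul_inv_cancel_right, left_eq_mul] at this
      exact one_ne_zero (X_eq1 (H.inj (this.trans (map_one ι).symm)))

end H18.S4
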