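/-
Sims bound (S3694): transvections of symplectic and orthogonal spaces.
-/
import Cfsg.Agent.H22.SB1

set_option autoImplicit false
set_option linter.unusedSectionVars false

namespace H18.SB
open H22.SB Module

section
variable {K V : Type} [Field K] [AddCommGroup V] [Module K V] [Finite K] [Finite V] {β : LinearMap.BilinForm K V} {c : K}

theorem fib_ge {A : Type} [AddCommGroup A] [Finite A] (φ : V →+ A) (x0 : V) : Nat.card V ≤ Nat.card A * {x | φ x = φ x0}.ncard := by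
  rw [← Nat.card_coe_set_eq, ← Nat.card_prod]
  refine Nat.card_le_card_of_injective (fun x => (φ x, ⟨x - Function.invFun φ (φ x) + x0, by
    simp [Function.invFun_eq (⟨x, rfl⟩ : ∃ y, φ y = φ x)]⟩)) fun x y e => ?_
  obtain ⟨e1, e2⟩ := Prod.ext_iff.1 e
  simpa [show φ x = φ y from e1] using e2

theorem flip_le {A B : Set V} {g : V → V} (h : ∀ x ∈ B, x ∉ A → g x ∈ A) (hg : B.InjOn g) : B.ncard ≤ 2 * A.ncard := by
  have a := Set.ncard_inter_add_ncard_diff_eq_ncard B A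
  have b := Set.ncard_le_ncard (Set.inter_subset_right (s := B) (t := A))
  have d := Set.ncard_le_ncard_of_injOn (s := B \ A) (t := A) g (fun x hx => h x hx.1 hx.2) (hg.mono Set.diff_subset)
  omega

theorem ex_one (nd : ∀ v, (∀ w, β v w = 0) → v = 0) {v : V} (h : v ≠ 0) : ∃ x, β v x = 1 := by
  obtain ⟨x, hx⟩ := not_forall.1 (mt (nd v) h)
  exact ⟨(β v x)⁻¹ • x, by simp [hx]⟩

theorem card_orth (nd : ∀ v, (∀ w, β v w = 0) → v = 0) (X : Submodule K V) :
    Nat.card X * Nat.card (β.orthogonal X) = Nat.card V := by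
  have := Module.Finite.of_finite (R := K) (M := V)
  have a := LinearMap.BilinForm.finrank_add_finrank_orthogonal' (B := β) X
  rw [show LinearMap.ker β = ⊥ from eq_bot_iff.2 fun v hv => nd v (LinearMap.congr_fun hv), inf_bot_eq, finrank_bot, add_zero] at a
  rw [natCard_eq_pow_finrank (K := K) (V := X), natCard_eq_pow_finrank (K := K) (V := β.orthogonal X),
    natCard_eq_pow_finrank (K := K) (V := V), ← pow_add, a]

/-- the images of `X` under good transvections -/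
def Im (β : LinearMap.BilinForm K V) (c : K) (Gd : V → Prop) (X : Set V) : Set (Set V) := {Z | ∃ v, Gd v ∧ Z = tv β c v '' X}

theorem fib (hc : c ≠ 0) {X : Submodule K V} (ti : ∀ v ∈ X, ∀ w ∈ X, β v w = 0) {Gd : V → Prop} {A : Set V} (hA : ∀ x ∈ A, Gd x)
    (h : ∀ x0 ∈ A, ∃ v ∈ X, β v x0 = 1 ∧ ∀ x ∈ A, tv β c x '' X = tv β c x0 '' X → β v x = 1) :
    Nat.card K * A.ncard ≤ Nat.card X * (Im β c Gd X).ncard := by
  classical
  choose! v h1 h2 h3 using h
  let p : Set V → V := fun Z => Classical.epsilon fun x => x ∈ A ∧ tv β c x '' X = Z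
  have a : ∀ x ∈ A, p (tv β c x '' X) ∈ A ∧ tv β c (p (tv β c x '' X)) '' X = tv β c x '' X := fun x hx =>
    Classical.epsilon_spec (p := fun y => y ∈ A ∧ tv β c y '' X = tv β c x '' X) ⟨x, hx, rfl⟩
  have b : ∀ x ∈ A, ∃ y ∈ X, β y (p (tv β c x '' X)) = 1 ∧ tv β c (p (tv β c x '' X)) y = v (p (tv β c x '' X)) + c • x := by
    intro x hx
    obtain ⟨a1, a2⟩ := a x hx
    generalize p _ = z at a1 a2
    obtain ⟨y, hy, e⟩ := a2.ge ⟨_, h1 z a1, rfl⟩
    have d := h3 z a1 x hx a2.symm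
    have f := congrArg (β (v z)) e
    simp only [tv, map_add, map_smul, d, h2 z a1, ti _ (h1 z a1) _ hy, ti _ (h1 z a1) _ (h1 z a1), smul_eq_mul, mul_one,
      zero_add] at f
    exact ⟨y, hy, (mul_eq_left₀ hc).1 f, by rw [e, tv, d, mul_one]⟩
  choose! y b1 b2 b3 using b
  rw [← Nat.card_coe_set_eq, ← Nat.card_coe_set_eq, ← Nat.card_prod, ← Nat.card_prod]
  refine Nat.card_le_card_of_injective (fun x => (⟨y x.2 + x.1 • v (p (tv β c x.2 '' X)), add_mem (b1 _ x.2.2)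
    (X.smul_mem _ (h1 _ (a _ x.2.2).1))⟩, ⟨_, x.2, hA _ x.2.2, rfl⟩)) ?_
  rintro ⟨s, x, hx⟩ ⟨t, z, hz⟩ e
  simp only [Prod.mk.injEq, Subtype.mk.injEq] at e ⊢
  obtain ⟨e1, e2⟩ := e
  have d1 := b2 x hx
  have d2 := b3 x hx
  rw [e2] at e1 d1 d2
  have f := congrArg (β.flip (p (tv β c z '' X))) e1
  simp only [map_add, map_smul, LinearMap.BilinForm.flip_apply, d1, b2 z hz, h2 _ (a z hz).1, smul_eq_mul, mul_one,
    add_right_inj] at f
  subst f
  rw [add_left_inj] at e1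
  rw [e1, b3 z hz, add_right_inj] at d2
  exact ⟨rfl, (smul_right_injective V hc d2).symm⟩
end

section
variable {V : Type} [AddCommGroup V] [Module (ZMod 2) V] [Finite V] {β : LinearMap.BilinForm (ZMod 2) V} {Q : V → ZMod 2}

theorem z2 {a : ZMod 2} : a ≠ 0 ↔ a = 1 := by revert a; decide
theorem sym2 (alt : ∀ v, β v v = 0) (v w : V) : β v w = β w v := by
  rw [← LinearMap.IsAlt.neg alt, CharTwo.neg_eq]
theorem add2 (v : V) : v + v = 0 := by rw [← two_smul (ZMod 2), show (2 : ZMod 2) = 0 from rfl, zero_smul]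
theorem add2' {v w : V} : v + w = 0 ↔ v = w := by rw [← add_left_inj w, add_assoc, add2, add_zero, zero_add]

theorem ex_perp {W : Submodule (ZMod 2) V} (h : 8 ≤ Nat.card W) (a : V) : ∃ b ∈ W, β a b = 0 ∧ b ≠ 0 ∧ b ≠ a := by
  by_contra! c
  have d := fib_ge ((β a).toAddMonoidHom.comp W.subtype.toAddMonoidHom) 0
  have e := Set.ncard_le_ncard_of_injOn (s := {x | ((β a).toAddMonoidHom.comp W.subtype.toAddMonoidHom) x =
    ((β a).toAddMonoidHom.comp W.subtype.toAddMonoidHom) 0}) (t := {0, a}) Subtype.val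
      (fun x hx => or_iff_not_imp_left.2 (c x x.2 (by simpa using hx))) Subtype.val_injective.injOn
  have f := Set.ncard_insert_le (0 : V) {a}
  rw [Set.ncard_singleton] at f
  rw [Nat.card_zmod] at d
  omega

theorem ex_pair (nd : ∀ v, (∀ w, β v w = 0) → v = 0) {v u : V} (h1 : v ≠ 0) (h2 : u ≠ 0) (h3 : u ≠ v) (t : ZMod 2) :
    ∃ x, β v x = 1 ∧ β u x = t := by
  obtain ⟨x, hx⟩ := ex_one nd h1
  obtain ⟨y, hy⟩ := ex_one nd h2
  obtain ⟨z, hz⟩ := ex_one nd (mt add2'.1 h3)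
  by_contra! c
  have a1 := c x
  have a2 := c y
  have a3 := c z
  have a4 := c (x + y)
  have a5 := c (x + z)
  simp only [map_add, LinearMap.add_apply, hx, hy] at hz a1 a2 a3 a4 a5
  clear c
  revert hz a1 a2 a3 a4 a5
  generalize β u x = a, β v y = b, β u z = d, β v z = e
  revert a b d e t
  decide

variable (hQ : ∀ v w, Q (v + w) = Q v + Q w + β v w)
include hQ

theorem ex_good {W : Submodule (ZMod 2) V} {a b : V} (ha : a ∈ W) (hb : b ∈ W) (h : β a b ≠ 0) : ∃ w ∈ W, Q w = 1 := by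
  by_contra! c
  have a1 := c a ha
  have a2 := c b hb
  have a3 := c _ (add_mem ha hb)
  rw [hQ] at a3
  revert h a1 a2 a3
  generalize β a b = x, Q a = y, Q b = z
  revert x y z
  decide

theorem ex_sing {W : Submodule (ZMod 2) V} (h : 8 ≤ Nat.card W) : ∃ w ∈ W, w ≠ 0 ∧ Q w = 0 := by
  obtain ⟨a, a1, -, a2, -⟩ := ex_perp (β := β) h 0
  obtain ⟨b, b1, b2, b3, b4⟩ := ex_perp (β := β) h a
  by_contra! c
  have := c _ (add_mem a1 b1) (mt add2'.1 b4.symm)
  rw [hQ, z2.1 (c a a1 a2), z2.1 (c b b1 b3), b2] at this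
  exact this rfl

theorem good_cnt (alt : ∀ v, β v v = 0) (nd : ∀ v, (∀ w, β v w = 0) → v = 0) (h : 8 ≤ Nat.card V) {v : V} (hv : v ≠ 0) :
    Nat.card V ≤ 8 * {x | β v x = 1 ∧ Q x = 1}.ncard := by
  obtain ⟨u, -, b1, b2, b3⟩ := ex_perp (β := β) (W := ⊤) (by rwa [Nat.card_congr Submodule.topEquiv.toEquiv]) v
  obtain ⟨x, d1, d2⟩ := ex_pair nd hv b2 b3 (1 + Q u)
  have a := fib_ge ((β v).toAddMonoidHom.prod (β u).toAddMonoidHom) x
  have b := flip_le (A := {x | β v x = 1 ∧ Q x = 1}) (g := (· + u)) (B := {y | ((β v).toAddMonoidHom.prod (β u).toAddMonoidHom) y =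
      ((β v).toAddMonoidHom.prod (β u).toAddMonoidHom) x}) (fun y hy hn => by
    simp only [Set.mem_setOf_eq, AddMonoidHom.prod_apply, LinearMap.toAddMonoidHom_coe, d1, d2, Prod.mk.injEq, not_and] at hy hn ⊢
    rw [map_add, hQ, sym2 alt y, hy.1, hy.2, b1, add_zero, not_not.1 (mt z2.1 (hn hy.1)), zero_add, add_left_comm, CharTwo.add_self_eq_zero]
    exact ⟨rfl, rfl⟩) (add_left_injective u).injOn
  rw [Nat.card_prod, Nat.card_zmod] at a
  omega

theorem good_out (alt : ∀ v, β v v = 0) {X : Submodule (ZMod 2) V} (ti : ∀ v ∈ X, ∀ w ∈ X, β v w = 0) :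
    Nat.card V ≤ 2 * Nat.card (β.orthogonal X) + 2 * {x | x ∉ β.orthogonal X ∧ Q x = 1}.ncard := by
  classical
  let C := {x | ∀ h ∈ X, β h x = Q h}
  let g : V → V := fun x => Classical.epsilon fun h => h ∈ X ∧ β h x ≠ Q h
  have a : ∀ x ∉ C, g x ∈ X ∧ β (g x) x ≠ Q (g x) := fun x hx =>
    Classical.epsilon_spec (p := fun h => h ∈ X ∧ β h x ≠ Q h) (by simpa [C] using hx)
  have b := flip_le (A := {x | x ∉ β.orthogonal X ∧ Q x = 1}) (g := fun x => x + g x) (B := ((β.orthogonal X : Set V) ∪ C)ᶜ)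
    (fun x hx hn => by
      obtain ⟨d1, d2⟩ := not_or.1 hx
      obtain ⟨d3, d4⟩ := a x d2
      refine ⟨fun d => d1 ((Submodule.add_mem_iff_left (β.orthogonal X) fun h hh => ti h hh _ d3).1 d), ?_⟩
      rw [hQ, sym2 alt x, not_not.1 (mt z2.1 fun d => hn ⟨d1, d⟩)]
      revert d4
      generalize β (g x) x = s, Q (g x) = t
      revert s t
      decide) fun x hx y hy e => by
      have : g x = g y := congrArg Classical.epsilon (funext fun h => propext (and_congr_right fun hh => by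
        have := congrArg (β h) e
        simp only [map_add, ti h hh _ (a x (not_or.1 hx).2).1, ti h hh _ (a y (not_or.1 hy).2).1, add_zero] at this
        rw [this]))
      simpa [this] using e
  have d := Set.ncard_add_ncard_compl ((β.orthogonal X : Set V) ∪ C)
  have e := Set.ncard_union_le (β.orthogonal X : Set V) C
  have f : C.ncard ≤ (β.orthogonal X : Set V).ncard := by
    rcases C.eq_empty_or_nonempty with f | ⟨x, hx⟩
    · simp [f]
    · exact Set.ncard_le_ncard_of_injOn (· - x) (fun y hy h hh => by rw [map_sub, hy h hh, hx h hh, sub_self])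
        (sub_left_injective).injOn
  rw [← SetLike.coe_sort_coe, Nat.card_coe_set_eq]
  omega
end

variable {r k : ℕ} [Fact r.Prime] {β : LinearMap.BilinForm (ZMod r) (Fin k → ZMod r)} {Gd : (Fin k → ZMod r) → Prop}

theorem cardV : Nat.card (Fin k → ZMod r) = r ^ k := by simp [Nat.card_zmod]

theorem gd_mem (h : Dch β Gd) {W : Submodule (ZMod r) (Fin k → ZMod r)} {a b : _} (ha : a ∈ W) (hb : b ∈ W) (e : β a b ≠ 0) :
    ∃ w ∈ W, Gd w := by
  rcases h with h | ⟨rfl, Q, hQ, h⟩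
  · exact ⟨a, ha, (h a).2 (by rintro rfl; simp at e)⟩
  · simpa only [h] using ex_good hQ ha hb e

theorem lb0 {n : ℕ} {c : ZMod r} (alt : ∀ v, β v v = 0) (nd : ∀ v, (∀ w, β v w = 0) → v = 0) (hc : c ≠ 0) (h : Dch β Gd)
    (h6 : r = 2 → 6 ≤ k) (hn : n ^ 2 = r ^ k) {X : Submodule (ZMod r) (Fin k → ZMod r)} (h0 : X ≠ ⊥)
    (ti : ∀ v ∈ X, ∀ w ∈ X, β v w = 0) : n ≤ (Im β c Gd X).ncard + 2 := by
  obtain ⟨v, hv, v0⟩ := X.ne_bot_iff.1 h0
  have a1 := card_orth nd X
  have a2 : Nat.card X ≤ Nat.card (β.orthogonal X) := Nat.card_le_card_of_injective _ (Submodule.inclusion_injective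
    (show X ≤ β.orthogonal X from fun v hv w hw => ti w hw v hv))
  have a3 : Nat.card X ≤ n := by
    rw [cardV, ← hn] at a1
    exact Nat.pow_le_pow_iff_left two_ne_zero |>.1 (by nlinarith)
  have a4 : 0 < Nat.card X := Nat.card_pos
  rcases h with h | ⟨rfl, Q, hQ, h⟩
  · obtain ⟨x, hx⟩ := ex_one nd v0
    have b1 := fib_ge (β v).toAddMonoidHom x
    have b2 := fib hc ti (Gd := Gd) (A := {y | (β v).toAddMonoidHom y = (β v).toAddMonoidHom x}) (fun y hy => (h y).2 (by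
      rintro rfl; simp [hx] at hy)) fun y hy => ⟨v, hv, hy.trans hx, fun z hz _ => hz.trans hx⟩
    rw [cardV, ← hn] at b1
    nlinarith
  · have a5 : 64 ≤ n ^ 2 := hn ▸ Nat.pow_le_pow_right two_pos (h6 rfl)
    have a6 : 8 ≤ n := Nat.pow_le_pow_iff_left two_ne_zero |>.1 a5
    rw [cardV, ← hn] at a1
    rcases le_or_gt (Nat.card X) 3 with d | d
    · have b1 := good_cnt hQ alt nd (by rw [cardV, ← hn]; omega) v0
      have b2 := fib hc ti (Gd := Gd) (A := {x | β v x = 1 ∧ Q x = 1}) (fun y hy => (h y).2 hy.2)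
        fun y hy => ⟨v, hv, hy.1, fun z hz _ => hz.1⟩
      rw [cardV, ← hn] at b1
      rw [Nat.card_zmod] at b2
      by_contra! f
      nlinarith
    · have b1 := good_out hQ alt ti
      have b2 := fib hc ti (Gd := Gd) (A := {x | x ∉ β.orthogonal X ∧ Q x = 1}) (fun y hy => (h y).2 hy.2) fun y hy => by
        obtain ⟨w, hw, e⟩ : ∃ w ∈ X, β w y ≠ 0 := by simpa [LinearMap.BilinForm.mem_orthogonal_iff] using hy.1
        refine ⟨w, hw, z2.1 e, fun z hz f => z2.1 fun g => ?_⟩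
        obtain ⟨u, hu, g'⟩ := f.le ⟨w, hw, rfl⟩
        simp only [tv, g, mul_zero, zero_smul, add_zero] at g'
        by_cases g0 : β u y = 0
        · rw [g0, mul_zero, zero_smul, add_zero] at g'
          exact e (g' ▸ g0)
        · rw [z2.1 g0, z2.1 hc, mul_one, one_smul] at g'
          exact hy.1 fun s hs => ti s hs y ((X.add_mem_iff_right hu).1 (g' ▸ hw))
      rw [cardV, ← hn] at b1
      rw [Nat.card_zmod] at b2
      generalize Nat.card X = a, Nat.card (β.orthogonal X) = b, (Im β c Gd X).ncard = N at *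
      by_contra! f
      obtain ⟨s, rfl⟩ := Nat.exists_eq_add_of_le a3
      obtain ⟨t, rfl⟩ := Nat.exists_eq_add_of_le (show 4 ≤ a from d)
      have f1 : (4 + t) * (4 + t) * (N + 3) ≤ (4 + t) * (4 + t) * (4 + t + s) := Nat.mul_le_mul_left _ f
      have f2 : (2 + t) * b ≤ (4 + t) * N := by nlinarith
      have f3 := Nat.mul_le_mul_left (4 + t) f2
      have f4 : (4 + t) * ((2 + t) * b) = (2 + t) * (4 + t + s) ^ 2 := by rw [← a1]; ring
      nlinarith [Nat.zero_le (s * t), Nat.zero_le (s * s * t), Nat.zero_le (s * t * t), Nat.zero_le (s * s)]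

theorem tv_tv {c : ZMod r} (alt : ∀ v, β v v = 0) (v w : Fin k → ZMod r) : tv β (-c) v (tv β c v w) = w := by
  simp [tv, alt]

theorem lb : LB := by
  intro r k n _ β Gd c alt nd hc h h6 hn Y h0 ti
  obtain ⟨y, hy, y0⟩ := Y.ne_bot_iff.1 h0
  obtain ⟨x, hx⟩ := ex_one nd y0
  obtain ⟨v, -, hv⟩ := gd_mem h (W := ⊤) (a := y) (b := x) trivial trivial (hx ▸ one_ne_zero)
  let T : (Fin k → ZMod r) →ₗ[ZMod r] (Fin k → ZMod r) := LinearMap.id + ((-c) • β.flip v).smulRight v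
  have a : ∀ w, T w = tv β (-c) v w := fun w => rfl
  have := lb0 alt nd hc h h6 hn (X := Y.map T) (fun e => y0 (by
    have := tv_tv (c := -c) alt v y
    rwa [← a, show T y = 0 from e.le ⟨y, hy, rfl⟩, tv, map_zero, LinearMap.zero_apply, mul_zero, zero_smul, add_zero, eq_comm] at this))
    (by
      rintro _ ⟨s, hs, rfl⟩ _ ⟨t, ht, rfl⟩
      simp only [a, tv, map_add, map_smul, LinearMap.add_apply, LinearMap.smul_apply, ti s hs t ht, alt, smul_eq_mul,
        ← LinearMap.IsAlt.neg alt t v]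
      ring)
  refine ⟨v, hv, ?_⟩
  simpa only [Im, Submodule.map_coe, Set.image_image, a, Nat.card_coe_set_eq] using this

theorem ia : IA := by
  intro r k _ β Gd c alt nd hc h h6 Y h0 h1 hY
  have rf : β.IsRefl := LinearMap.IsAlt.isRefl alt
  have a0 := (LinearMap.BilinForm.isCompl_orthogonal_iff_disjoint (W := Y) rf).2 (Submodule.disjoint_def.2 fun x a b =>
    hY x a fun w hw => rf _ _ (b w hw))
  have a1 : ∀ u ∈ Y, u ≠ 0 → ∃ w ∈ Y, β u w ≠ 0 := fun u a b => by simpa using mt (hY u a) b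
  have a2 : ∀ u ∈ β.orthogonal Y, u ≠ 0 → ∃ w ∈ β.orthogonal Y, β u w ≠ 0 := fun u a b => by
    obtain ⟨x, hx⟩ := ex_one nd b
    obtain ⟨s, hs, t, ht, rfl⟩ := Submodule.mem_sup.1 (a0.sup_eq_top.ge (Submodule.mem_top (x := x)))
    exact ⟨t, ht, by rw [map_add, rf _ _ (a s hs), zero_add] at hx; exact hx ▸ one_ne_zero⟩
  obtain ⟨y, hy, y0⟩ := Y.ne_bot_iff.1 h0
  obtain ⟨z, hz, z0⟩ := (β.orthogonal Y).ne_bot_iff.1 fun e => h1 (by simpa [e] using a0.sup_eq_top)
  obtain ⟨y', hy', e1⟩ := a1 y hy y0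
  obtain ⟨v, hv, gv⟩ := gd_mem h hy hy' e1
  obtain ⟨s, hs, s0, t, ht, t0, g⟩ : ∃ s ∈ Y, s ≠ 0 ∧ ∃ t ∈ β.orthogonal Y, t ≠ 0 ∧ Gd (s + t) := by
    rcases h with h | ⟨rfl, Q, hQ, h⟩
    · exact ⟨y, hy, y0, z, hz, z0, (h _).2 fun e => y0 (Submodule.disjoint_def.1 a0.disjoint y hy
        (eq_neg_of_add_eq_zero_left e ▸ neg_mem hz))⟩
    · have q0 : Q 0 = 0 := by simpa using hQ 0 0
      have b1 := card_orth nd Y
      have b2 : 64 ≤ 2 ^ k := Nat.pow_le_pow_right two_pos (h6 rfl)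
      obtain ⟨z', hz', e2⟩ := a2 z hz z0
      obtain ⟨w, hw, gw⟩ := ex_good hQ hz hz' e2
      rw [h] at gv
      rw [cardV] at b1
      rcases show 8 ≤ Nat.card Y ∨ 8 ≤ Nat.card (β.orthogonal Y) by by_contra! f; nlinarith with f | f <;>
        obtain ⟨u, hu, u0, e⟩ := ex_sing hQ f
      · exact ⟨u, hu, u0, w, hw, by rintro rfl; simp [q0] at gw, by rw [h, hQ, e, gw, hw u hu]; rfl⟩
      · exact ⟨v, hv, by rintro rfl; simp [q0] at gv, u, hu, u0, by rw [h, hQ, e, gv, hu v hv]; rfl⟩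
  obtain ⟨w, hw, e⟩ := a1 s hs s0
  refine ⟨s + t, v, g, gv, tv β c v w, add_mem hw (Y.smul_mem _ hv), fun f => t0 ?_⟩
  rw [tv_tv alt, tv, Y.add_mem_iff_right hw, Y.smul_mem_iff (mul_ne_zero hc (by
    rw [map_add, ht w hw, add_zero]; exact mt (rf _ _) e)), Y.add_mem_iff_right hs] at f
  exact Submodule.disjoint_def.1 a0.disjoint t f ht

end H18.SB
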