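/-
Sims bound (S3694): the span of a group of symplectic type over a subfield.
-/
import Cfsg.Agent.H18.SB1
import Cfsg.Agent.H14.SM1

set_option autoImplicit false
set_option linter.unusedSectionVars false

namespace H18.SB
open H22.SB Matrix

universe u

section
variable {F A : Type} [Field F] [Ring A] [Algebra F A] {x y z : A} {ω : F} {r : ℕ}

theorem qpow (h : y * x = ω • (x * y)) (m : ℕ) : (x * y) ^ m = ω ^ m.choose 2 • (x ^ m * y ^ m) := by
  have a : ∀ m, y ^ m * x = ω ^ m • (x * y ^ m) := fun m => by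
    induction m with
    | zero => simp
    | succ m ih => rw [pow_succ', mul_assoc, ih, mul_smul_comm, ← mul_assoc, h, smul_mul_assoc, smul_smul, mul_assoc, pow_succ]
  induction m with
  | zero => simp
  | succ m ih =>
    rw [pow_succ, ih, smul_mul_assoc, mul_assoc, ← mul_assoc (y ^ m), a, smul_mul_assoc, mul_smul_comm, smul_smul, ← pow_add,
      Nat.choose_succ_succ' m 1, Nat.choose_one_right, add_comm m, mul_assoc, ← mul_assoc (x ^ m), ← pow_succ, ← pow_succ]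

theorem gs1 (h : x ^ r = 1) : x * ∑ j ∈ Finset.range r, x ^ j = ∑ j ∈ Finset.range r, x ^ j ∧
    (∑ j ∈ Finset.range r, x ^ j) * x = ∑ j ∈ Finset.range r, x ^ j :=
  ⟨by have := mul_geom_sum x r; rwa [h, sub_self, sub_mul, one_mul, sub_eq_zero] at this,
    by have := geom_sum_mul x r; rwa [h, sub_self, mul_sub, mul_one, sub_eq_zero] at this⟩

theorem gs2 (h : x * z = z) : (∑ j ∈ Finset.range r, x ^ j) * z = (r : F) • z := by
  have a : ∀ j, x ^ j * z = z := fun j => by induction j <;> simp [pow_succ, mul_assoc, *]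
  simp [Finset.sum_mul, a, Nat.cast_smul_eq_nsmul]

theorem gs3 (h : z * x = z) : z * ∑ j ∈ Finset.range r, x ^ j = (r : F) • z := by
  have a : ∀ j, z * x ^ j = z := fun j => by induction j <;> simp [pow_succ', ← mul_assoc, *]
  simp [Finset.mul_sum, a, Nat.cast_smul_eq_nsmul]

theorem gs0 (h1 : x * z = z) (h2 : z * x = z) (h : x * y = ω • (y * x)) (h3 : ω ≠ 1) : z * y * z = 0 := by
  have : (1 - ω) • (z * y * z) = 0 := by
    rw [sub_smul, one_smul, sub_eq_zero]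
    calc z * y * z = z * (x * y) * z := by rw [← mul_assoc, h2]
      _ = _ := by rw [h, mul_smul_comm, smul_mul_assoc, mul_assoc, mul_assoc, h1, mul_assoc]
  exact (smul_eq_zero.1 this).resolve_left (sub_ne_zero.2 h3.symm)
end

theorem gd_pair {r k : ℕ} [Fact r.Prime] {β : LinearMap.BilinForm (ZMod r) (Fin k → ZMod r)} {Gd : (Fin k → ZMod r) → Prop}
    (alt : ∀ v, β v v = 0) (nd : ∀ v, (∀ w, β v w = 0) → v = 0) (h : Dch β Gd) (hk : 3 ≤ k)
    {v : Fin k → ZMod r} (h0 : v ≠ 0) :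
    ∃ v w, Gd v ∧ Gd w ∧ β v w ≠ 0 := by
  obtain ⟨x, hx⟩ := ex_one nd h0
  rcases h with h | ⟨rfl, Q, hQ, h⟩
  · exact ⟨v, x, (h v).2 h0, (h x).2 (by rintro rfl; simp at hx), hx ▸ one_ne_zero⟩
  · obtain ⟨w, -, hw⟩ := ex_good hQ (W := ⊤) (a := v) (b := x) trivial trivial (hx ▸ one_ne_zero)
    have a : 8 ≤ Nat.card (Fin k → ZMod 2) := cardV (r := 2) ▸ Nat.pow_le_pow_right two_pos hk
    have b := good_cnt hQ alt nd a (v := w) (by rintro rfl; simpa [hw] using hQ 0 0)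
    obtain ⟨y, b1, b2⟩ := Set.nonempty_of_ncard_ne_zero (s := {x | β w x = 1 ∧ Q x = 1}) (by omega)
    exact ⟨w, y, (h w).2 hw, (h y).2 b2, b1 ▸ one_ne_zero⟩

theorem sub_map {F : Type} [Field F] [Finite F] (σ : RingAut F) {K : Subfield F} {x : F} (h : x ∈ K) : σ x ∈ K := by
  by_cases a : x = 0
  · simp [a]
  · have := NeZero.mk (orderOf_pos (Units.mk0 x a)).ne'
    obtain ⟨i, -, e⟩ := (IsPrimitiveRoot.coe_units_iff.2 (IsPrimitiveRoot.orderOf (Units.mk0 x a))).eq_pow_of_pow_eq_one (ξ := σ x)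
      (by rw [← map_pow, show x ^ _ = 1 from congrArg Units.val (pow_orderOf_eq_one (Units.mk0 x a)), map_one])
    exact e ▸ pow_mem h i

variable {F : Type} [Field F] [Fintype F] {Φ : Fm F} {G : Type u} [Group G] [Finite G] {n : ℕ} {X : Cx Φ G n} {E : Ex X}
  {x y : Mat n F} {v w : Fin E.k → ZMod X.r} {K : Subfield F}

variable (E) in
/-- normalized elements of the class `v` -/
def Cl (x : Mat n F) (v : Fin E.k → ZMod X.r) : Prop :=
  (∃ s ∈ X.R, E.ν s = v ∧ ∃ a, Φ.Mu a ∧ x = a • mt s) ∧ x ^ rr X.r = 1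

theorem Cl.e1 (h : Cl E x v) : x ∈ X.E1 := ⟨h.1.imp fun _ a => ⟨a.1, a.2.2⟩, h.2⟩
variable (E) in
theorem ex_cl (h : x ∈ X.E1) : ∃ v, Cl E x v := have ⟨s, a, b⟩ := h.1; ⟨_, ⟨s, a, rfl, b⟩, h.2⟩
theorem nz_cl (h : X.Nz) {s : Φ.S (Fin n)} (hs : s ∈ X.R) : ∃ a, Φ.Mu a ∧ Cl E (a • mt s) (E.ν s) :=
  (h s hs).imp fun a b => ⟨b.1, ⟨s, hs, rfl, a, b.1, rfl⟩, b.2⟩
theorem Cl.cm0 (h : Cl E x v) {s : Φ.S (Fin n)} (hs : s ∈ X.R) : x * mt s = E.ζ ^ (E.β v (E.ν s)).val • (mt s * x) := by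
  obtain ⟨⟨t, ht, rfl, a, -, rfl⟩, -⟩ := h
  rw [smul_mul_assoc, E.cm t ht s hs, mul_smul_comm, smul_comm]
theorem Cl.cm (h : Cl E x v) (h' : Cl E y w) : x * y = E.ζ ^ (E.β v w).val • (y * x) := by
  obtain ⟨⟨t, ht, rfl, a, -, rfl⟩, -⟩ := h'
  rw [mul_smul_comm, h.cm0 ht, smul_mul_assoc, smul_comm]
theorem om_ne {b : ZMod X.r} (h : b ≠ 0) : E.ζ ^ b.val ≠ 1 :=
  E.hζ.pow_ne_one_of_pos_of_lt (mt (ZMod.val_eq_zero b).1 h) (ZMod.val_lt b)
theorem Cl.mul (h : Cl E x v) (h' : Cl E y w) : Cl E (x * y) (v + w) := by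
  refine ⟨?_, ?_⟩
  · obtain ⟨⟨s, hs, rfl, a, ha, rfl⟩, -⟩ := h
    obtain ⟨⟨t, ht, rfl, b, hb, rfl⟩, -⟩ := h'
    exact ⟨_, mul_mem hs ht, E.νm s hs t ht, _, ha.mul hb, smul_mul_smul_comm ..⟩
  · rw [qpow (h'.cm h), h.2, h'.2, ← pow_mul, (E.hζ.pow_eq_one_iff_dvd _).2 (Dvd.dvd.mul_left ?_ _), one_mul, one_smul]
    unfold rr
    split_ifs with a
    · rw [a]; decide
    · exact X.rp.dvd_choose_self two_ne_zero (X.rp.two_le.lt_of_ne' a)
theorem Cl.one : Cl E 1 0 := ⟨⟨1, one_mem _, (E.νk 1 (one_mem _)).2 sc_one, 1, Φ.mu_one, (one_smul ..).symm⟩, one_pow _⟩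
theorem Cl.pow (h : Cl E x v) (m : ℕ) : Cl E (x ^ m) (m • v) := by
  induction m with
  | zero => simpa using Cl.one
  | succ m ih => rw [pow_succ, succ_nsmul]; exact ih.mul h
theorem smul_one_inj {a b : F} (X : Cx Φ G n) (h : a • (1 : Mat n F) = b • 1) : a = b :=
  have ⟨i⟩ := X.ne; by simpa using congrFun (congrFun h i) i
theorem Cl.sc (h : Cl E x 0) : ∃ a, Φ.Mu a ∧ a ^ rr X.r = 1 ∧ x = a • 1 := by
  obtain ⟨⟨s, hs, e, a, ha, rfl⟩, h⟩ := h
  obtain ⟨b, hb⟩ := (E.νk s hs).1 e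
  have := X.ne
  rw [hb, smul_smul] at h ⊢
  exact ⟨_, ha.mul (sc_Mu hb), smul_one_inj X (by rwa [smul_pow, one_pow, ← one_smul F (1 : Mat n F), smul_smul, mul_one] at h), rfl⟩
theorem Cl.tr0 (h : Cl E x v) (h0 : v ≠ 0) : x.trace = 0 := by
  obtain ⟨w, hw⟩ := ex_one E.nd h0
  obtain ⟨s, hs, rfl⟩ := E.νs w
  have a := congrArg (fun y => (mt s⁻¹ * y).trace) (h.cm0 hs)
  simp only [mul_smul_comm, trace_smul, ← mul_assoc, mt_inv_mul, one_mul] at a
  rw [trace_mul_cycle, mt_mul_inv, one_mul, smul_eq_mul, eq_comm] at a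
  exact by_contra fun b => om_ne (E := E) (hw ▸ one_ne_zero) ((mul_eq_right₀ b).1 a)
theorem Cl.inv (h : Cl E x v) : ∃ y, Cl E y (-v) ∧ y * x = 1 ∧ x * y = 1 ∧ (Φ.u → Φ.adj x = y ∧ Φ.adj y = x) := by
  obtain ⟨m, hm⟩ : ∃ m, rr X.r = m + 1 := ⟨rr X.r - 1, by have := X.rp.two_le; unfold rr; split_ifs <;> omega⟩
  have a := h.2
  have b := (h.pow m).mul h
  rw [hm] at a
  rw [← pow_succ, a] at b
  have d : m • v + v = 0 := by_contra fun d => by
    obtain ⟨w, hw⟩ := ex_one E.nd d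
    obtain ⟨s, hs, rfl⟩ := E.νs w
    have := congrArg (· * mt s⁻¹) (b.cm0 hs)
    simp only [one_mul, mul_one, smul_mul_assoc, mt_mul_inv] at this
    exact om_ne (E := E) (hw ▸ one_ne_zero) (smul_one_inj X (this.symm.trans (one_smul ..).symm))
  refine ⟨x ^ m, eq_neg_of_add_eq_zero_left d ▸ h.pow m, (pow_succ ..).symm.trans a, (pow_succ' ..).symm.trans a, fun hu => ?_⟩
  have e : Φ.adj x = x ^ m := by
    have : Φ.adj x * x = 1 := by
      obtain ⟨⟨s, -, -, c, hc, rfl⟩, -⟩ := h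
      rw [Φ.adj_smul, smul_mul_smul_comm, mt_adj hu, mt_inv_mul, mul_comm, (Φ.mu_U hu).1 hc, one_smul]
    rw [← mul_one (Φ.adj x), ← a, pow_succ', ← mul_assoc, this, one_mul]
  exact ⟨e, by rw [← e, Φ.adj_adj]⟩

theorem sp_map {A : Type} [AddGroup A] (φ : Mat n F →+ A) {T : AddSubgroup A} (h : ∀ b ∈ K, ∀ x ∈ X.E1, φ (b • x) ∈ T)
    (hx : x ∈ X.Sp K) : φ x ∈ T :=
  ((AddSubgroup.closure_le (T.comap φ)).2 (by rintro _ ⟨b, hb, x, hx, rfl⟩; exact h b hb x hx)) hx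
theorem sp_gen {b : F} (hb : b ∈ K) (hx : x ∈ X.E1) : b • x ∈ X.Sp K := AddSubgroup.subset_closure ⟨b, hb, x, hx, rfl⟩
theorem Cl.sp (h : Cl E x v) : x ∈ X.Sp K := one_smul F x ▸ sp_gen (one_mem _) h.e1
variable (E) in
include E in
theorem sp_mul (hx : x ∈ X.Sp K) (hy : y ∈ X.Sp K) : x * y ∈ X.Sp K :=
  sp_map (AddMonoidHom.mulRight y) (fun b hb g hg => sp_map (AddMonoidHom.mulLeft (b • g)) (fun c hc f hf => by
    obtain ⟨_, a⟩ := ex_cl E hg
    obtain ⟨_, d⟩ := ex_cl E hf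
    simpa [smul_smul] using sp_gen (mul_mem hc hb) (a.mul d).e1) hy) hx
variable (E) in
include E in
theorem sp_smul {b : F} (hb : b ∈ K) (hx : x ∈ X.Sp K) : b • x ∈ X.Sp K := by
  simpa using sp_mul E (sp_gen hb (Cl.one (E := E)).e1) hx
variable (E) in
include E in
theorem sp_tr (ok : Ok Φ X.r K) (hx : x ∈ X.Sp K) : x.trace ∈ K :=
  sp_map (traceAddMonoidHom _ F) (T := K.toAddSubgroup) (fun b hb g hg => by
    obtain ⟨v, a⟩ := ex_cl E hg
    by_cases d : v = 0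
    · obtain ⟨c, d1, d2, rfl⟩ := (d ▸ a).sc
      simpa using mul_mem hb (mul_mem (ok c d1 d2) (natCast_mem K n))
    · simp [a.tr0 d]) hx
theorem e1_th {h : G} (hh : h ∈ X.H) (hx : x ∈ X.E1) : X.th h x ∈ X.E1 := by
  obtain ⟨⟨s, hs, a, ha, rfl⟩, e⟩ := hx
  obtain ⟨t, ht, b, -⟩ := X.thR hh hs
  exact ⟨⟨t, ht, _, ha.map (X.σ h), by rw [X.th_smul, b]⟩, by rw [← X.th_pow, e, X.th_one]⟩

theorem n_ne (hn : n ^ 2 = X.r ^ E.k) : (n : F) ≠ 0 := fun h => by
  have := E.hζ.neZero'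
  have a := congrArg (Nat.cast (R := F)) hn
  rw [Nat.cast_pow, Nat.cast_pow, h, zero_pow two_ne_zero] at a
  exact pow_ne_zero _ (NeZero.ne _) a.symm

theorem en : EN.{u} := by
  intro F _ _ Φ G _ _ n X E hn nz h K ok
  have := Φ.ch
  have := NeZero.mk Φ.pp.ne_zero
  have r0 : (X.r : F) ≠ 0 := E.hζ.neZero'.out
  obtain ⟨a, b, ab⟩ := CharP.sq_add_sq F Φ.p (-1)
  obtain ⟨s, hs, s0⟩ := X.Rne
  replace s0 := mt (E.νk s hs).1 s0
  obtain ⟨w, hw⟩ := ex_one E.nd s0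
  obtain ⟨t, ht, rfl⟩ := E.νs w
  obtain ⟨c, -, hx⟩ := nz_cl (E := E) nz hs
  obtain ⟨d, -, hy⟩ := nz_cl (E := E) nz ht
  replace hw : E.β (E.ν s) (E.ν t) ≠ 0 := hw ▸ one_ne_zero
  generalize c • mt s = x, d • mt t = y, E.ν s = v, E.ν t = w at *
  push_cast at ab
  by_cases h2 : X.r = 2
  · have q : ∀ {x v}, Cl E x v → ∃ s : F, (s = 1 ∨ s = -1) ∧ x * x = s • 1 := fun {x v} hx => by
      have e := hx.pow X.r
      rw [← Nat.cast_smul_eq_nsmul (ZMod X.r), ZMod.natCast_self, zero_smul] at e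
      obtain ⟨s, -, -, e⟩ := e.sc
      have f := hx.2
      rw [h2, sq] at e
      rw [h2, show rr 2 = 2 * 2 from rfl, pow_mul, sq x, e, smul_pow, one_pow] at f
      exact ⟨s, sq_eq_one_iff.1 (smul_one_inj X (f.trans (one_smul ..).symm)), e⟩
    obtain ⟨x, y, v, w, hx, hy, hw, hu⟩ : ∃ x y v w, Cl E x v ∧ Cl E y w ∧ E.β v w ≠ 0 ∧ (Φ.u → x * x = -1 ∧ y * y = -1) := by
      by_cases hu : Φ.u
      · obtain ⟨v, w, ⟨-, s, hs, rfl, c, hc, e1⟩, ⟨-, t, ht, rfl, d, hd, e2⟩, e⟩ := gd_pair E.alt E.nd h (by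
          by_contra! f
          have := Nat.pow_le_pow_right two_pos (Nat.le_of_lt_succ f)
          have := X.u3 hu
          rw [h2] at hn
          nlinarith) s0
        rw [if_pos h2] at e1 e2
        rw [h2] at e1 e2
        exact ⟨_, _, _, _, ⟨⟨s, hs, rfl, c, hc, rfl⟩, by rw [h2, show rr 2 = 2 * 2 from rfl, pow_mul, e1, neg_one_sq]⟩,
          ⟨⟨t, ht, rfl, d, hd, rfl⟩, by rw [h2, show rr 2 = 2 * 2 from rfl, pow_mul, e2, neg_one_sq]⟩, e,
            fun _ => ⟨(sq _).symm.trans e1, (sq _).symm.trans e2⟩⟩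
      · exact ⟨x, y, v, w, hx, hy, hw, fun f => (hu f).elim⟩
    obtain ⟨s, s1, xx⟩ := q hx
    obtain ⟨t, t1, yy⟩ := q hy
    have xy := hx.cm hy
    rw [(sq_eq_one_iff.1 (by rw [← pow_mul, mul_comm, pow_mul, ← h2, E.hζ.pow_eq_one, one_pow])).resolve_left (om_ne hw),
      neg_smul, one_smul, ← neg_eq_iff_eq_neg, eq_comm] at xy
    have f1 : ∀ z, x * (x * z) = s • z := fun z => by rw [← mul_assoc, xx, smul_one_mul]
    have f2 : ∀ z, y * (y * z) = t • z := fun z => by rw [← mul_assoc, yy, smul_one_mul]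
    have f3 : ∀ z, y * (x * z) = -(x * (y * z)) := fun z => by rw [← mul_assoc, xy, neg_mul, mul_assoc]
    obtain ⟨a, b, e⟩ : ∃ a b : ℕ, (a : F) ^ 2 * s + (b : F) ^ 2 * t = s * t := by
      rcases s1 with rfl | rfl
      · exact ⟨0, 1, by simp⟩
      rcases t1 with rfl | rfl
      · exact ⟨1, 0, by simp⟩
      · exact ⟨a, b, by linear_combination -ab⟩
    refine ⟨(a : F) • x + (b : F) • y + x * y, add_mem (add_mem (sp_gen (natCast_mem K a) hx.e1) (sp_gen (natCast_mem K b) hy.e1))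
      (hx.mul hy).sp, fun f => ?_, ?_, fun f => ?_⟩
    · have g := congrArg (fun z => x * y * z + z * (x * y)) f
      simp only [mul_add, add_mul, mul_smul_comm, smul_mul_assoc, mul_assoc, f1, f2, f3, xx, yy, xy, mul_neg, mul_one, mul_zero,
        zero_mul, add_zero] at g
      have := smul_one_inj X (a := 2 * (s * t)) (b := 0) (by linear_combination (norm := module) -g)
      rw [h2] at r0
      rcases s1 with rfl | rfl <;> rcases t1 with rfl | rfl <;> simp [show (2 : F) ≠ 0 from r0] at this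
    · simp only [mul_add, add_mul, mul_smul_comm, smul_mul_assoc, mul_assoc, f1, f2, f3, xx, yy, xy, mul_neg, mul_one]
      linear_combination (norm := module) e • (1 : Mat n F)
    · obtain ⟨x', -, -, g1, g2⟩ := hx.inv
      obtain ⟨y', -, -, g3, g4⟩ := hy.inv
      have k : ∀ {x y : Mat n F}, x * x = -1 → x * y = 1 → y = -x := fun {x y} k1 k2 => by
        rw [← neg_neg y, ← neg_one_mul y, ← k1, mul_assoc, k2, mul_one]
      simp only [Φ.adj_add, Φ.adj_smul, Φ.adj_mul, (g2 f).1, (g4 f).1, k (hu f).1 g1, k (hu f).2 g3, map_natCast, neg_mul_neg, xy]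
      module
  · have r2 : rr X.r = X.r := if_neg h2
    have t0 : (2 : ZMod X.r) ≠ 0 := fun f => h2 ((Nat.prime_dvd_prime_iff_eq X.rp Nat.prime_two).1
      ((ZMod.natCast_eq_zero_iff 2 _).1 f))
    obtain ⟨x', hx', g1, g2, g3⟩ := hx.inv
    obtain ⟨y', hy', g4, g5, g6⟩ := hy.inv
    obtain ⟨e1, e2⟩ := gs1 (r2 ▸ hx.2)
    obtain ⟨e3, e4⟩ := gs1 (r2 ▸ hx'.2)
    have e5 := gs2 (F := F) (r := X.r) e1
    have e6 : Φ.u → Φ.adj (∑ j ∈ Finset.range X.r, x ^ j) = ∑ j ∈ Finset.range X.r, x ^ j := fun f => by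
      simp only [Φ.adj_sum, Φ.adj_pow, (g3 f).1]
      exact smul_right_injective _ r0 ((gs3 (by rw [← e4, mul_assoc, g1, mul_one, e4])).symm.trans
        (gs2 (by rw [← e1, ← mul_assoc, g1, one_mul, e1])))
    have e7 : ∑ j ∈ Finset.range X.r, x ^ j ∈ X.Sp K := sum_mem fun j _ => (hx.pow j).sp
    have e8 : ∑ j ∈ Finset.range X.r, x ^ j ≠ 0 := fun f => n_ne hn (by
      have := congrArg trace f
      rwa [trace_sum, Finset.sum_eq_single_of_mem 0 (Finset.mem_range.2 X.rp.pos) fun j j1 j2 => (hx.pow j).tr0 (by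
        rw [← Nat.cast_smul_eq_nsmul (ZMod X.r)]
        exact smul_ne_zero (mt (ZMod.natCast_eq_zero_iff _ _).1 (Nat.not_dvd_of_pos_of_lt (Nat.pos_of_ne_zero j2)
          (Finset.mem_range.1 j1))) s0), pow_zero, trace_one, Fintype.card_fin, trace_zero] at this)
    generalize ∑ j ∈ Finset.range X.r, x ^ j = e at *
    have z : ∀ {y w}, Cl E y w → E.β v w ≠ 0 → e * (y * e) = 0 := fun f g => (mul_assoc ..).symm.trans
      (gs0 e1 e2 (hx.cm f) (om_ne g))
    have z1 := z hy hw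
    have z2 := z (hy.mul hy) (by rw [map_add, ← two_mul]; exact mul_ne_zero t0 hw)
    have z3 := z hy' (by rwa [map_neg, neg_ne_zero])
    have z4 := z (hy'.mul hy') (by rw [map_add, ← two_mul, map_neg]; exact mul_ne_zero t0 (neg_ne_zero.2 hw))
    rw [mul_assoc] at z2 z4
    have f1 : ∀ z, y' * (y * z) = z := fun z => by rw [← mul_assoc, g4, one_mul]
    have m1 := ok _ E.ζm (by rw [r2, E.hζ.pow_eq_one])
    have sp : ∀ {y w}, Cl E y w → 1 + (a : F) • y + (b : F) • (y * y) ∈ X.Sp K := fun f =>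
      add_mem (add_mem (Cl.one (E := E)).sp (sp_gen (natCast_mem K a) f.e1)) (sp_gen (natCast_mem K b) (f.mul f).e1)
    have k1 : e * ((1 + (a : F) • y + (b : F) • (y * y)) * e) = (X.r : F) • e := by simp [mul_add, add_mul, mul_assoc, z1, z2, e5]
    have k2 : e * ((1 + (a : F) • y' + (b : F) • (y' * y')) * e) = (X.r : F) • e := by simp [mul_add, add_mul, mul_assoc, z3, z4, e5]
    have k3 : e * ((1 + (a : F) • y' + (b : F) • (y' * y')) * ((1 + (a : F) • y + (b : F) • (y * y)) * e)) = 0 := by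
      simp only [mul_add, add_mul, mul_assoc, mul_smul_comm, smul_mul_assoc, one_mul, f1, z1, z2, z3, z4]
      linear_combination (norm := module) ab • (e * e)
    have k4 : Φ.u → Φ.adj (1 + (a : F) • y + (b : F) • (y * y)) = 1 + (a : F) • y' + (b : F) • (y' * y') := fun f => by
      simp only [Φ.adj_add, Φ.adj_smul, Φ.adj_mul, Φ.adj_one, (g6 f).1, map_natCast]
    have k5 := sp hy
    have k6 := sp hy'
    generalize 1 + (a : F) • y + (b : F) • (y * y) = p, 1 + (a : F) • y' + (b : F) • (y' * y') = p' at *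
    refine ⟨(E.ζ - E.ζ⁻¹) • (p * (e * p')), sp_smul E (sub_mem m1 (inv_mem m1)) (sp_mul E k5 (sp_mul E e7 k6)), fun f => ?_, ?_,
      fun f => ?_⟩
    · have g := congrArg (fun z => e * z * e) ((smul_eq_zero.1 f).resolve_left fun g => om_ne (E := E) t0 (by
        rw [ZMod.val_two_eq_two_mod, Nat.mod_eq_of_lt (X.rp.two_le.lt_of_ne' h2), sq]
        exact (mul_eq_one_iff_eq_inv₀ E.ζm.ne).2 (sub_eq_zero.1 g)))
      simp only [mul_assoc, mul_zero, zero_mul] at g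
      rw [k2, mul_smul_comm, mul_smul_comm, k1] at g
      simp [r0, e8] at g
    · rw [smul_mul_smul_comm, mul_assoc, mul_assoc, ← mul_assoc p e p', ← mul_assoc p', ← mul_assoc e, k3]
      simp
    · rw [Φ.adj_smul, Φ.adj_mul, Φ.adj_mul, e6 f, k4 f, ← k4 f, Φ.adj_adj, k4 f, mul_assoc, map_sub, map_inv₀,
        eq_inv_of_mul_eq_one_right ((Φ.mu_U f).1 E.ζm), inv_inv, ← neg_smul, neg_sub]

theorem eq (ec : EC.{u}) : EQ.{u} := by
  intro F _ _ Φ G _ _ n X E ab nz h K ok ⟨c0, c1, c2⟩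
  obtain ⟨hn, li, -⟩ := ec F Φ G n X E ab
  obtain ⟨N, hN, N0, NN, Nu⟩ := en F Φ G n X E hn nz h K ok
  have n0 := n_ne hn
  have a1 : ∀ c, Φ.c c = c → ∃ m : Φ.S (Fin n), mt m = 1 + c • N ∧ mt m⁻¹ = 1 - c • N := fun c hc =>
    ⟨H14.SM.un Φ (N := c • N) (by simp [NN]) fun f => by rw [Φ.adj_smul, Nu f, hc, smul_neg], rfl, H14.SM.un_inv ..⟩
  choose! m m1 m2 using a1
  obtain ⟨s, hs, s0⟩ : ∃ s ∈ X.R, N * mt s ≠ mt s * N := by
    by_contra! f
    obtain ⟨a, rfl⟩ := ab N f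
    rw [smul_mul_smul_comm, one_mul, ← zero_smul F 1] at NN
    simp [mul_self_eq_zero.1 (smul_one_inj X NN)] at N0
  obtain ⟨a, ha, hx⟩ := nz_cl (E := E) nz hs
  replace s0 : N * a • mt s - a • mt s * N ≠ 0 := by
    rw [mul_smul_comm, smul_mul_assoc, ← smul_sub]
    exact smul_ne_zero ha.ne (sub_ne_zero.2 s0)
  generalize a • mt s = x, E.ν s = v at *
  have a2 : ∀ c, Φ.c c = c → mt (m c) * x * mt (m c)⁻¹ = x + c • (N * x - x * N) - c ^ 2 • (N * x * N) := fun c hc => by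
    simp only [m1 c hc, m2 c hc, mul_sub, add_mul, mul_smul_comm, smul_mul_assoc, one_mul, mul_one]
    module
  by_contra f
  obtain ⟨t, ⟨t1, t2⟩, t3⟩ : ∃ t ∈ {a | a ∈ K ∧ Φ.c a = a}, t ∉ ({0, 1, -1} : Set F) := Set.not_subset.1 fun g => f (by
    have := Set.ncard_le_ncard g
    have := Set.ncard_insert_le (0 : F) {1, -1}
    have := Set.ncard_insert_le (1 : F) {-1}
    rw [Set.ncard_singleton] at this
    rw [Nat.card_coe_set_eq]
    omega)
  simp only [Set.mem_insert_iff, Set.mem_singleton_iff, not_or] at t3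
  have b1 := sub_mem (sp_mul E hN hx.sp) (sp_mul E hx.sp hN)
  have b2 := sp_mul E (sp_mul E hN hx.sp) hN
  have pr : Pr Φ (X.Sp K : Set (Mat n F)) := by
    by_contra g
    obtain ⟨y, hy, y0⟩ : ∃ y ∈ X.Sp K, (y * (N * x - x * N)).trace ≠ 0 := by
      by_contra! d
      choose ρ ρ1 ρ2 using E.νs
      have d1 := (li ρ fun v => ⟨ρ1 v, ρ2 v⟩).span_eq_top_of_card_eq_finrank' (by simp [Module.finrank_matrix, ← hn, sq])
      have d2 : ⊤ ≤ LinearMap.ker ((traceLinearMap _ F F).comp (LinearMap.mulRight F (N * x - x * N))) := d1 ▸ Submodule.span_le.2 (by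
        rintro _ ⟨w, rfl⟩
        obtain ⟨b, hb, d3⟩ := nz_cl (E := E) nz (ρ1 w)
        simpa [hb.ne] using d _ d3.sp)
      exact s0 (ext_iff_trace_mul_left.2 fun y => (d2 (Submodule.mem_top (x := y))).trans (by simp))
    have d : ∀ c, Φ.c c = c → c * (y * (N * x - x * N)).trace - c ^ 2 * (y * (N * x * N)).trace ∈ K := fun c hc => by
      have := sub_mem ((mem_St.1 (not_not.1 (not_exists.1 g (m c))) x).1 hx.sp) hx.sp
      rw [← mt_inv, a2 c hc, add_sub_right_comm, add_sub_right_comm, sub_sub_cancel_left, neg_add_eq_sub] at this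
      simpa only [mul_sub y (c • _), mul_smul_comm, trace_sub, trace_smul, smul_eq_mul] using sp_tr E ok (sp_mul E hy this)
    have d1 := sp_tr E ok (sp_mul E hy b1)
    have d2 := div_mem (sub_mem (mul_mem (pow_mem t1 2) (d c0 c1)) (d (t * c0) (by rw [map_mul, t2, c1])))
      (mul_mem (mul_mem t1 (sub_mem t1 (one_mem K))) d1)
    refine c2 (by
      convert d2
      rw [eq_div_iff (mul_ne_zero (mul_ne_zero t3.1 (sub_ne_zero.2 t3.2.1)) y0)]
      ring)
  have iv : X.Inv (X.Sp K : Set (Mat n F)) := fun g hg y hy => sp_map (X.thA g) (fun b hb z hz =>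
    show X.th g (b • z) ∈ _ from (X.th_smul g b z).symm ▸ sp_gen (sub_map _ hb) (e1_th hg hz)) hy
  obtain ⟨x', hx', g1, g2, -⟩ := hx.inv
  have key : ∀ c ∈ K, Φ.c c = c → c ≠ 0 → c ^ 2 * (x' * (N * x * N)).trace = n := fun c k1 k2 k3 => by
    have d := e1_th ((X.MX iv pr (m c)).2 (mem_St_of_maps fun y hy => by
      rw [← mt_inv, m2 c k2, show ((m c).1 : Mat n F) = _ from m1 c k2]
      exact sp_mul E (sp_mul E (add_mem (Cl.one (E := E)).sp (sp_smul E k1 hN)) hy)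
        (sub_mem (Cl.one (E := E)).sp (sp_smul E k1 hN)))) hx.e1
    rw [X.th_pi, a2 c k2] at d
    obtain ⟨w, d⟩ := ex_cl E d
    by_cases e : -v + w = 0
    · obtain ⟨l, -, -, e⟩ := (e ▸ hx'.mul d).sc
      have e1 := congrArg (x * ·) e
      simp only [← mul_assoc, g2, one_mul, mul_smul_comm, mul_one] at e1
      have e2 := congrArg (N * · * N) e1
      have e3 := congrArg (N * ·) e1
      have e4 := congrArg (· * N) e1
      have f1 : ∀ z, N * (N * z) = 0 := fun z => by rw [← mul_assoc, NN, zero_mul]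
      simp only [mul_add, mul_sub, add_mul, sub_mul, mul_smul_comm, smul_mul_assoc, mul_assoc, NN, f1, mul_zero, smul_zero, sub_zero,
        add_zero, zero_sub, neg_mul, neg_zero] at e2 e3 e4
      by_cases l1 : l = 1
      · rw [l1, one_smul] at e1 e3
        have e5 : N * (x * N) = 0 := (smul_eq_zero.1 (show c • (N * (x * N)) = 0 by
          linear_combination (norm := module) -e3)).resolve_left k3
        rw [mul_assoc, e5] at e1
        exact (s0 ((smul_eq_zero.1 (show c • (N * x - x * N) = 0 by linear_combination (norm := module) e1)).resolve_left k3)).elim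
      · have e5 : N * (x * N) = 0 := (smul_eq_zero.1 (show (1 - l) • (N * (x * N)) = 0 by
          linear_combination (norm := module) e2)).resolve_left (sub_ne_zero.2 (Ne.symm l1))
        rw [e5] at e4
        have e6 : x * N = 0 := (smul_eq_zero.1 (show (1 - l) • (x * N) = 0 by
          linear_combination (norm := module) e4)).resolve_left (sub_ne_zero.2 (Ne.symm l1))
        exact (N0 (by rw [← one_mul N, ← g1, mul_assoc, e6, mul_zero])).elim
    · have e1 := (hx'.mul d).tr0 e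
      rw [mul_sub, mul_add, mul_smul_comm, mul_smul_comm, mul_sub, ← mul_assoc x' x, g1, one_mul, trace_sub, trace_add, trace_smul,
        trace_smul, trace_sub, ← mul_assoc x' N, trace_mul_cycle x', g2, one_mul, sub_self, smul_zero, trace_one, Fintype.card_fin] at e1
      linear_combination (norm := simp) -e1
  have k1 := key 1 (one_mem K) (map_one _) one_ne_zero
  have k2 := key t t1 t2 t3.1
  rw [one_pow, one_mul] at k1
  rw [k1, mul_eq_right₀ n0, sq_eq_one_iff] at k2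
  exact k2.elim t3.2.1 t3.2.2

end H18.SB
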