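/-
Unbalancing triples (S3123): models of the untwisted groups.
-/
import Cfsg.Agent.H27.UA0
import Cfsg.Agent.H27.LB13
import Cfsg.Agent.H18.EF3

set_option autoImplicit false
set_option linter.unusedSectionVars false
set_option maxRecDepth 100000

namespace H18.UK
open Cfsg H14 H14.RootSys H14.St H14.PreSt H14.St.Tw H11 H27.ID Function H27.LB H27.UA H18.EF H8.TB Cfsg.Lie Matrix
open H27.BL (Wk.sw dich_of)

section
variable {ι κ : Type} [Fintype κ] [DecidableEq κ] [Fintype ι] [DecidableEq ι] {R : RootSys ι κ}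
  {C : Chev R} {F G Γ : Type} [Field F] [Fintype F] [Group G] [Group Γ] {S : St C F G} {p : ℕ} [hp : Fact p.Prime] [CharP F p]

section
variable [Finite G] {K G' : Type} [Field K] [IsAlgClosed K] [CharP K p] [Group G'] {S' : St C K G'} {e : G →* G'} {γ : F →+* K} {f : ℕ}
  (Y : Sys S S' p e γ f) (hC : COk C.toPreChev)
include Y hC
theorem mo : Mo (Y.alg.fr Y.pos) p e (MonoidHom.id G) :=
  ⟨Wk.sw ⟨Y.alg, hC⟩ fun _ => id, Y.ad.conn, sys_em Y, surjective_id, by rw [Y.ad.center, MonoidHom.ker_id]⟩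
theorem m2_of (k : ∀ β : MulAut G, Odd (orderOf β) → ∃ a, ∃ T : S'.Tw, ∃ m, Un p T m ∧ (T.ρ = 1 ∨ ∀ s, R.d s = 1) ∧ Lift e β a T) : M2 p G :=
  ⟨ι, κ, _, _, _, _, R, C, K, G', G, _, _, _, S', ‹_›, ‹_›, _, e, _, mo Y hC, Y.ad.nt, .inl rfl, ⟨f, fun _ => rfl⟩, fun β o =>
    let ⟨a, T, m, c1, c2, c3⟩ := k β o; ⟨a, T, m, c1, c2, fun y => ⟨β y, rfl, c3 y⟩⟩⟩
omit hC in
theorem lifts : ∃ P : MulAut G →* Equiv.Perm κ, (∀ β, P β ∈ Y.ad.pi.range) ∧ ∀ β, P β = 1 → ∃ m a, Lift e β a (Y.alg.tw m) :=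
  let ⟨P, a1, a2⟩ := ex_pi Y.ad
  ⟨P, a1, fun β b => by
    obtain ⟨x, c, φ, rfl⟩ := a2 β b
    obtain ⟨m, d⟩ := exists_frob (r := p) φ
    exact ⟨m, Y.lift_dec x c d⟩⟩
end

theorem m2_ad [Finite G] (hA : S.Ad) (hC : COk C.toPreChev) (h : ∀ π ∈ hA.pi.range, π ^ 2 = 1) : M2 p G := by
  obtain ⟨e, f, Y⟩ := ex_sys hA p
  obtain ⟨P, a1, a2⟩ := lifts Y
  refine m2_of Y hC fun β o => ?_
  obtain ⟨m, a, c⟩ := a2 β ((pow_eq_one_iff_of_coprime (Nat.coprime_two_left.2 o)).1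
    ⟨h _ (a1 β), by rw [← map_pow, pow_orderOf_eq_one, map_one]⟩)
  exact ⟨a, _, m, un_tw _ _, .inl rfl, c⟩

theorem m1_ad (f2 : F2) (h0 : p ≠ 2) [Finite G] (hA : S.Ad) (hC : COk C.toPreChev) (h : ∀ π ∈ hA.pi.range, π = 1) : M1 p G := by
  obtain ⟨e, f, Y⟩ := ex_sys hA p
  obtain ⟨P, a1, a2⟩ := lifts Y
  have := Fact.mk Nat.prime_two
  have M := mo Y hC
  refine ⟨ι, κ, _, _, _, _, R, C, _, _, G, _, _, _, _, inferInstance, inferInstance, _, e, _, M, fun β b1 b2 => (dich_of (l := 2) Y.alg Y.fix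
    (fun θ d => ?_) (fun n β a k e1 e2 e3 e4 => ?_) β b1 b2).imp_left (.imp fun a c y => ⟨β y, rfl, c y⟩)⟩
  · obtain ⟨m, a, c⟩ := a2 θ (h _ (a1 θ))
    have l : Lv (S' := C.adG _) p e θ 1 m := ⟨_, _, c, rfl, un_tw _ _⟩
    exact ⟨a, m, (Y.lv_one (by simpa only [d, one_pow] using l.pow 2)).2, c⟩
  have n0 : 0 < n := by have := Y.pos; omega
  exact f2 ι κ R C _ _ G _ p _ (Y.alg.fr n0) e β a k h0 M.sw (Wk.sw ⟨Y.alg, hC⟩ fun _ => id) Y.ad'.center M.em
    (fun g => (Y.alg.tw_mul n 2 g).symm.trans (by rw [mul_comm, ← e1]; rfl)) e2 e3 fun y => by rw [e4, Alg.tw_mul]; rfl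

/-- passage to the adjoint group -/
theorem adj (S : St C F G) (h0 : p ≠ 2) (sep : S.Sep) (top : S.U Set.univ = ⊤) (nt : Nontrivial κ) (hc : R.Conn)
    (hd : ∀ r, R.d r = 1 ∨ R.d r = 2) : ∃ hA : (C.adG F).Ad, Nonempty ((C.ad F).U Set.univ ≃* G ⧸ Subgroup.center G) ∧
      ∀ π ∈ hA.pi.range, ∀ i j, R.A (π i) (π j) = R.A i j := by
  obtain ⟨θ, hθ⟩ := exists_isHom_of_center (S' := C.adG F) sep top fun z _ a =>
    (C.adG_center F).le (Subgroup.mem_center_iff.2 fun g => a g ((C.adG_top F).ge trivial))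
  exact ⟨⟨nt, hc, C.adG_sep _, C.adG_top _, C.adG_center _, C.adG_hmul _⟩, ⟨((QuotientGroup.quotientMulEquivOfEq
    (ker_eq_center (C.adG_sep F) top (C.adG_top F) (C.adG_center F) hθ).symm).trans
    (QuotientGroup.quotientKerEquivOfSurjective θ (hθ.surjective (C.adG_top F)))).symm⟩,
    fun π a => pi_sym _ (H12.odd_card_iff.1 (odd_of hp.1 h0)) (two hd) a⟩

theorem m2_rep (S : St C F G) (h0 : p ≠ 2) (sep : S.Sep) (top : S.U Set.univ = ⊤) (nt : Nontrivial κ) (hc : R.Conn)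
    (hC : COk C.toPreChev) (hd : ∀ r, R.d r = 1 ∨ R.d r = 2) (h : ∀ π : Equiv.Perm κ, (∀ i j, R.A (π i) (π j) = R.A i j) → π ^ 2 = 1) :
    M2 p (G ⧸ Subgroup.center G) :=
  let ⟨hA, ⟨e⟩, k⟩ := adj S h0 sep top nt hc hd
  (m2_ad hA hC fun π a => h π (k π a)).congr e
theorem m1_rep (f2 : F2) (S : St C F G) (h0 : p ≠ 2) (sep : S.Sep) (top : S.U Set.univ = ⊤) (nt : Nontrivial κ) (hc : R.Conn)
    (hC : COk C.toPreChev) (hd : ∀ r, R.d r = 1 ∨ R.d r = 2) (h : ∀ π : Equiv.Perm κ, (∀ i j, R.A (π i) (π j) = R.A i j) → π = 1) :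
    M1 p (G ⧸ Subgroup.center G) :=
  let ⟨hA, ⟨e⟩, k⟩ := adj S h0 sep top nt hc hd
  (m1_ad f2 h0 hA hC fun π a => h π (k π a)).congr e
end

theorem sq2 {κ : Type} {π : Equiv.Perm κ} {T : Set κ} (hT : ∀ i ∈ T, π i ∈ T) {a b i : κ} (h : ∀ i ∈ T, i = a ∨ i = b) (m : i ∈ T) :
    (π ^ 2) i = i := by
  have := h _ m; have := h _ (hT _ m); have := h _ (hT _ (hT _ m)); have := π.injective.eq_iff (a := π i) (b := i)
  rw [sq, Equiv.Perm.mul_apply]; grind

theorem sqA {n : ℕ} (hn : 2 ≤ n) (π : Equiv.Perm (Fin n)) (a : ∀ i j, (wdA n).R.A (π i) (π j) = (wdA n).R.A i j) : π ^ 2 = 1 :=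
  down (A := (wdA n).R.A) (fun i j => by rw [sq, Equiv.Perm.mul_apply, Equiv.Perm.mul_apply, a, a]) (n - 1) (by omega)
    (fun i j e => .inl (by simp only [AA]; split_ifs <;> omega)) (fun i j e f => by simp only [AA]; split_ifs <;> omega) fun i e =>
    sq2 (T := {i | ∀ j k, (wdA n).R.A j i = -1 → (wdA n).R.A k i = -1 → j = k}) (a := ⟨0, by omega⟩) (b := ⟨n - 1, by omega⟩)
      (fun i c j k d e => π.symm.injective (c _ _ (by rwa [← a, π.apply_symm_apply]) (by rwa [← a, π.apply_symm_apply]))) (fun i c => by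
        have := i.2
        by_contra d
        simp only [Fin.ext_iff] at d
        have := c ⟨i - 1, by omega⟩ ⟨i + 1, by omega⟩ (by simp only [AA]; split_ifs <;> omega) (by simp [AA])
        simp only [Fin.ext_iff] at this; omega) fun j k f g => by
      have := i.2; have := j.2; have := k.2
      simp only [AA] at f g; rw [Fin.ext_iff]; split_ifs at f g <;> omega

theorem symB {n : ℕ} (hn : 2 ≤ n) (π : Equiv.Perm (Fin n)) (a : ∀ i j, (wbB n).R.A (π i) (π j) = (wbB n).R.A i j) : π = 1 :=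
  down a (n - 1) (by omega) (fun i j e => .inl (by simp only [AB]; split_ifs <;> omega))
    (fun i j e f => by simp only [AB]; split_ifs <;> omega) fun i e => by
    have := a i ⟨n - 2, by omega⟩
    have := i.2; have := (π i).2
    simp only [AB] at *; rw [Fin.ext_iff]; split_ifs at * <;> omega

theorem symC {n : ℕ} (hn : 2 ≤ n) (π : Equiv.Perm (Fin n)) (a : ∀ i j, (wbC n).R.A (π i) (π j) = (wbC n).R.A i j) : π = 1 :=
  down a (n - 1) (by omega) (fun i j e => .inl (by simp only [AC]; split_ifs <;> omega))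
    (fun i j e f => by simp only [AC]; split_ifs <;> omega) fun i e => by
    have := a ⟨n - 2, by omega⟩ i
    have := i.2; have := (π i).2
    simp only [AC] at *; rw [Fin.ext_iff]; split_ifs at * <;> omega

theorem sqD {n : ℕ} (hn : 5 ≤ n) (π : Equiv.Perm (Fin n))
    (a : ∀ i j, (wbD n (by omega)).R.A (π i) (π j) = (wbD n (by omega)).R.A i j) : π ^ 2 = 1 := by
  let x : Fin n := ⟨n - 3, by omega⟩
  have k : ∀ i j, (wbD n (by omega)).R.A i j = -1 ↔ ((i : ℕ) + 1 = j ∧ (j : ℕ) + 1 < n) ∨ ((j : ℕ) + 1 = i ∧ (i : ℕ) + 1 < n) ∨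
      ((i : ℕ) + 2 = j ∧ (j : ℕ) + 1 = n) ∨ ((j : ℕ) + 2 = i ∧ (i : ℕ) + 1 = n) := fun i j => by
    rw [AD]; split_ifs with c d
    exacts [iff_of_false (by decide) (by omega), iff_of_true rfl d, iff_of_false (by decide) d]
  have l : π x = x := by
    have d := fun (i : Fin n) e => (k _ _).1 ((a i x).trans ((k _ _).2 e))
    have d1 := d ⟨n - 4, by omega⟩ (by simp only [x]; omega)
    have d2 := d ⟨n - 2, by omega⟩ (by simp only [x]; omega)
    have d3 := d ⟨n - 1, by omega⟩ (by simp only [x]; omega)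
    have e := fun (i j : Fin n) (e : (i : ℕ) ≠ j) => Fin.val_ne_iff.2 (π.injective.ne (Fin.val_ne_iff.1 e))
    have e1 := e ⟨n - 4, by omega⟩ ⟨n - 2, by omega⟩ (by simp only; omega)
    have e2 := e ⟨n - 4, by omega⟩ ⟨n - 1, by omega⟩ (by simp only; omega)
    have e3 := e ⟨n - 2, by omega⟩ ⟨n - 1, by omega⟩ (by simp only; omega)
    rw [Fin.ext_iff]; simp only [x] at *; omega
  refine down (A := (wbD n (by omega)).R.A) (fun i j => by rw [sq, Equiv.Perm.mul_apply, Equiv.Perm.mul_apply, a, a]) (n - 3) (by omega)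
    (fun i j e => by simp only [AD]; split_ifs <;> omega) (fun i j e f => by simp only [AD]; split_ifs <;> omega) fun i e => ?_
  by_cases f : i = x
  · rw [f, sq, Equiv.Perm.mul_apply, l, l]
  have := i.2
  refine sq2 (T := {i | ∀ j, (wbD n (by omega)).R.A j i = -1 ↔ j = x}) (a := ⟨n - 2, by omega⟩) (b := ⟨n - 1, by omega⟩)
    (fun i c j => by rw [← π.apply_symm_apply j, a, c, ← l, π.injective.eq_iff, l]) (fun i c => ?_) fun j => ?_
  · have c1 := (k _ _).1 ((c x).2 rfl)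
    have c2 := (c ⟨n - 5, by omega⟩).symm.trans (k _ _)
    simp only [Fin.ext_iff, x] at *; omega
  · have := j.2
    rw [k]; simp only [Fin.ext_iff, x] at *; omega

theorem b1 (f2 : F2) : B1 := fun F _ _ p _ _ h0 m hm _ =>
  m1_rep f2 (stPull _ (omToGL_injective F _) (range_omB m F (by omega) (H12.odd_card_iff.1 (odd_of Fact.out h0)))) h0
    (stPull_sep _ _ _ ((wbB m).nat_sep F)) (stPull_top ..) (Fin.nontrivial_iff_two_le.2 (by omega)) connB (wbB m).mb.cok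
    (wbB m).wd.hd (symB (by omega))
theorem b2 : B2 := fun F _ _ p _ _ h0 m hm =>
  m2_rep (stPull _ (omToGL_injective F _) (range_omB m F (by omega) (H12.odd_card_iff.1 (odd_of Fact.out h0)))) h0
    (stPull_sep _ _ _ ((wbB m).nat_sep F)) (stPull_top ..) (Fin.nontrivial_iff_two_le.2 (by omega)) connB (wbB m).mb.cok
    (wbB m).wd.hd fun π a => by rw [symB (by omega) π a, one_pow]
theorem c1 (f2 : F2) : C1 := fun F _ _ p _ _ h0 m hm _ =>
  m1_rep f2 (spSt m F) h0 (spSt_sep ..) (spSt_top ..) (Fin.nontrivial_iff_two_le.2 hm) connC (wbC m).mb.cok (wbC m).wd.hd (symC hm)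
theorem c2 : C2 := fun F _ _ p _ _ h0 m hm =>
  m2_rep (spSt m F) h0 (spSt_sep ..) (spSt_top ..) (Fin.nontrivial_iff_two_le.2 hm) connC (wbC m).mb.cok (wbC m).wd.hd
    fun π a => by rw [symC hm π a, one_pow]
theorem l2 : L2 := fun F _ _ p _ _ h0 n hn => by
  obtain ⟨m, rfl⟩ : ∃ m, n = m + 1 := ⟨n - 1, by omega⟩
  exact m2_rep (slSt m F) h0 (slSt_sep ..) (slSt_top ..) (Fin.nontrivial_iff_two_le.2 (by omega)) connA (mbA m).cok
    (fun r => .inl (hdA r)) (sqA (by omega))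

theorem d4 (F : Type) [Field F] [Fintype F] (p : ℕ) [Fact p.Prime] [CharP F p] : M2 p (chevD4.group F) := by
  obtain ⟨f, Y⟩ := exists_sys goodD4 F p (n := 2) (by norm_num) kerD4
  have a1 := gp (F := F) (r := p) goodD4 okgrD4 ⟨rfl, rfl⟩
  have a2 := gp (F := F) (r := p) goodD4 okgrD4s ⟨rfl, rfl⟩
  refine m2_of Y (cok_good _) fun β _ => ?_
  obtain ⟨π, -, m, ⟨a, T, c, -, d⟩, -⟩ := Y.dec_lv (fun π h => Y.gp_lv ((by
    simpa using ⟨Y.gp_one, a1, gp goodD4 okgrD4i ⟨rfl, rfl⟩, a2, a1.mul a2, a2.mul a1⟩ : ∀ π ∈ _, Gp _ _ p _ π) π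
      (symD4 (Good.range_adj h)))) β
  exact ⟨a, T, m, d, .inr chkD4.d.1, c⟩

theorem e2 : E2 := fun F _ _ p _ _ _ D hD => by
  simp only [List.mem_cons, List.not_mem_nil, or_false] at hD
  rcases hD with rfl | rfl | rfl | rfl | rfl | rfl
  · exact m2_ad (goodG2.ad F) (cok_good _) fun π a => by rcases rangeG2 F a with rfl | ⟨rfl, -⟩ <;> decide +kernel
  · exact d4 F p
  · exact m2_ad (goodF4.ad F) (cok_good _) fun π a => by rcases rangeF4 F a with rfl | ⟨rfl, -⟩ <;> decide +kernel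
  · exact m2_ad (goodE6.ad F) (cok_good _) fun π a => (by decide +kernel : ∀ π ∈ [1, okgrE6.pi], π ^ 2 = 1) π (symE6 (Good.range_adj a))
  · exact m2_ad (goodE7.ad F) (cok_good _) fun π a => by rw [List.mem_singleton.1 (symE7 (Good.range_adj a)), one_pow]
  · exact m2_ad (goodE8.ad F) (cok_good _) fun π a => by rw [List.mem_singleton.1 (symE8 (Good.range_adj a)), one_pow]

theorem o2 : O2 := fun F _ _ p _ _ h0 m hm _ => by
  obtain rfl | h := hm.eq_or_lt
  · exact (d4 F p).congr d4_iso.choose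
  exact m2_rep (stPull _ (omToGL_injective F _) (range_omD m F (by omega) (.inr (by simp; omega)))) h0
    (stPull_sep _ _ _ ((wbD m _).nat_sep F)) (stPull_top ..) (Fin.nontrivial_iff_two_le.2 (by omega)) (connD (by omega))
    (wbD m _).mb.cok (wbD m _).wd.hd (sqD h)

end H18.UK
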