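/-
Unbalancing triples (S3123): involutions of the orthogonal groups of plus type.
-/
import Cfsg.Agent.H18.UK1
import Cfsg.Agent.H29.EF2

set_option autoImplicit false
set_option linter.unusedSectionVars false

namespace H18.UK
open Cfsg H14 H14.RootSys H14.St H14.PreSt H14.St.Tw H11 H27.ID Function H27.UA H18.EF H8.OmT Matrix H11.AS H27.BL

theorem ex_x {m : ℕ} (hm : 2 ≤ m + 1) {F K : Type} [Field F] [Field K] [IsAlgClosed K] (j : F →+* K) {k : F} (h2 : (2 : K) ≠ 0)
    (g : GL (Fin (m + 1) ⊕ Fin (m + 1)) F) (hk : k ≠ 0) (hg : ∀ v, qPlus (m + 1) F (g.1 *ᵥ v) = k * qPlus (m + 1) F v)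
    (hd : g.1.det = k ^ (m + 1)) (h3 : 3 ≤ m + 1) : ∃ x : G0 hm K, ∃ c : K, x.1.1 = c • g.1.map j := by
  obtain ⟨c, hc⟩ := IsAlgClosed.exists_pow_nat_eq (j k)⁻¹ two_pos
  replace hc : c ^ 2 * j k = 1 := by rw [hc, inv_mul_cancel₀ (by simpa using hk)]
  have c0 : c ≠ 0 := by rintro rfl; simp at hc
  let E := glEquiv (GeneralLinearGroup.map j g)
  have e : ∀ v, E (j ∘ v) = j ∘ (g.1 *ᵥ v) := fun v => funext fun c => (RingHom.map_mulVec j g.1 v c).symm
  have q : ∀ v, qPlus (m + 1) K (j ∘ v) = j (qPlus (m + 1) F v) := fun v => by simp [coe_qPlus, quadFormPlus]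
  have r : ∀ u v, QuadraticMap.polar (qPlus (m + 1) K) (j ∘ u) (j ∘ v) = j (QuadraticMap.polar (qPlus (m + 1) F) u v) := fun u v => by
    rw [QuadraticMap.polar, QuadraticMap.polar, map_sub, map_sub, ← q, ← q, ← q]; congr; ext; simp
  have s : Submodule.span K (Set.range fun v : Fin (m + 1) ⊕ Fin (m + 1) → F => j ∘ v) = ⊤ := eq_top_iff.2 fun w _ => by
    rw [pi_eq_sum_univ' w]
    exact sum_mem fun c _ => Submodule.smul_mem _ _ (Submodule.subset_span ⟨Pi.single c 1, funext fun d => by simp [Pi.single_apply]⟩)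
  let U := E ≪≫ₗ LinearEquiv.smulOfNeZero K _ c c0
  have p : (QuadraticMap.polarBilin (qPlus (m + 1) K)).compl₁₂ U.toLinearMap U.toLinearMap =
      QuadraticMap.polarBilin (qPlus (m + 1) K) := LinearMap.ext_on_range s fun u => LinearMap.ext_on_range s fun v => by
    change QuadraticMap.polar _ (c • E _) (c • E _) = QuadraticMap.polar _ _ _
    rw [QuadraticMap.polar_smul_left, QuadraticMap.polar_smul_right, e, e, r, r, QuadraticMap.polar,
      QuadraticMap.polar, ← mulVec_add, hg, hg, hg, ← mul_sub, ← mul_sub, map_mul, smul_eq_mul, smul_eq_mul]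
    linear_combination hc * j (qPlus (m + 1) F (u + v) - qPlus (m + 1) F u - qPlus (m + 1) F v)
  have u : U ∈ H12.orth (qPlus (m + 1) K) := H12.mem_orth.2 fun x => mul_left_cancel₀ h2 (by
    rw [← H12.polar_self', ← H12.polar_self']; exact LinearMap.congr_fun₂ p x x)
  obtain ⟨x, hx, r⟩ := (map_G0 hm).ge ⟨_, H29.EF.so_eich (u := ⟨U, u⟩) (qPlus_nondeg _) h2 (by simp; omega)
    ⟨Pi.single (.inl 0) 1, by simp, Q_single _⟩ (by
      change LinearMap.det (c • E.toLinearMap) = 1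
      rw [LinearMap.det_smul, ← LinearEquiv.coe_det, det_glEquiv,
        GeneralLinearGroup.val_det_apply, show (GeneralLinearGroup.map j g).1 = j.mapMatrix g.1 from rfl,
        ← RingHom.map_det, hd, map_pow, Module.finrank_fintype_fun_eq_card, H22.card_plus, pow_mul, ← mul_pow, hc, one_pow]), rfl⟩
  exact ⟨⟨x, hx⟩, c, mulVec_injective (funext fun v => (LinearEquiv.congr_fun r v).trans (smul_mulVec c (g.1.map j) v).symm)⟩

theorem o1 : O1 := fun F _ _ p hp _ h0 m hm _ => by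
  obtain ⟨m, rfl⟩ : ∃ k, m = k + 1 := ⟨m - 1, by omega⟩
  have h3 : 3 ≤ m + 1 := by omega
  have hm' : 2 ≤ m + 1 := by omega
  have := (H22.plusData F h3).finite
  have := H22.fin_sum_ne h3
  have := Fact.mk Nat.prime_two
  have a := stPull_isHom _ (omToGL_injective F _) (range_omD (m + 1) F hm' (.inr (by simp; omega)))
  have b3 : (S0 hm' (AlgebraicClosure F)).toPreSt.IsHom _ (G0 hm' _).subtype := S0_x hm'
  obtain ⟨μ, a1, a2⟩ := pull_map a (omToGL_injective F _) (stPull_top ..) b3 (Subgroup.subtype_injective _) (algebraMap F _)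
  obtain ⟨Φ, b1, b2, -⟩ := exists_sw₁ (l := 2) (p := p) (alg_rep b3 (Subgroup.subtype_injective _) (T hm' (.id _)).top (T hm' (.id _)).sep)
    (wbD _ hm').mb.cok a1 a2 (stPull_sep _ _ _ ((wbD _ _).nat_sep F)) (stPull_top ..)
  have a3 := DFunLike.congr_fun (hom_ext (stPull_top ..) (α := (G0 hm' _).subtype.comp μ)
    (β := (GeneralLinearGroup.map (algebraMap F _)).comp (omToGL F _)) fun s t => by
      rw [MonoidHom.comp_apply, MonoidHom.comp_apply, a2, b3, a, Rep.map_x])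
  have h : 2 ∣ Nat.card (POmega F (quadFormPlus (m + 1) F)) := (H22.two_dvd_om (qPlus_nondeg _) (H12.odd_card_iff.1 (odd_of hp.1 h0))
    (by simp; omega)).trans (Nat.card_congr (pomegaEquiv _ (coe_qPlus _)).toEquiv).symm.dvd
  refine ⟨_, _, _, _, _, _, _, _, _, _, _, _, _, _, _, inferInstance, inferInstance, Φ, μ, QuotientGroup.mk' _, ⟨b1, connD h3, b2,
    QuotientGroup.mk'_surjective _, QuotientGroup.ker_mk' _⟩, fun β c1 c2 => or_iff_not_imp_left.2 fun c => nb_of h c1 c2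
      fun A d1 d2 d3 => Agent.S2732.result hm ‹_› A d1 h0.symm β d2 d3 fun a => c ?_⟩
  obtain ⟨g, hg, rfl⟩ := (H22.innPlus_iff h3 β).1 a
  obtain ⟨x, c, hx⟩ := ex_x hm' (algebraMap F (AlgebraicClosure F)) (Ring.two_ne_zero (by rwa [ringChar.eq _ p])) g.1
    (H22.mult (qPlus_nondeg _) g).ne_zero (H22.isSS_inl.1 (H22.isSS_mult _ g)).2 (by
      rw [← (H22.isDk (hQ := qPlus_nondeg _) (H22.notExc_five (H22.five_plus h3)) H22.card_plus).det g, show H22.Dk _ _ g = 1 from hg]; simp) h3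
  refine ⟨x, fun y => ?_⟩
  obtain ⟨y', hy⟩ := (H22.plusData F h3).norm _ (H22.iS _ g).2 y
  refine ⟨y', (H22.plusData F h3).ind_iff.2 rfl y y' hy, eq_mul_inv_of_mul_eq (Subtype.ext (Units.ext ?_))⟩
  rw [H22.coe_iS, H22.sdConj_inl, MulAut.conj_apply, eq_mul_inv_iff_mul_eq] at hy
  have k := fun y => congrArg Units.val (a3 y)
  rw [Subgroup.coe_mul, Subgroup.coe_mul, Units.val_mul, Units.val_mul, hx, id_eq, show (μ y).1.1 = _ from k y, show (μ y').1.1 = _ from k y',
    Matrix.mul_smul, Matrix.smul_mul]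
  exact congrArg (c • ·) (Matrix.map_mul.symm.trans ((congrArg (fun z : GL _ F => z.1.map _) hy).trans Matrix.map_mul))

end H18.UK
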