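/-
Unbalancing triples (S3123): involutions of the linear, exceptional and Ree groups.
-/
import Cfsg.Agent.H18.UK1
import Cfsg.Agent.H27.UA2

set_option autoImplicit false
set_option linter.unusedSectionVars false
set_option maxRecDepth 100000

namespace H18.UK
open Cfsg H14 H14.RootSys H14.St H14.PreSt H14.St.Tw H11 H27.ID Function H27.UA H18.EF Matrix H11.AS H27.BL H27.LB H22.KG Cfsg.Lie
  H14.Good

theorem mo_id {ι κ : Type} [Fintype κ] [DecidableEq κ] [Fintype ι] [DecidableEq ι] {R : RootSys ι κ} {C : Chev R} {K G Γ : Type}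
    [Field K] [IsAlgClosed K] [Group G] [Group Γ] {S : St C K G} {F : S.Fr} {p : ℕ} [Fact p.Prime] [CharP K p] {e : Γ →* G}
    (h : Sw F Set.univ p) (c : R.Conn) (hZ : Subgroup.center G = ⊥) (he : Em p F e) : Mo F p e (MonoidHom.id Γ) :=
  ⟨h, c, he, surjective_id, (MonoidHom.ker_id).trans (eq_bot_iff.2 fun z m => he.inj ((h.eq_of hZ he fun y => by
    rw [← map_mul, ← Subgroup.mem_center_iff.1 m y]; simp).trans (map_one e).symm)).symm⟩

theorem m3 (F : Type) [Field F] [Fintype F] (p : ℕ) [Fact p.Prime] [CharP F p] (n : ℕ) :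
    M3 p (ProjectiveSpecialLinearGroup (Fin (n + 1)) F) IsInnerDiagonalAutPSL := by
  have := Fact.mk Nat.prime_two
  obtain ⟨μ, a1, a2, a3⟩ := exists_μ (F := F) n
  obtain ⟨Φ, b1, b2, -⟩ := exists_sw₁ (l := 2) (p := p) (alg_rep (slSt_isHom n _) SpecialLinearGroup.toGL_injective (slSt_top n _)
    (slSt_sep n _)) (mbA n).cok a1 a2 (slSt_sep n F) (slSt_top n F)
  exact ⟨_, _, _, _, _, _, _, _, _, _, _, _, _, _, _, inferInstance, inferInstance, Φ, μ, QuotientGroup.mk' _, ⟨b1, connA, b2,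
    QuotientGroup.mk'_surjective _, QuotientGroup.ker_mk' _⟩, fun β ⟨g, hg⟩ => (a3 g).imp fun a ha y =>
      ⟨⟨(g * SpecialLinearGroup.toGL y * g⁻¹).1, by simp [g.det_ne_zero]⟩, hg _ _ rfl, ha _ _ (Units.ext rfl)⟩⟩

theorem l3 : L3 := fun F _ _ p _ _ _ => m3 F p 1

theorem l1 : L1 := fun F _ _ p hp _ h0 n hn _ => by
  have := Fact.mk Nat.prime_two
  have h := (Nat.Odd.sub_odd (odd_of (F := F) hp.1 h0) odd_one).two_dvd.trans (H22.pred_dvd_psl hn)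
  obtain ⟨n, rfl⟩ : ∃ m, n = m + 1 := ⟨n - 1, by omega⟩
  obtain ⟨ι, κ, _, _, _, _, R, C, K, G, G0, _, _, _, S, _, _, Φ, e, π, a, b⟩ := m3 F p n
  exact ⟨ι, κ, _, _, _, _, R, C, K, G, G0, _, _, _, S, ‹_›, ‹_›, Φ, e, π, a, fun β c1 c2 => or_iff_not_imp_left.2 fun c =>
    nb_of h c1 c2 fun A d1 d2 d3 => Agent.S2686.result F p _ hn ‹_› A d1 2 h0.symm β d2 d3 fun k => c (b β k)⟩

theorem e1 : E1 := fun F _ _ p hp _ h0 D hD _ => by
  have := Fact.mk Nat.prime_two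
  obtain ⟨⟨X⟩, hD⟩ : Nonempty (Good D) ∧ D ∈ [chevG2, chevB2, chevD4, chevF4, chevE6, chevE7, chevE8] := by
    simp only [List.mem_cons, List.not_mem_nil, or_false] at hD ⊢
    rcases hD with rfl | rfl | rfl | rfl | rfl
    exacts [⟨⟨goodG2⟩, by simp⟩, ⟨⟨goodF4⟩, by simp⟩, ⟨⟨goodE6⟩, by simp⟩, ⟨⟨goodE7⟩, by simp⟩, ⟨⟨goodE8⟩, by simp⟩]
  have h := H27.LB.dvd_card (p := 2) (X.ad F) (.inl rfl)
  obtain ⟨Φ, b1, b2, -⟩ := exists_sw₁ (l := 2) (alg_good (F := F) (p := p) X) (cok_good X) (X.mapG_inj (algebraMap F _)) (X.mapG_x _)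
    (X.SG_sep F) (X.SG_top F)
  obtain ⟨N, -, hN⟩ := FiniteField.card F p
  refine ⟨_, _, _, _, _, _, _, _, _, _, _, _, _, _, _, inferInstance, inferInstance, Φ, _, _, mo_id b1 X.conn (X.center_eq_bot _) b2,
    fun β a1 a2 => or_iff_not_imp_left.2 fun c => ?_⟩
  obtain ⟨X', a3⟩ := res_all h0.symm hD (orderOf_eq_prime a1 a2)
  refine nb_lb h a1 a2 ((a3 fun x d a4 => c ?_).1 (H22.dvd_card_Fx (orderOf_eq_prime a1 a2) h))
  have Y := sys_good X' (alg_good (F := F) X') (algebraMap F _) hN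
  obtain ⟨g, hg⟩ := Y.lift_dec x d (φ := 1) fun t => (Y.pow_f t).symm
  rw [Y.ad.df_one, mul_one, ← a4] at hg
  exact ⟨g, fun y => ⟨β y, rfl, (hg y).trans (by rw [Y.fix]; rfl)⟩⟩

theorem r1' {F : Type} [Field F] [Fintype F] {D : ChevalleyDatum} (X : Good D) {g : GrD} (hg : g.Ok D) [hp : Fact g.p.Prime]
    [CharP F g.p] {k : Fin D.nroots → ℕ} {m : ℕ} (hF : Fintype.card F = g.p ^ (1 + 2 * m)) {φ : F →+* F} (hφ : ∀ t, φ t = t ^ g.p ^ m)
    {hs : Surjective φ} {hf0 : g.Fits F} {Γ : Type} [Group Γ] [Finite Γ] {e : Γ →* D.group F}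
    {ψ : Fin D.rank → F →* F} (h : LD (X.tw hg hf0 φ hs) e ψ) (hall : ∀ θ ∈ (X.SG F).Stab e, ∃ c φ, h.Rs θ c φ)
    (h1 : ∀ s : Fin D.nroots, g.gam s = 1 ∧ g.ex s = g.p ^ k s ∧ hg.rho (hg.rho s) = s ∧ k s + k (hg.rho s) = 1) : M1 g.p Γ := by
  have := Fact.mk Nat.prime_two
  have hf := GrD.fits_char (g := g) (AlgebraicClosure F) hp.1 fun x => IsAlgClosed.exists_pow_nat_eq x hp.1.pos
  have Y := sys_good X (alg_good (F := F) X) (algebraMap F _) hF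
  have a0 : ∀ s t, (gt X hg hf).f s t = g.gam s * t ^ g.p ^ k s := fun s t => (h1 s).2.1 ▸ rfl
  obtain ⟨Φ, b1, b2, b3, -⟩ := exists_pw Y.alg a0 (cok_good X) two_ne_zero (w := 1) (H27.BL.iter_eq _ fun s t => by
    have a1 := fun s => X.tw_f hg hf (.id _) surjective_id ⟨(h1 s).1, (h1 s).2.1⟩
    change Tw.σ _ (Tw.σ _ _) = _
    rw [Tw.σ_x, Tw.σ_x, a1, a1]
    exact congrArg₂ _ (h1 s).2.2.1 (by rw [← (h1 s).2.2.2, pow_add, pow_mul]; rfl)) 1 m (by omega)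
  rw [mul_one] at b3
  have he : Em g.p Φ ((X.mapG (algebraMap F _)).comp e) := em_of Y.alg Y.inj Y.ex (σ := (X.tw hg hf0 φ hs).σ)
    (DFunLike.congr_fun (hom_ext (X.SG_top F) (α := Φ.σ.comp (X.mapG _)) (β := (X.mapG _).comp (X.tw hg hf0 φ hs).σ) fun s t => by
      rw [b2, pow_one, ← En_tw]
      change (gt X hg hf).σ ((Y.alg.tw m).σ (X.mapG _ _)) = X.mapG _ ((X.tw hg hf0 φ hs).σ _)
      rw [Tw.σ_x _ s, X.mapG_x, X.mapG_x, Alg.tw_x, Tw.σ_x]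
      refine congrArg _ ((a0 ..).trans ?_)
      change _ = algebraMap _ _ (φ _)
      rw [map_mul, map_intCast, map_mul, map_intCast, hφ, (h1 s).2.1, map_pow, map_pow, pow_right_comm])) hF
    (fun s t => (b3 _).trans (Alg.tw_x ..)) h.emb.inj h.emb.mem fun g hg _ _ => h.emb.lift hg
  exact ⟨_, _, _, _, _, _, _, _, _, _, _, _, _, _, _, inferInstance, inferInstance, Φ, _, _, mo_id b1 X.conn Y.ad'.center he,
    fun β a1 a2 => (dich_of (l := 2) (e := (X.mapG _).comp e) Y.alg (fun y => Y.fix _) (in_ld Y h hall) (fun n _ _ _ c => by omega) β a1 a2).imp_left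
      (.imp fun a c y => ⟨β y, rfl, c y⟩)⟩

theorem r1 : R1 := fun F _ _ m hm hF => by
  obtain ⟨_, φ, h2, hφ, h, hc⟩ := out_G2 hm hF
  exact r1' (hp := ⟨Nat.prime_three⟩) goodG2 okgrG2 (k := fun s => if grG2.ex s = 1 then 0 else 1) (add_comm 1 _ ▸ hF) hφ _
    (allG2 hφ h.emb hc) (by decide +kernel)

end H18.UK
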