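/-
Unbalancing triples (S3123): automorphisms of Ree groups in the odd core of the centralizer of an involution.
-/
import Cfsg.Agent.H14.Ree8
import Cfsg.Agent.H27.UA2

set_option autoImplicit false

namespace H18.UK
open H14 H14.Ree H27.UA Subgroup MatrixGroups

section
variable {K G : Type*} [Field K] [Group G] {R : Ree K G} {β : MulAut G}

theorem re_one {Γ : Type*} [Group Γ] {x : Γ} (h : Odd (orderOf x)) (h2 : x ^ 2 = 1) : x = 1 :=
  orderOf_eq_one_iff.1 (Nat.eq_one_of_dvd_coprimes h.coprime_two_left (orderOf_dvd_of_pow_eq_one h2) dvd_rfl)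

include R in
theorem re_cen {z : G} (h : MulAut.conj z = 1) : z = 1 := by
  have a : ∀ g, z * g = g * z := fun g => mul_inv_eq_iff_eq_mul.1 (DFunLike.congr_fun h g)
  have b : z ∈ R.B := cent_le_B (R.T_mem 0 0 1) (by simp [T_eq_one]) (mem_centralizer_singleton_iff.2 (a _))
  obtain ⟨k, rfl⟩ := mem_H_iff.2 ⟨b, by rwa [← a, mul_assoc, W_W, mul_one]⟩
  by_contra c
  exact one_ne_zero (comm_M (by rintro rfl; simp at c) (a (R.T 0 0 1))).2.1

theorem re_fix [Finite K] (hq : Nat.card K % 8 = 3) (h4 : 4 ≤ Nat.card K) (c : Oc β R.i) {u : G} (hu : Commute R.i u) : β u = u := by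
  obtain ⟨N, a1, a2, a3⟩ := c
  have := Matrix.ProjectiveSpecialLinearGroup.rank_two_simple h4
  have b1 : (N.comap (MulAut.conj.comp R.ψ)).Normal := ⟨fun x hx g => by
    simpa [mem_comap] using a3 _ (i_comm (R.ψ_range.le ⟨g, rfl⟩)) _ hx⟩
  have b2 : ∀ x, MulAut.conj x ∈ N → x * x = 1 → x = 1 := fun x b d =>
    re_cen (R := R) (re_one (a2 _ b).2 (by rw [← map_pow, sq, d, map_one]))
  have b3 : MulAut.conj (β u * u⁻¹) ∈ N := by
    convert mul_mem a1 (a3 u hu _ (inv_mem a1)) using 1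
    ext; simp [mul_assoc]
  have b4 : Commute (β u * u⁻¹) R.i := mul_inv_eq_iff_eq_mul.1 (a2 _ b3).1
  refine mul_inv_eq_one.1 (b2 _ b3 ?_)
  generalize β u * u⁻¹ = s at b3 b4
  obtain ⟨y, hy⟩ : s * s ∈ R.ψ.range := by
    rw [ψ_range]
    rcases (mem_cent_i hq).1 (mem_centralizer_singleton_iff.2 b4) with d | d
    · exact mul_mem d d
    · simpa [← sq, b4.mul_pow, show R.i ^ 2 = 1 from (sq _).trans R.i_sq] using mul_mem d d
  rcases b1.eq_bot_or_eq_top with d | d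
  · rw [← hy, show y = 1 from d.le (show MulAut.conj (R.ψ y) ∈ N by rw [hy, map_mul]; exact mul_mem b3 b3), map_one]
  · obtain ⟨w, hw⟩ := R.ψ_range.ge R.W_mem_L
    exact (R.W_notMem (b2 _ (hw ▸ d.ge trivial) R.W_W ▸ one_mem _)).elim

theorem re_U {g : G} (h : g ∈ R.B) (h9 : g ^ 9 = 1) : g ∈ R.U := by
  obtain ⟨u, hu, k, rfl⟩ := mem_B.1 h
  have a : ∀ n, ∃ v ∈ R.U, (u * R.M k) ^ n = v * R.M (k ^ n) := fun n => by
    induction n with
    | zero => exact ⟨1, one_mem _, by simp⟩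
    | succ n ih =>
      obtain ⟨v, hv, e⟩ := ih
      exact ⟨_, mul_mem hv (M_conj_mem (k ^ n) hu), by rw [pow_succ, e, pow_succ, map_mul]; simp [mul_assoc]⟩
  obtain ⟨v, hv, e⟩ := a 9
  have b : (k : K) ^ 9 = 1 := by
    rw [← Units.val_pow_eq_pow_val, mul_M_mem_U (k := k ^ 9) hv (by rw [← e, h9]; exact one_mem _), Units.val_one]
  rw [show k = 1 from Units.ext (R.σ.injective (R.σ.injective (R.σ.injective (R.σ.injective (by
    rw [R.σσ, R.σσ, R.σσ, R.σσ, ← pow_mul]; simpa using b))))), map_one, mul_one]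
  exact hu

theorem re_aut [Finite K] (h4 : ∃ a : K, a ≠ 0 ∧ a ^ 2 ≠ 1) (o : Odd (orderOf β)) (h : ∀ u, Commute R.i u → β u = u) : β = 1 := by
  have a1 : ∀ b, β (R.T 0 b 0) = R.T 0 b 0 := fun b => h _ (i_comm (R.T_mem_L b))
  have a2 : ∀ k, β (R.M k) = R.M k := fun k => h _ (R.M_comm _ _)
  have a3 : ∀ a c, β (R.T a 0 c) ∈ R.B → ∃ x y z, β (R.T a 0 c) = R.T x y z := fun a c b =>
    re_U b (by rw [← map_pow, T_pow_nine, map_one])
  have a4 : R.T 0 1 0 ≠ 1 := by simp [T_eq_one]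
  have a5 : ∀ (k : Kˣ) a b c x y z, β (R.T a b c) = R.T x y z → β (R.T (k ^ 2 / R.σ k * a) (R.σ k / k * b) (k * c)) =
      R.T (k ^ 2 / R.σ k * x) (R.σ k / k * y) (k * z) := fun k a b c x y z e => by
    rw [← M_conj, ← M_conj, map_mul, map_mul, map_inv, a2, e]
  have b1 : R.T 0 0 1 * R.T 0 1 0 = R.T 0 1 0 * R.T 0 0 1 := by simp [R.T_mul]
  have b2 := congrArg β b1
  rw [map_mul, map_mul, a1] at b2
  obtain ⟨x, y, z, e1⟩ := a3 0 1 (cent_le_B (R.T_mem 0 1 0) a4 (mem_centralizer_singleton_iff.2 b2))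
  obtain rfl : x = 0 := by
    simp only [e1, R.T_mul, T_inj] at b2
    simpa [eq_sub_iff_add_eq] using b2.2.2
  have b3 := a5 (-1) _ _ _ _ _ _ e1
  have b4 := congrArg β (show R.T 0 0 1 * R.T 0 0 (-1) = 1 by simp [R.T_mul])
  simp only [map_neg, map_one, Units.val_neg, Units.val_one, mul_zero, neg_mul, one_mul, neg_div_neg_eq, div_one] at b3
  rw [map_mul, e1, b3, map_one, R.T_mul, T_eq_one] at b4
  obtain rfl : y = 0 := mul_left_cancel₀ R.two_ne (by simpa [two_mul] using b4.2.1)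
  have b5 : ∀ c, β (R.T 0 0 c) = R.T 0 0 (c * z) := fun c => by
    by_cases d : c = 0
    · simp [d]
    · simpa using a5 (Units.mk0 c d) _ _ _ _ _ _ e1
  have b6 := congrArg β (show R.T 0 1 0 * R.T 1 0 0 = R.T 1 0 0 * (R.T 0 1 0 * R.T 0 0 (-1)) by simp [R.T_mul])
  rw [map_mul, map_mul, map_mul, a1, b5] at b6
  obtain ⟨x, y, w, e2⟩ := a3 1 0 (mem_B_of_conj (R.T_mem 0 1 0) a4 (by
    rw [mul_assoc, b6, inv_mul_cancel_left]
    exact mul_mem (R.T_mem_B _ _ _) (R.T_mem_B _ _ _)))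
  obtain rfl : x = z := by
    simp only [e2, R.T_mul, T_inj] at b6
    simpa [sub_eq_add_neg] using b6.2.2
  have b7 := congrArg β (R.T_pow_three 1 0 0)
  rw [map_pow, e2, b5, T_pow_three, T_inj] at b7
  have b8 : x ≠ 0 := by
    rintro rfl
    simp [T_eq_one] at e1
  have b9 := (R.sq_of_mul_σ (Or.inl (mul_left_cancel₀ b8 (show x * (x * R.σ x) = x * 1 by
    linear_combination (norm := (simp; ring1)) -b7.2.2)))).1
  obtain rfl : x = 1 := by
    obtain ⟨n, hn⟩ := o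
    have d : ∀ m, (β ^ (2 * m + 1)) (R.T 0 0 1) = R.T 0 0 x := fun m => by
      induction m with
      | zero => simpa using e1
      | succ m ih =>
        rw [show 2 * (m + 1) + 1 = 2 * m + 1 + 1 + 1 by ring, pow_succ', pow_succ', MulAut.mul_apply, MulAut.mul_apply, ih, b5, b5,
          ← sq, b9, one_mul]
    have := d n
    rw [← hn, pow_orderOf_eq_one, MulAut.one_apply, T_inj] at this
    exact this.2.2.symm
  simp only [mul_one] at b5
  have c1 : ∀ a b c, R.T a b c = R.T a 0 0 * (R.T 0 b 0 * R.T 0 0 c) := fun a b c => by simp [R.T_mul]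
  have c2 := a5 (-1) _ _ _ _ _ _ e2
  have c3 := congrArg β (show R.T 1 0 0 * R.T (-1) 0 0 = R.T 0 1 0 * R.T 0 0 2 by simp [R.T_mul, one_add_one_eq_two])
  simp only [map_neg, map_one, Units.val_neg, Units.val_one, mul_zero, neg_mul, one_mul, neg_div_neg_eq, div_one, even_two,
    Even.neg_pow, one_pow, div_neg, mul_one] at c2
  rw [map_mul, map_mul, a1, b5, e2, c2, R.T_mul, R.T_mul, T_inj] at c3
  obtain rfl : y = 0 := mul_left_cancel₀ R.two_ne (by simpa [two_mul] using c3.2.1)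
  have c4 : ∀ a, β (R.T a 0 0) = R.T a 0 (a ^ 2 * R.σ a * w) := fun a => by
    by_cases d : a = 0
    · simp [d]
    · have f : R.σ a ≠ 0 := by simpa using d
      have := a5 (Units.mk0 (a ^ 2 * R.σ a) (by simp [d])) _ _ _ _ _ _ e2
      simp only [Units.val_mk0, mul_zero, mul_one, map_mul, map_pow, R.σσ] at this
      rwa [show (a ^ 2 * R.σ a) ^ 2 / (R.σ a ^ 2 * a ^ 3) = a by field_simp] at this
  have c5 : ∀ a, (a ^ 2 * R.σ a + 1) * w = (a + 1) ^ 2 * (R.σ a + 1) * w := fun a => by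
    have d := congrArg β (R.T_mul a 0 0 1 0 0)
    rw [c1 (a + 1), map_mul, map_mul, map_mul, c4, c4, c4, a1, b5, R.T_mul, R.T_mul, R.T_mul, T_inj] at d
    linear_combination (norm := (simp; ring1)) d.2.2
  obtain rfl : w = 0 := by
    obtain ⟨a, d1, d2⟩ := h4
    by_contra d
    have f1 := mul_right_cancel₀ d (c5 a)
    have f2 := mul_right_cancel₀ d (c5 (-a))
    rw [map_neg] at f2
    exact d2 (R.sq_of_σ d1 (by linear_combination f1 - f2 + (a + R.σ a) * R.three))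
  have c6 : ∀ a b c, β (R.T a b c) = R.T a b c := fun a b c => by
    rw [c1, map_mul, map_mul, c4, a1, b5, mul_zero]
  ext g
  rcases R.bruhat' g with ⟨a, b, c, k, rfl⟩ | ⟨a, b, c, k, a', b', c', rfl⟩
  · rw [map_mul, c6, a2, MulAut.one_apply]
  · rw [map_mul, map_mul, map_mul, c6, a2, c6, h _ (i_comm ⟨_, rfl⟩), MulAut.one_apply]
end

theorem ri : RI := by
  intro F _ _ m hm hF β _ a _ a2 _ a1 _ _ _ c _ _
  obtain ⟨R, h1, hq, h, -⟩ := G2.ree hF
  obtain ⟨R, rfl⟩ := R.exists_i hq (h hm).hp a1 ((sq a).symm.trans a2)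
  have h3 := (h hm).h3
  have h4 : 4 ≤ Nat.card F := by omega
  obtain ⟨s, hs⟩ := exists_pow_ne_one_of_isCyclic (G := Fˣ) two_ne_zero (by rw [Nat.card_units]; omega)
  exact re_aut (R := R) ⟨s, s.ne_zero, fun e => hs (Units.ext e)⟩ (c.elim fun _ d => (d.2.1 β d.1).2) fun u => re_fix hq h4 c

end H18.UK
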